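import Cfsg.Agent.Deg.Nd2
import Cfsg.Agent.BG.B11
import Cfsg.Agent.Clifford.Frob
import Cfsg.Agent.Clifford.Small

/-!
Tools: cyclic factor groups, fixed-point-free actions on sections, a vanishing lemma.
-/

set_option autoImplicit false

namespace CF.Nd

open Cfsg Subgroup CF.BG CF.Clifford CF.Char CF.Fgs2.Isa CF.Degs MulAction
open scoped commutatorElement ComplexConjugate

attribute [local instance] Fintype.ofFinite linAct

universe u v

variable {G : Type u} [Group G] {d e m n p q r s t : ℕ} {x y z g : G}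
  {A B C D E H I K L M N P T U V W X Y Z : Subgroup G}

theorem nm (X V : Subgroup G) [V.Normal] : X ≤ 𝐍 V := le_top.trans (normalIn_top.2 ‹_›).norm

theorem nrm_of (h : ⊤ ≤ 𝐍 V) : V.Normal := normalIn_top.1 ⟨le_top, h⟩

theorem cm_left [V.Normal] (h : g ∈ V) (y : G) : ⁅g, y⁆ ∈ V :=
  comm_le_left (nm ⊤ V) (commutator_mem_commutator h (mem_top y))

theorem cm_right [V.Normal] (y : G) (h : g ∈ V) : ⁅y, g⁆ ∈ V :=
  comm_le_right (nm ⊤ V) (commutator_mem_commutator (mem_top y) h)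

theorem cm_swap (h : ⁅g, y⁆ ∈ V) : ⁅y, g⁆ ∈ V := by
  rw [← commutatorElement_inv]; exact V.inv_mem h

theorem cm_der (a b : G) : ⁅a, b⁆ ∈ commutator G :=
  commutator_mem_commutator (mem_top a) (mem_top b)

/-- elements that commute with `y` modulo `W` -/
def Cy (W : Subgroup G) [W.Normal] (y : G) : Subgroup G :=
  (𝐂₁ (y : G ⧸ W)).comap (QuotientGroup.mk' W)

theorem mem_Cy [W.Normal] : g ∈ Cy W y ↔ ⁅g, y⁆ ∈ W := by
  rw [Cy, mem_comap, mem_cent1, ← QuotientGroup.eq_one_iff, ← QuotientGroup.mk'_apply W ⁅g, y⁆,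
    map_commutatorElement, commutatorElement_eq_one_iff_mul_comm]
  rfl

theorem mem_Cy' [W.Normal] : g ∈ Cy W y ↔ ⁅y, g⁆ ∈ W := ⟨fun h => cm_swap (mem_Cy.1 h),
  fun h => mem_Cy.2 (cm_swap h)⟩

theorem le_Cy [W.Normal] : W ≤ Cy W y := fun _ h => mem_Cy.2 (cm_left h y)

theorem comm_zpowers_le [W.Normal] (h : ∀ v ∈ V, ⁅v, y⁆ ∈ W) : ⁅V, zpowers y⁆ ≤ W :=
  commutator_le.2 fun v hv _ hz => mem_Cy'.1 (zpowers_le.2 (mem_Cy'.2 (h v hv)) hz)

theorem der_le_gen [N.Normal] (hx : N ⊔ zpowers x = ⊤) : commutator G ≤ ⁅N, ⊤⁆ := by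
  have a : ⁅zpowers x, (⊤ : Subgroup G)⁆ ≤ ⁅N, ⊤⁆ := by
    conv_lhs => rw [← hx]
    refine comm_sup_le' (by rw [commutator_comm]; exact commutator_mono le_rfl le_top) ?_
      (nm _ _) (nm _ _)
    rw [der_eq_bot.2 (abel_zpowers x)]
    exact bot_le
  rw [commutator_def]
  conv_lhs => enter [1]; rw [← hx]
  exact comm_sup_le le_rfl a (nm _ _) (nm _ _)

theorem der_le_N [N.Normal] (hx : N ⊔ zpowers x = ⊤) : commutator G ≤ N :=
  (der_le_gen hx).trans (comm_le_left (nm _ _))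

/-- the commutator map into a factor group -/
def cmH [V.Normal] [W.Normal] (k : ⁅V, V⁆ ≤ W) (y : G) : V →* G ⧸ W :=
  MonoidHom.mk' (fun v => ((⁅v.1, y⁆ : G) : G ⧸ W)) fun a b => by
    have c : ∀ a ∈ V, ∀ b ∈ V, (a : G ⧸ W) * b = b * a := fun a ha b hb =>
      mem_cent1.1 (mem_Cy.2 (k (commutator_mem_commutator ha hb)))
    rw [coe_mul, commutatorElement_mul_left_eq_conj_mul, QuotientGroup.mk_mul,
      QuotientGroup.mk_mul, QuotientGroup.mk_mul, c _ a.2 _ (cm_left b.2 y), QuotientGroup.mk_inv,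
      mul_inv_cancel_right, c _ (cm_left a.2 y) _ (cm_left b.2 y)]

theorem cmH_ker [V.Normal] [W.Normal] (k : ⁅V, V⁆ ≤ W) (y : G) :
    (cmH k y).ker = (Cy W y).subgroupOf V := by
  ext v
  rw [MonoidHom.mem_ker, mem_subgroupOf, mem_Cy, ← QuotientGroup.eq_one_iff]
  rfl

theorem cy_idx [V.Normal] [W.Normal] (k : ⁅V, V⁆ ≤ W) (a : ∀ v ∈ V, ⁅v, y⁆ ∈ M)
    (b : ∀ m ∈ M, ∃ v ∈ V, ⁅v, y⁆⁻¹ * m ∈ W) : (Cy W y).relIndex V = W.relIndex M := by
  have : (cmH k y).range = M.map (QuotientGroup.mk' W) := by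
    refine le_antisymm ?_ ?_
    · rintro _ ⟨v, rfl⟩
      exact ⟨_, a v v.2, rfl⟩
    · rintro _ ⟨m, hm, rfl⟩
      obtain ⟨v, hv, w⟩ := b m hm
      exact ⟨⟨v, hv⟩, QuotientGroup.eq.2 w⟩
  rw [relIndex, ← cmH_ker k, index_ker, this, ← relIndex_ker, QuotientGroup.ker_mk']

/-- `y` acts without fixed points on `V / W` -/
def Fp (V W : Subgroup G) (y : G) : Prop := ∀ v ∈ V, ⁅v, y⁆ ∈ W → v ∈ W

theorem mem_Ann {μ : V →* ℂˣ} : μ ∈ Ann V W ↔ W.subgroupOf V ≤ μ.ker := Iff.rfl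

theorem mem_Il' [V.Normal] {μ : V →* ℂˣ} :
    y ∈ Il V μ ↔ ∀ v (h : v ∈ V), μ ⟨⁅v, y⁆, cm_left h y⟩ = 1 := by
  refine ⟨fun h v hv => le_Il.1 (zpowers_le.2 h)
    (commutator_mem_commutator hv (mem_zpowers y)), fun h => mem_Il.2 fun v => ?_⟩
  have := h _ (V.inv_mem v.2)
  rw [← mul_inv_eq_one, mul_comm, ← map_inv, ← map_mul, ← this]
  congr 1
  ext
  simp [NormalEmb.sub_c, commutatorElement_def, mul_assoc]

variable [Finite G]

theorem exists_pow [N.Normal] (hx : N ⊔ zpowers x = ⊤) (g : G) :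
    ∃ n ∈ N, ∃ k : ℕ, n * x ^ k = g := by
  obtain ⟨n, hn, z, hz, e⟩ := (mem_sup_norm' (nm _ N)).1 (hx.ge (mem_top g))
  obtain ⟨k, rfl⟩ := (mem_powers_iff_mem_zpowers.2 hz)
  exact ⟨n, hn, k, e⟩

omit [Finite G] in
theorem nrm_of_le [N.Normal] (hx : N ⊔ zpowers x = ⊤) (l : N ≤ T) : T.Normal :=
  normal_of_der_le ((der_le_N hx).trans l)

theorem pow_mem_iff [N.Normal] (hx : N ⊔ zpowers x = ⊤) (l : N ≤ T) (k : ℕ) :
    x ^ k ∈ T ↔ T.index ∣ k := by
  have := nrm_of_le hx l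
  have : orderOf (x : G ⧸ T) = T.index := by
    refine orderOf_eq_card_of_forall_mem_zpowers fun g => ?_
    obtain ⟨g, rfl⟩ := QuotientGroup.mk_surjective g
    obtain ⟨n, hn, k, rfl⟩ := exists_pow hx g
    rw [QuotientGroup.mk_mul, (QuotientGroup.eq_one_iff n).2 (l hn), one_mul, QuotientGroup.mk_pow]
    exact npow_mem_zpowers _ _
  rw [← this, orderOf_dvd_iff_pow_eq_one, ← QuotientGroup.mk_pow, QuotientGroup.eq_one_iff]

theorem exists_pow_mem [N.Normal] (hx : N ⊔ zpowers x = ⊤) (l : N ≤ T) (m : N ≤ U)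
    (h : ¬ T ≤ U) : ∃ k : ℕ, x ^ k ∈ T ∧ x ^ k ∉ U := by
  obtain ⟨g, hg, w⟩ := SetLike.not_le_iff_exists.1 h
  obtain ⟨n, hn, k, rfl⟩ := exists_pow hx g
  exact ⟨k, (T.mul_mem_cancel_left (l hn)).1 hg, fun v => w (U.mul_mem (m hn) v)⟩

theorem le_of_idx [N.Normal] (hx : N ⊔ zpowers x = ⊤) (l : N ≤ T) (m : N ≤ U)
    (h : U.index ∣ T.index) : T ≤ U := by
  by_contra w
  obtain ⟨k, a, b⟩ := exists_pow_mem hx l m w
  exact b ((pow_mem_iff hx m k).2 (h.trans ((pow_mem_iff hx l k).1 a)))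

theorem exists_gen [N.Normal] (hx : N ⊔ zpowers x = ⊤) (T : Subgroup G) :
    ∃ z ∈ T, T ≤ N ⊔ zpowers z := by
  have l : N ≤ N ⊔ T := le_sup_left
  obtain ⟨n, hn, z, hz, e⟩ := (mem_sup_norm' (nm _ N)).1 ((pow_mem_iff hx l _).2 dvd_rfl)
  refine ⟨z, hz, le_sup_right.trans (le_of_idx hx l le_sup_left ((pow_mem_iff hx le_sup_left _).1 ?_))⟩
  rw [← e]
  exact mul_mem_sup hn (mem_zpowers z)

theorem Fp.surj [V.Normal] [W.Normal] (h : Fp V W y) {v : G} (hv : v ∈ V) :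
    ∃ u ∈ V, ⁅u, y⁆⁻¹ * v ∈ W := by
  have f := QuotientGroup.mk'_surjective W
  have := Normal.map ‹V.Normal› _ f
  obtain ⟨⟨_, u, hu, rfl⟩, e⟩ := (Finite.injective_iff_surjective (f := fun a : V.map
    (QuotientGroup.mk' W) => ⟨⁅a.1, (y : G ⧸ W)⁆, cm_left a.2 _⟩)).1 (by
      rintro ⟨_, a, ha, rfl⟩ ⟨_, b, hb, rfl⟩ e
      refine Subtype.ext (QuotientGroup.eq.2 (h _ (V.mul_mem (V.inv_mem ha) hb) (mem_Cy.1 ?_)))
      have e := congrArg Subtype.val e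
      simp only [commutatorElement_def] at e
      rw [Cy, mem_comap, mem_cent1, map_mul, map_inv]
      generalize QuotientGroup.mk' W a = a, QuotientGroup.mk' W b = b, (y : G ⧸ W) = y at e
      rw [mul_left_inj] at e
      calc a⁻¹ * b * y = a⁻¹ * (b * y * b⁻¹) * b := by group
        _ = _ := by rw [← e]; group) ⟨_, v, hv, rfl⟩
  refine ⟨u, hu, QuotientGroup.eq.1 ?_⟩
  exact (map_commutatorElement (QuotientGroup.mk' W) u y).trans (congrArg Subtype.val e)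

theorem Fp.eq_one [V.Normal] [W.Normal] (h : Fp V W y) {μ : V →* ℂˣ} (a : μ ∈ Ann V W)
    (b : y ∈ Il V μ) : μ = 1 := MonoidHom.ext fun v => by
  obtain ⟨u, hu, w⟩ := h.surj v.2
  have := a (x := (⟨⁅u, y⁆, cm_left hu y⟩ : V)⁻¹ * v) w
  rwa [MonoidHom.mem_ker, map_mul, map_inv, mem_Il'.1 b u hu, inv_one, one_mul] at this

theorem surj_of_dual [V.Normal] [W.Normal] (k : ⁅V, V⁆ ≤ W) {m : G} (hm : m ∈ V)
    (h : ∀ μ ∈ Ann V W, y ∈ Il V μ → μ ⟨m, hm⟩ = 1) : ∃ v ∈ V, ⁅v, y⁆⁻¹ * m ∈ W := by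
  by_contra! w
  have l : W ≤ (cmH k y).range.comap (QuotientGroup.mk' W) := fun a ha => by
    rw [mem_comap, QuotientGroup.mk'_apply, (QuotientGroup.eq_one_iff a).2 ha]
    exact one_mem _
  obtain ⟨μ, a, b⟩ := exists_lin_ne (k.trans l) (x := ⟨m, hm⟩) fun ⟨v, e⟩ =>
    w v v.2 (QuotientGroup.eq.1 e)
  exact b (h μ ((subgroupOf_mono V l).trans a) (mem_Il'.2 fun v hv => a ⟨⟨v, hv⟩, rfl⟩))

theorem fp_of_surj [V.Normal] [W.Normal] (k : ⁅V, V⁆ ≤ W)
    (h : ∀ m ∈ V, ∃ v ∈ V, ⁅v, y⁆⁻¹ * m ∈ W) : Fp V W y := fun v hv w => by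
  have := cy_idx k (fun v hv => cm_left hv y) h
  rw [← inf_relIndex_left, ← inf_relIndex_left V W] at this
  exact (eq_of_relIndex (inf_le_inf_left V le_Cy) inf_le_left this.symm ⟨hv, mem_Cy.2 w⟩).2

theorem fp_of_dual [V.Normal] [W.Normal] (k : ⁅V, V⁆ ≤ W)
    (h : ∀ μ ∈ Ann V W, y ∈ Il V μ → μ = 1) : Fp V W y :=
  fp_of_surj k fun _ hm => surj_of_dual k hm fun μ a b => by rw [h μ a b]; rfl

theorem exists_fix [V.Normal] [W.Normal] (k : ⁅V, V⁆ ≤ W) (h : ¬ Fp V W y) :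
    ∃ μ ∈ Ann V W, μ ≠ 1 ∧ y ∈ Il V μ := by
  by_contra! w
  exact h (fp_of_dual k fun μ a b => by_contra fun c => w μ a c b)

omit [Finite G] in
theorem incl_excl {ι κ : Type*} (s : Finset ι) (Y : Finset κ) (u : κ → ℕ) (F : ι → ℕ → ℂ)
    (h : ∀ i ∈ s, (∀ k, F i k = 0) ∨ ∃ y ∈ Y, ∀ k, F i (u y + k) = F i k)
    (h0 : ∀ J ⊆ Y, J.Nonempty → ∑ i ∈ s, F i (∑ y ∈ J, u y) = 0) : ∑ i ∈ s, F i 0 = 0 := by
  classical
  have a : ∑ i ∈ s, ∑ J ∈ Y.powerset, (-1) ^ J.card * F i (∑ y ∈ J, u y) = 0 :=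
    Finset.sum_eq_zero fun i hi => by
      obtain w | ⟨y, hy, w⟩ := h i hi
      · simp [w]
      rw [← Finset.insert_erase hy, Finset.sum_powerset_insert (Y.notMem_erase y),
        ← Finset.sum_add_distrib]
      refine Finset.sum_eq_zero fun J hJ => ?_
      have : y ∉ J := fun v => Y.notMem_erase y (Finset.mem_powerset.1 hJ v)
      rw [Finset.card_insert_of_notMem this, Finset.sum_insert this, w]
      ring
  rw [Finset.sum_comm, Finset.sum_eq_single ∅ (fun J hJ e => by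
    rw [← Finset.mul_sum, h0 J (Finset.mem_powerset.1 hJ) (Finset.nonempty_iff_ne_empty.2 e),
      mul_zero]) (by simp)] at a
  simpa using a

open Classical in
theorem ksum [L.Normal] {a b : G} (h : ∀ l ∈ L, ¬ IsConj (l * a) b) :
    ∑ ψ : IrrCharacter G, (if L ≤ charKer (ψ : G → ℂ) then 0 else
      (ψ : G → ℂ) a * conj ((ψ : G → ℂ) b)) = 0 := by
  have e : ∑ l : L, ∑ ψ : IrrCharacter G, (ψ : G → ℂ) (l * a) * conj ((ψ : G → ℂ) b) = 0 :=
    Finset.sum_eq_zero fun l _ => sum_irr_mul_conj_of_not_isConj (h l l.2)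
  have f := sum_irr_mul_conj_of_not_isConj (h 1 L.one_mem)
  rw [Finset.sum_comm, Finset.sum_congr rfl (g := fun ψ : IrrCharacter G => (Nat.card L : ℂ) *
    if L ≤ charKer (ψ : G → ℂ) then (ψ : G → ℂ) a * conj ((ψ : G → ℂ) b) else 0) fun ψ _ => by
      rw [← Finset.sum_mul]
      split_ifs with w
      · rw [Finset.sum_congr rfl (g := fun _ => (ψ : G → ℂ) a) fun l _ => w l.2 a]
        simp [mul_assoc]
      · rw [sum_coset_eq_zero ψ.2 L w, zero_mul, mul_zero], ← Finset.mul_sum,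
    mul_eq_zero_iff_left (by exact_mod_cast Nat.card_pos.ne')] at e
  rw [one_mul] at f
  rw [← sub_zero (0 : ℂ)]
  conv_rhs => enter [1]; rw [← f]
  conv_rhs => enter [2]; rw [← e]
  rw [← Finset.sum_sub_distrib]
  refine Finset.sum_congr rfl fun ψ _ => ?_
  split_ifs <;> simp

theorem cls [L.Normal] (h : ∀ ψ, IsIrrCharacter G ψ → ¬ L ≤ charKer ψ → ψ g = 0) {e : G}
    (he : e ∈ L) : ∃ n, ⁅g, n⁆ = e := by
  have : IsConj (e⁻¹ * g) g := by
    by_contra w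
    have a := sum_irr_mul_conj_of_not_isConj w
    rw [Finset.sum_congr rfl (g := fun ψ : IrrCharacter G => (ψ : G → ℂ) g * conj ((ψ : G → ℂ) g))
      fun ψ _ => by
        by_cases v : L ≤ charKer (ψ : G → ℂ)
        · rw [v (L.inv_mem he) g]
        · simp [h _ ψ.2 v], sum_irr_mul_conj_of_isConj (IsConj.refl g)] at a
    exact Nat.card_pos.ne' (by exact_mod_cast a)
  obtain ⟨c, hc⟩ := isConj_iff.1 this.symm
  refine ⟨c, ?_⟩
  calc ⁅g, c⁆ = g * (c * g * c⁻¹)⁻¹ := by rw [commutatorElement_def]; group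
    _ = e := by rw [hc]; group

theorem le_center_of_sq {χ : G → ℂ} (hχ : IsIrrCharacter G χ) (e : χ 1 = d)
    (h : ∀ g, g ∉ Z → χ g = 0) (k : d ^ 2 = Z.index) : Z ≤ charCenter χ := by
  classical
  have a := sum_norm_sq_irr hχ
  have n1 : ‖χ 1‖ = d := by rw [e]; simp
  rw [← Finset.sum_subset (Finset.subset_univ (Finset.univ.filter (· ∈ Z))) fun g _ hg => by
    simp [h g (by simpa using hg)]] at a
  have b : ∑ g ∈ Finset.univ.filter (· ∈ Z), ‖χ 1‖ ^ 2 = Nat.card G := by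
    rw [Finset.sum_const, n1, ← Z.card_mul_index, ← k, Nat.card_eq_fintype_card,
      Fintype.card_subtype]
    simp
  intro g hg
  have := (Finset.sum_eq_sum_iff_of_le fun g _ => pow_le_pow_left₀ (norm_nonneg _)
    (char_norm_le (irr_isCharacter hχ) g) 2).1 (a.trans b.symm) g (by simpa using hg)
  exact (mem_charCenter_iff (irr_isCharacter hχ)).2
    ((pow_left_inj₀ (norm_nonneg _) (norm_nonneg _) two_ne_zero).1 this)

/-- the inertia group -/
abbrev In (N : Subgroup G) [N.Normal] (ψ : N → ℂ) : Subgroup G := (NormalEmb.sub N).inertia ψ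

theorem bt [N.Normal] [L.Normal] (hx : N ⊔ zpowers x = ⊤) (l : N ≤ C)
    (h : ∀ ψ, IsIrrCharacter N ψ → ¬ L.subgroupOf N ≤ charKer ψ → ¬ In N ψ ≤ C) {g : N}
    (a : ∀ n ∈ N, ⁅n, g.1⁆ ∈ L) (b : ∀ y, y ∉ C → ⁅y, g.1⁆ ∉ L) {ψ : N → ℂ}
    (hψ : IsIrrCharacter N ψ) (k : ¬ L.subgroupOf N ≤ charKer ψ) : ψ g = 0 := by
  classical
  have m0 : C.index ≠ 0 := index_ne_zero_of_finite
  have f0 : N.index ≠ 0 := index_ne_zero_of_finite
  have := incl_excl Finset.univ C.index.primeFactors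
    (fun s => s ^ (C.index.factorization s - 1) * ordCompl[s] N.index)
    (fun (φ : IrrCharacter N) k => if L.subgroupOf N ≤ charKer (φ : N → ℂ) then 0 else
      (φ : N → ℂ) ((NormalEmb.sub N).c (x ^ k) g) * conj ((φ : N → ℂ) g)) (fun φ _ => by
    by_cases w : L.subgroupOf N ≤ charKer (φ : N → ℂ)
    · exact .inl fun k => if_pos w
    have i := le_inertia_self φ.2
    have t0 : (In N φ.1).index ≠ 0 := index_ne_zero_of_finite
    have : ¬ C.index ∣ (In N φ.1).index := fun v => h _ φ.2 w (le_of_idx hx i l v)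
    rw [← Nat.factorization_le_iff_dvd m0 t0, Finsupp.le_def, not_forall] at this
    obtain ⟨s, hs⟩ := this
    have s1 : s ∈ C.index.primeFactors := by
      rw [← Nat.support_factorization, Finsupp.mem_support_iff]; omega
    refine .inr ⟨s, s1, fun k => ?_⟩
    have : x ^ (s ^ (C.index.factorization s - 1) * ordCompl[s] N.index) ∈ In N φ.1 := by
      rw [pow_mem_iff hx i, ← Nat.ordProj_mul_ordCompl_eq_self (In N φ.1).index s]
      exact Nat.mul_dvd_mul (pow_dvd_pow s (by omega))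
        (Nat.ordCompl_dvd_ordCompl_of_dvd (index_dvd_of_le i) s)
    simp only [if_neg w, pow_add, NormalEmb.c_mul, (NormalEmb.mem_inertia' _).1 this]) fun J hJ ⟨s, hs⟩ => by
    refine ksum fun c hc w => b (x ^ ∑ s ∈ J, s ^ (C.index.factorization s - 1) * ordCompl[s] N.index)
      (fun v => ?_) ?_
    · have hp := Nat.prime_of_mem_primeFactors (hJ hs)
      have v := (Nat.ordProj_dvd C.index s).trans ((pow_mem_iff hx l _).1 v)
      rw [← Finset.add_sum_erase _ _ hs, Nat.dvd_add_left (Finset.dvd_sum fun r hr => ?_)] at v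
      · have := (Nat.coprime_ordCompl hp f0).pow_left (C.index.factorization s) |>.dvd_of_dvd_mul_right v
        rw [Nat.pow_dvd_pow_iff_le_right hp.one_lt] at this
        have := hp.factorization_pos_of_dvd m0 (Nat.dvd_of_mem_primeFactors (hJ hs))
        omega
      · refine Dvd.dvd.mul_left ?_ _
        have hr' := Nat.prime_of_mem_primeFactors (hJ (Finset.mem_of_mem_erase hr))
        refine Nat.Coprime.dvd_of_dvd_mul_left (Nat.coprime_pow_primes _ (N.index.factorization r)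
          hp hr' (Finset.ne_of_mem_erase hr).symm) ?_
        rw [Nat.ordProj_mul_ordCompl_eq_self]
        exact (Nat.ordProj_dvd _ _).trans (index_dvd_of_le l)
    · obtain ⟨n, e⟩ := isConj_iff.1 w.symm
      have e := congrArg Subtype.val e
      simp only [coe_mul, coe_inv, NormalEmb.sub_c] at e
      have := L.mul_mem (L.inv_mem (show c.1 ∈ L from hc)) (a n n.2)
      rwa [commutatorElement_def, e, ← mul_assoc, inv_mul_cancel_left] at this
  simp only [pow_zero, map_one, MulAut.one_apply] at this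
  have := (Finset.sum_eq_zero_iff_of_nonneg fun φ _ => ?_).1 (congrArg Complex.re this |>
    (Complex.re_sum _ _).symm.trans) ⟨ψ, hψ⟩ (Finset.mem_univ _)
  · rw [if_neg k, Complex.mul_conj, Complex.ofReal_re] at this
    exact Complex.normSq_eq_zero.1 this
  · split_ifs
    · simp
    · rw [Complex.mul_conj, Complex.ofReal_re]
      exact Complex.normSq_nonneg _

/-- `ψ` is a multiple of `μ` on `V` -/
def Ovc (ψ : N → ℂ) (μ : V →* ℂˣ) : Prop :=
  ∀ (v : V) (hv : v.1 ∈ N) (n : N), ψ (⟨v, hv⟩ * n) = μ v * ψ n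

theorem exists_ovc (l : V ≤ N) {ψ : N → ℂ} (hψ : IsIrrCharacter N ψ)
    (k : ⁅V, N⁆.subgroupOf N ≤ charKer ψ) : ∃ μ : V →* ℂˣ, Ovc ψ μ := by
  obtain ⟨μ, e⟩ := exists_linear_of_le_charCenter (irr_one_ne_zero hψ) (V.subgroupOf N)
    fun v hv => (mem_charCenter_iff_commutator hψ).2 fun n => k (commutator_mem_commutator hv n.2)
  exact ⟨μ.comp (subgroupOfEquivOfLe l).symm.toMonoidHom, fun v hv n => e ⟨⟨v, hv⟩, v.2⟩ n⟩

theorem exists_irr_ovc [V.Normal] (l : V ≤ N) {μ : V →* ℂˣ} (k : N ≤ Il V μ) :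
    ∃ ψ : N → ℂ, IsIrrCharacter N ψ ∧ Ovc ψ μ := by
  let E := (NormalEmb.sub V).restrict N fun v => l v.2
  obtain ⟨ψ, a, b⟩ := CF.Clifford.exists_irr_over E.ι E.inj (irr_linear μ)
  obtain ⟨e, e0, c⟩ := E.exists_nat_res_eq_of_invariant a (irr_linear μ)
    (fun g v => congrFun (k g.2) v) b
  have c1 : ψ 1 = e := by simpa using congrFun c 1
  refine ⟨ψ, a, fun v hv n => ?_⟩
  have c2 : ψ ⟨v, hv⟩ = e * μ v := congrFun c v
  rw [char_mul_of_mem_charCenter (irr_one_ne_zero a) ((mem_charCenter_iff (irr_isCharacter a)).2 (by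
    rw [c1, c2, norm_mul, linear_norm, mul_one])), c1, c2,
    mul_div_cancel_left₀ _ (by exact_mod_cast e0.ne')]

omit [Finite G] in
theorem Ovc.val {ψ : N → ℂ} {μ : V →* ℂˣ} (h : Ovc ψ μ) (v : V) (hv : v.1 ∈ N) :
    ψ ⟨v, hv⟩ = μ v * ψ 1 := by rw [← h v hv, mul_one]

theorem Ovc.ker {ψ : N → ℂ} {μ : V →* ℂˣ} (h : Ovc ψ μ) (hψ : IsIrrCharacter N ψ) (v : V)
    (hv : v.1 ∈ N) : (⟨v, hv⟩ : N) ∈ charKer ψ ↔ μ v = 1 := by
  rw [mem_charKer_iff (irr_isCharacter hψ), h.val, mul_eq_right₀ (irr_one_ne_zero hψ),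
    Units.val_eq_one]

theorem Ovc.ann {ψ : N → ℂ} {μ : V →* ℂˣ} (h : Ovc ψ μ) (hψ : IsIrrCharacter N ψ) (l : V ≤ N)
    (k : W ≤ V) : W.subgroupOf N ≤ charKer ψ ↔ μ ∈ Ann V W :=
  ⟨fun w v hv => (h.ker hψ v (l v.2)).1 (w hv), fun w v hv =>
    (h.ker hψ ⟨v, k hv⟩ v.2).2 (w hv)⟩

theorem Ovc.ne {ψ : N → ℂ} {μ : V →* ℂˣ} (h : Ovc ψ μ) (hψ : IsIrrCharacter N ψ) (l : V ≤ N) :
    V.subgroupOf N ≤ charKer ψ ↔ μ = 1 := by
  rw [h.ann hψ l le_rfl, mem_Ann, subgroupOf_self, top_le_iff, MonoidHom.ker_eq_top_iff]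

omit [Finite G] in
theorem Ovc.le [N.Normal] [V.Normal] {ψ : N → ℂ} {μ : V →* ℂˣ} (h : Ovc ψ μ)
    (hψ : IsIrrCharacter N ψ) (l : V ≤ N) : In N ψ ≤ Il V μ := fun g hg => mem_Il.2 fun v => by
  have := (NormalEmb.mem_inertia' _).1 hg ⟨v, l v.2⟩
  rwa [h.val, show (NormalEmb.sub N).c g ⟨v, l v.2⟩ = ⟨(NormalEmb.sub V).c g v, l (Subtype.prop _)⟩
    from rfl, h.val, mul_left_inj' (irr_one_ne_zero hψ), Units.val_inj] at this

end CF.Nd
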