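import Cfsg.Agent.Nd.A1

/-!
The standing hypothesis for groups without divisibility among character degrees.
-/

set_option autoImplicit false

namespace CF.Nd

open Cfsg Subgroup CF.BG CF.Clifford CF.Char CF.Fgs2.Isa CF.Degs MulAction
open scoped commutatorElement ComplexConjugate

attribute [local instance] Fintype.ofFinite linAct

universe u v

variable {G : Type u} [Group G] {d e m n p q r s t : ℕ} {x y z g : G} {S : Set ℕ}
  {A B C D E H I K L M N P T U V W X Y Z : Subgroup G}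

/-- the standing hypothesis -/
structure St (S : Set ℕ) (N : Subgroup G) (x : G) : Prop where
  sol : Group.IsSolvable G
  gen : N ⊔ zpowers x = ⊤
  sub : 𝐜𝐝 G ⊆ S
  anti : ∀ a ∈ S, ∀ b ∈ S, a ≠ 1 → a ∣ b → a = b
  mem : N.index ∈ S
  cop : (⁅N, N⁆.relIndex (commutator G)).Coprime N.index
  ne : ¬ commutator G ≤ ⁅N, N⁆

/-- elements of `N` that are central modulo `N'` -/
def DD (N : Subgroup G) : Subgroup G := N ⊓ centMod ⊤ ⁅N, N⁆

theorem mem_DD [N.Normal] : g ∈ DD N ↔ g ∈ N ∧ ∀ y, ⁅g, y⁆ ∈ ⁅N, N⁆ :=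
  ⟨fun h => ⟨h.1, fun y => h.2.2 y trivial⟩, fun h => ⟨h.1, nm ⊤ _ trivial, fun y _ => h.2 y⟩⟩

instance instNormalDD [N.Normal] : (DD N).Normal :=
  nrm_of (norm_inf (nm _ _) (norm_centMod (nm _ _) (nm _ _)))

theorem DD_le : DD N ≤ N := inf_le_left

theorem le_DD [N.Normal] : ⁅N, N⁆ ≤ DD N := fun _ h => mem_DD.2 ⟨der_le N h, cm_left h⟩

theorem comm_DD [N.Normal] (X : Subgroup G) : ⁅DD N, X⁆ ≤ ⁅N, N⁆ :=
  commutator_le.2 fun _ h y _ => (mem_DD.1 h).2 y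

theorem EM (N : Subgroup G) : ⁅N, N⁆ ≤ commutator G := commutator_mono le_top le_top

theorem map_DD [N.Normal] [L.Normal] [(N.map (QuotientGroup.mk' L)).Normal] :
    (DD N).map (QuotientGroup.mk' L) ≤ DD (N.map (QuotientGroup.mk' L)) := by
  rintro _ ⟨g, hg, rfl⟩
  refine mem_DD.2 ⟨⟨g, hg.1, rfl⟩, fun y => ?_⟩
  obtain ⟨y, rfl⟩ := QuotientGroup.mk'_surjective L y
  rw [← map_commutator, ← map_commutatorElement]
  exact ⟨_, (mem_DD.1 hg).2 y, rfl⟩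

theorem St.change (h : St S N x) (k : N ⊔ zpowers y = ⊤) : St S N y :=
  ⟨h.sol, k, h.sub, h.anti, h.mem, h.cop, h.ne⟩

theorem St.f1 (h : St S N x) : N.index ≠ 1 := fun w =>
  h.ne (by rw [index_eq_one.1 w]; exact le_rfl)

theorem St.xN (h : St S N x) : x ∉ N := fun w => h.f1 (index_eq_one.2 (by
  rw [← h.gen, sup_eq_left.2 (zpowers_le.2 w)]))

theorem St.MN [N.Normal] (h : St S N x) : commutator G ≤ N := der_le_N h.gen

theorem St.exM (h : St S N x) : ∃ g ∈ commutator G, g ∉ ⁅N, N⁆ := SetLike.not_le_iff_exists.1 h.ne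

theorem St.mem_D [N.Normal] (h : St S N x) (a : g ∈ N) (b : ⁅g, x⁆ ∈ ⁅N, N⁆) : g ∈ DD N :=
  mem_DD.2 ⟨a, fun y => mem_Cy'.1 ((h.gen.ge.trans (sup_le (fun n hn => mem_Cy'.2
    (commutator_mem_commutator a hn)) (zpowers_le.2 (mem_Cy'.2 b)))) (mem_top y))⟩

variable [Finite G]

theorem St.kd [N.Normal] (h : St S N x) {ψ : N → ℂ} (hψ : IsIrrCharacter N ψ) (e : ψ 1 = t) :
    Kd N ψ ((In N ψ).index * t) := by
  have l := le_inertia_self hψ
  obtain ⟨z, hz, w⟩ := exists_gen h.gen (In N ψ)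
  obtain ⟨η, a, b⟩ := ((NormalEmb.sub N).restrict _ fun n => l n.2).exists_ext_of_isCyclic hψ
    (fun g => congrFun g.2) ⟨(⟨z, hz⟩ : In N ψ), fun g => by
      obtain ⟨g, rfl⟩ := QuotientGroup.mk_surjective g
      obtain ⟨n, hn, _, ⟨k, rfl⟩, e⟩ := (mem_sup_norm' (nm _ N)).1 (w g.2)
      refine ⟨k, (QuotientGroup.mk_zpow _ _ k).symm.trans (QuotientGroup.eq.2 ⟨⟨_,
        ‹N.Normal›.conj_mem n hn (z ^ k)⁻¹⟩, Subtype.ext ?_⟩)⟩
      simp [NormalEmb.restrict_ι, ← e, mul_assoc]⟩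
  obtain ⟨χ, u, v, w⟩ := exists_over_mul (NormalEmb.sub N) hψ le_rfl (fun n => l n.2)
    (irr_isCharacter a) b irr_one fun n => rfl
  exact ⟨χ, u, v, by rw [w, e]; push_cast; ring⟩

theorem St.deg [N.Normal] (h : St S N x) {ψ : N → ℂ} (hψ : IsIrrCharacter N ψ) (e : ψ 1 = t) :
    (In N ψ).index * t ∈ S := h.sub (Kd.cd (h.kd hψ e))

theorem St.eq_N [N.Normal] (h : St S N x) (a : T.index * t ∈ S) (l : T ≤ N) : T = N ∧ t = 1 := by
  have e := h.anti _ h.mem _ a h.f1 ((index_dvd_of_le l).mul_right _)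
  obtain ⟨k, hk⟩ := index_dvd_of_le l
  rw [hk, mul_assoc] at e
  have := (Nat.mul_eq_left index_ne_zero_of_finite).1 e.symm
  rw [Nat.eq_one_of_mul_eq_one_right this, mul_one] at hk
  exact ⟨eq_of_le_of_index_le l hk.le, Nat.eq_one_of_mul_eq_one_left this⟩

theorem St.lin [N.Normal] (h : St S N x) (μ : N →* ℂˣ) (hy : y ∉ N) (k : y ∈ Il N μ) :
    Il N μ = ⊤ := by
  by_contra w
  have a := h.deg (irr_linear μ) (t := 1) (by simp)
  rw [mul_one] at a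
  have := h.anti _ a _ h.mem (fun v => w (index_eq_one.1 v)) (index_dvd_of_le (le_Il_self μ))
  exact hy ((eq_of_le_of_index_le (le_Il_self μ) this.ge).ge k)

theorem nl_iff {ψ : N → ℂ} (hψ : IsIrrCharacter N ψ) :
    ⁅N, N⁆.subgroupOf N ≤ charKer ψ ↔ ψ 1 = 1 := by rw [der_sub, irr_one_eq_one_iff hψ]

theorem St.nonlin [N.Normal] (h : St S N x) {ψ : N → ℂ} (hψ : IsIrrCharacter N ψ)
    (k : ¬ ⁅N, N⁆.subgroupOf N ≤ charKer ψ) : ¬ In N ψ ≤ N := fun w => by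
  obtain ⟨t, -, e⟩ := exists_cd hψ
  exact k ((nl_iff hψ).2 (by simp [e, (h.eq_N (h.deg hψ e) w).2]))

theorem St.nt [N.Normal] [U.Normal] (h : St S N x) (l : U ≤ ⁅N, N⁆) {μ : U →* ℂˣ} (m1 : μ ≠ 1)
    (k : N ≤ Il U μ) : ¬ Il U μ ≤ N := fun w => by
  have l' := l.trans (der_le N)
  obtain ⟨ψ, a, b⟩ := exists_irr_ovc l' k
  exact h.nonlin a (fun v => m1 ((b.ne a l').1 ((subgroupOf_mono N l).trans v)))
    ((b.le a l').trans w)

theorem St.surjN [N.Normal] (h : St S N x) (hy : y ∉ N) {m : G} (hm : m ∈ commutator G) :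
    ∃ n ∈ N, ⁅n, y⁆⁻¹ * m ∈ ⁅N, N⁆ :=
  surj_of_dual le_rfl (h.MN hm) fun μ _ k =>
    le_Il.1 (h.lin μ hy k).ge (x := ⟨m, h.MN hm⟩) (der_le_gen h.gen hm)

theorem St.DM [N.Normal] (h : St S N x) (a : g ∈ DD N) (b : g ∈ commutator G) : g ∈ ⁅N, N⁆ := by
  obtain ⟨n, hn, w⟩ := h.surjN h.xN b
  have c : ⁅n, x⁆ ∈ DD N := by
    simpa using (DD N).mul_mem a ((DD N).inv_mem (le_DD w))
  suffices ⁅n, x⁆ ∈ ⁅N, N⁆ from (mul_mem_cancel_left (inv_mem this)).1 w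
  have c1 := mem_cent1.1 (mem_Cy.2 ((mem_DD.1 c).2 x))
  rw [← QuotientGroup.eq_one_iff]
  refine eq_one_of_pow ((QuotientGroup.mk_pow _ _ _).symm.trans ((QuotientGroup.eq_one_iff _).2
    (pow_relIndex_mem _ (cm_der n x)))) ?_ h.cop
  have c2 := mem_cent1.1 (mem_Cy.2 (commutator_mem_commutator hn (N.pow_index_mem x)))
  rw [QuotientGroup.mk'_apply] at c1 c2
  rw [QuotientGroup.mk_pow] at c2
  have c3 : ((⁅n, x⁆ : G) : G ⧸ ⁅N, N⁆) * x = n * x * (n : G ⧸ ⁅N, N⁆)⁻¹ := by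
    simp [commutatorElement_def]
  have := congrArg (· ^ N.index) c3
  rwa [conj_pow, Commute.mul_pow c1, c2, mul_inv_cancel_right, mul_eq_right] at this

theorem St.cy [N.Normal] (h : St S N x) (hy : y ∉ N) :
    (Cy ⁅N, N⁆ y).relIndex N = ⁅N, N⁆.relIndex (commutator G) :=
  cy_idx le_rfl (fun v _ => cm_der v y) fun _ hm => h.surjN hy hm

theorem St.idx [N.Normal] (h : St S N x) : (DD N).relIndex N = ⁅N, N⁆.relIndex (commutator G) := by
  rw [← h.cy h.xN, ← inf_relIndex_left N (Cy _ _)]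
  congr 1
  exact le_antisymm (fun g hg => ⟨hg.1, mem_Cy.2 ((mem_DD.1 hg).2 x)⟩)
    fun g hg => h.mem_D hg.1 (mem_Cy.1 hg.2)

theorem St.g0 [N.Normal] (h : St S N x) (hy : y ∉ N) (a : g ∈ N) (b : ⁅g, y⁆ ∈ ⁅N, N⁆) :
    g ∈ DD N :=
  eq_of_relIndex (K := N ⊓ Cy ⁅N, N⁆ y) (H := DD N)
    (fun g hg => ⟨hg.1, mem_Cy.2 ((mem_DD.1 hg).2 y)⟩) inf_le_left (by rw [inf_relIndex_left, h.cy hy, h.idx]) ⟨a, mem_Cy.2 b⟩

theorem St.fpM [N.Normal] (h : St S N x) (hy : y ∉ N) : Fp (commutator G) ⁅N, N⁆ y :=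
  fun _ a b => h.DM (h.g0 hy (h.MN a) b) a

theorem St.cyN [N.Normal] (h : St S N x) (a : g ∈ commutator G) (b : g ∉ ⁅N, N⁆)
    (c : ⁅g, y⁆ ∈ ⁅N, N⁆) : y ∈ N := by_contra fun w => b (h.fpM w g a c)

theorem St.sup [N.Normal] (h : St S N x) : DD N ⊔ commutator G = N := by
  have l := sup_le DD_le h.MN
  refine le_antisymm l (relIndex_eq_one.1 ?_)
  have a := relIndex_mul_relIndex _ _ _ (le_sup_left : DD N ≤ DD N ⊔ commutator G) l
  rw [relIndex_sup_norm' (.inr (nm _ _)), ← inf_relIndex_right, h.idx, show DD N ⊓ commutator G =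
    ⁅N, N⁆ from le_antisymm (fun g hg => h.DM hg.1 hg.2) (le_inf le_DD (EM N))] at a
  exact (Nat.mul_eq_left (relIndex_ne_zero' _ _)).1 a

theorem St.M_le [N.Normal] (h : St S N x) (hy : y ∉ N) :
    commutator G ≤ ⁅N, N⁆ ⊔ ⁅commutator G, zpowers y⁆ := fun m hm => by
  obtain ⟨u, hu, w⟩ := (h.fpM hy).surj hm
  exact (mul_mem_cancel_left (inv_mem (mem_sup_right
    (commutator_mem_commutator hu (mem_zpowers y))))).1 (mem_sup_left w)

theorem St.ts [N.Normal] [U.Normal] (h : St S N x) (l : N ≤ T) (a : y ∈ T) (hy : y ∉ N)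
    (b : ⁅D, commutator G⁆ ≤ U) (c : ⁅D, zpowers y⁆ ≤ U) (k : ⁅D, ⁅N, N⁆⁆ ≤ ⁅U, T⁆) :
    ⁅D, commutator G⁆ ≤ ⁅U, T⁆ := by
  have := nrm_of_le h.gen l
  refine (commutator_mono le_rfl (h.M_le hy)).trans (comm_sup_le' k ?_ (nm _ _) (nm _ _))
  rw [commutator_comm]
  refine three_subgroup (nm _ _) (nm _ _) (nm _ _) (commutator_mono ?_ (h.MN.trans l))
    (commutator_mono b (zpowers_le.2 a))
  rwa [commutator_comm]

theorem St.comap_DD [N.Normal] [L.Normal] [(N.map (QuotientGroup.mk' L)).Normal] (h : St S N x)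
    (l : L ≤ DD N) : (DD (N.map (QuotientGroup.mk' L))).comap (QuotientGroup.mk' L) ≤ DD N := by
  intro g hg
  obtain ⟨a, b⟩ := mem_DD.1 hg
  rw [← mem_comap, comap_map_eq, QuotientGroup.ker_mk', sup_eq_left.2 (l.trans DD_le)] at a
  refine mem_DD.2 ⟨a, fun y => h.DM ?_ (cm_der g y)⟩
  have := b (QuotientGroup.mk' L y)
  rw [← map_commutatorElement, ← map_commutator, ← mem_comap, comap_map_eq,
    QuotientGroup.ker_mk'] at this
  exact sup_le le_DD l this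

theorem St.quot [N.Normal] [L.Normal] (h : St S N x) (l : L ≤ DD N) :
    St S (N.map (QuotientGroup.mk' L)) (x : G ⧸ L) := by
  have := h.sol
  have f := QuotientGroup.mk'_surjective L
  have i : (N.map (QuotientGroup.mk' L)).index = N.index :=
    index_map_eq _ f (by rw [QuotientGroup.ker_mk']; exact l.trans DD_le)
  refine ⟨inferInstance, ?_, (cd_quot L).trans h.sub, h.anti, i ▸ h.mem, ?_, fun w => h.ne ?_⟩
  · rw [← map_top_of_surjective _ f, ← h.gen, Subgroup.map_sup, MonoidHom.map_zpowers]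
    rfl
  · rw [i, ← map_der f, ← map_commutator, ← relIndex_comap]
    exact h.cop.coprime_dvd_left (relIndex_dvd_left _ (le_comap_map _ _))
  · rw [← map_der f, ← map_commutator, Subgroup.map_le_map_iff, QuotientGroup.ker_mk'] at w
    exact fun g hg => h.DM (sup_le le_DD l (w hg)) hg

theorem St.van [N.Normal] (h : St S N x) {ψ : N → ℂ} (hψ : IsIrrCharacter N ψ)
    (k : ¬ ⁅N, N⁆.subgroupOf N ≤ charKer ψ) {g : N} (hg : g.1 ∉ DD N) : ψ g = 0 :=
  bt h.gen le_rfl (fun _ => h.nonlin) (fun _ hn => commutator_mem_commutator hn g.2)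
    (fun _ hy w => hg (h.g0 hy g.2 (cm_swap w))) hψ k

theorem cls' [L.Normal] (l : L ≤ N) {g : N}
    (h : ∀ ψ, IsIrrCharacter N ψ → ¬ L.subgroupOf N ≤ charKer ψ → ψ g = 0) {e : G}
    (he : e ∈ L) : ∃ n ∈ N, ⁅g.1, n⁆ = e :=
  let ⟨n, w⟩ := cls h (e := ⟨e, l he⟩) he
  ⟨n, n.2, congrArg Subtype.val w⟩

theorem St.g1 [N.Normal] (h : St S N x) (a : g ∈ N) (b : g ∉ DD N) {e : G} (he : e ∈ ⁅N, N⁆) :
    ∃ n ∈ N, ⁅g, n⁆ = e :=
  cls' (der_le N) (g := ⟨g, a⟩) (fun _ u v => h.van u v b) he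

theorem St.g1' [N.Normal] (h : St S N x) (a : g ∈ N) (b : g ∉ DD N) {e : G} (he : e ∈ ⁅N, N⁆)
    (c : g * e = e * g) (k : (orderOf g).Coprime (orderOf e)) : e = 1 := by
  obtain ⟨n, -, w⟩ := h.g1 a b (⁅N, N⁆.inv_mem he)
  have : n * g * n⁻¹ = g * e := by
    rw [c, ← inv_inv e, ← w, commutatorElement_def]; group
  have o := orderOf_conj' n g
  rw [this, Commute.orderOf_mul_eq_mul_orderOf_of_coprime c k] at o
  exact orderOf_eq_one_iff.1 ((Nat.mul_eq_left (orderOf_pos g).ne').1 o)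

theorem St.cases [N.Normal] (h : St S N x) (hd : d ∈ 𝐜𝐝 G) : d = 1 ∨ d = N.index ∨
    ∃ ψ t, IsIrrCharacter N ψ ∧ ψ 1 = (t : ℕ) ∧ ¬ ⁅N, N⁆.subgroupOf N ≤ charKer ψ ∧
      d = (In N ψ).index * t := by
  obtain ⟨χ, a, b⟩ := mem_cd.1 hd
  obtain ⟨ψ, u, v⟩ := CF.Char.exists_irr_under N a
  obtain ⟨t, -, e⟩ := exists_cd u
  have c := h.anti _ (h.deg u e) _ (h.sub hd)
  have k := Kd.dvd ⟨χ, a, v, b⟩ u e
  by_cases w : ⁅N, N⁆.subgroupOf N ≤ charKer ψ
  swap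
  · exact .inr (.inr ⟨ψ, t, u, e, w, (c (fun z => w ((nl_iff u).2 (by
      simp [e, Nat.eq_one_of_mul_eq_one_left z]))) k).symm⟩)
  obtain ⟨μ, rfl⟩ := exists_linear_of_one (irr_isCharacter u) ((nl_iff u).1 w)
  obtain rfl : t = 1 := by simpa using e.symm
  rw [mul_one] at c k
  by_cases z : Il N μ = ⊤
  · refine .inl (Nat.cast_injective (R := ℂ) (b.symm.trans (Eq.trans ((irr_one_eq_one_iff a).2
      (le_ker_of_const h.MN a u v ?_)) Nat.cast_one.symm)))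
    rw [charKer_linear]
    exact (subgroupOf_mono N (der_le_gen h.gen)).trans (le_Il.1 z.ge)
  have z1 := fun v => z (index_eq_one.1 v)
  refine .inr (.inl ((c z1 k).symm.trans ?_))
  exact congrArg index (le_antisymm (fun y hy => by_contra fun w => z (h.lin μ w hy)) (le_Il_self μ))

theorem init (s : Group.IsSolvable G) (nd : ∀ a ∈ 𝐜𝐝 G, ∀ b ∈ 𝐜𝐝 G, a ≠ 1 → a ∣ b → a = b) :
    (∃ m, 𝐜𝐝 G ⊆ {1, m}) ∨ ∃ (N : Subgroup G) (_ : N.Normal) (x : G), St (𝐜𝐝 G) N x := by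
  by_cases na : commutator G ≤ ⊥
  · exact .inl ⟨1, by simpa using der_eq_bot_iff_cd.1 (le_bot_iff.1 na)⟩
  refine or_iff_not_imp_left.2 fun w => ?_
  have fq : ∀ (K : Subgroup G) [K.Normal], MinNA (G ⧸ K) → Fpf (commutator (G ⧸ K)) ∧
      (∃ q, q.Prime ∧ Abelem q (commutator (G ⧸ K)) ∧ ¬ q ∣ (commutator (G ⧸ K)).index) ∧
      (commutator (G ⧸ K)).index ∈ 𝐜𝐝 (G ⧸ K) ∧ (commutator (G ⧸ K)).index ≠ 1 := fun K _ k => by
    obtain ⟨f, x, y⟩ := k.exists_cd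
    obtain ⟨p, hp, a, -⟩ | ⟨a, b, e⟩ := k.cases (k.abel inferInstance)
    · exact absurd ⟨f, two_of_pquot nd hp a x y⟩ w
    · exact ⟨a, b, e f x y ▸ x, e f x y ▸ y⟩
  obtain ⟨K, _, -, k⟩ := exists_minNA na
  obtain ⟨a, ⟨q, hq, b, c⟩, x1, x2⟩ := fq K k
  have sj := QuotientGroup.mk'_surjective K
  have i := index_comap_of_surjective (commutator _) sj
  have eN := map_comap_eq_self_of_surjective sj (commutator _)
  obtain ⟨H, sd⟩ := exists_compl (normalIn_top.2 (inferInstance : (commutator (G ⧸ K)).Normal))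
    (b.pi.coprime (by rw [relIndex_top_right]; exact (piNat_compl_single hq).2 c))
  obtain ⟨x, hx⟩ := (Reg.cyc_of_abel (fun g hg g1 => a g fun v => g1 (eq_one_of_mem_bot sd.inf ⟨v, hg⟩))
    sd.norm k.ne (der_eq_bot.1 (eq_bot_mono sd.inf (le_inf (EM H) (der_le H))))).exists_gen
  obtain ⟨x, rfl⟩ := sj x
  set N := (commutator (G ⧸ K)).comap (QuotientGroup.mk' K)
  have KN : K ≤ N := (QuotientGroup.ker_mk' K).ge.trans (ker_le_comap _ _)
  have gen : N ⊔ zpowers x = ⊤ := by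
    rw [← comap_top (QuotientGroup.mk' K), ← sd.sup, ← hx, ← MonoidHom.map_zpowers, ← eN,
      ← Subgroup.map_sup, comap_map_eq, QuotientGroup.ker_mk', eq_comm, sup_eq_left]
    exact KN.trans le_sup_left
  replace x1 := cd_quot K x1
  rw [← i] at x1 x2
  refine ⟨N, inferInstance, x, s, gen, le_rfl, nd, x1, coprime_of_primes fun r hr r1 r2 => ?_,
    fun v => k.ne ?_⟩
  · have sE := QuotientGroup.mk'_surjective ⁅N, N⁆
    have := Normal.map (inferInstance : N.Normal) _ sE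
    have aN : Abel (N.map (QuotientGroup.mk' ⁅N, N⁆)) := der_eq_bot.1 (by
      rw [← map_commutator, Subgroup.map_eq_bot_iff, QuotientGroup.ker_mk'])
    have hO := aN.nil.hall_O {r}ᶜ
    have := normalIn_top.1 ((normalIn_top.2 this).O {r}ᶜ)
    set O := 𝐎 {r}ᶜ (N.map (QuotientGroup.mk' ⁅N, N⁆))
    have EL : ⁅N, N⁆ ≤ O.comap (QuotientGroup.mk' ⁅N, N⁆) :=
      (QuotientGroup.ker_mk' _).ge.trans (ker_le_comap _ _)
    obtain ⟨K', _, l, k'⟩ := exists_minNA (L := O.comap (QuotientGroup.mk' ⁅N, N⁆)) fun v => by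
      refine (hO.pi.le (map_le_iff_le_comap.2 v)).not_dvd' hr rfl ?_
      rwa [← relIndex_ker, QuotientGroup.ker_mk']
    obtain ⟨-, ⟨q', hq', b', c'⟩, y1, y2⟩ := fq K' k'
    have sK := QuotientGroup.mk'_surjective K'
    have := Normal.map (inferInstance : N.Normal) _ sK
    have e := nd _ (cd_quot K' y1) _ x1 y2 ((cd_dvd_index (A := N.map (QuotientGroup.mk' K'))
      (der_eq_bot.1 (by
        rw [← map_commutator, Subgroup.map_eq_bot_iff, QuotientGroup.ker_mk']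
        exact EL.trans l)) y1).trans (N.index_map_dvd sK))
    have kN : PiGrp {r} (N.map (QuotientGroup.mk' K')) := by
      rw [PiGrp, ← relIndex_ker, QuotientGroup.ker_mk']
      refine PiNat.dvd hO.idx.of_compl_compl ((relIndex_dvd_left N l).trans ?_)
      rw [relIndex_comap]
    obtain rfl : q' = r := b'.pi.mem_of_ne_bot k'.ne (kN.le (by
      rw [← map_der sK]; exact map_mono (der_le_N gen)))
    exact c' (e ▸ r2)
  · rw [← map_der sj, eq_bot_iff]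
    refine (map_mono v).trans ?_
    rw [map_commutator, eN, der_eq_bot.2 b.abel]

end CF.Nd
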