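import Cfsg.Agent.Nd.C1

/-!
Passing from a group to the graded data of `CF.Nd.C.core`.
-/

set_option autoImplicit false

namespace CF.Nd.C

open Subgroup Function
open scoped commutatorElement

universe u

variable {G : Type u} [Group G] {M X Y W X' Y' W' E2 E3 E4 E5 : Subgroup G}

theorem sec (hc : ∀ a ∈ X, ∀ b ∈ X, ⁅a, b⁆ ∈ X') (hl : X' ≤ X) :
    ∃ (S : Type u) (_ : CommGroup S) (π : X →* S), Surjective π ∧ ∀ a, π a = 1 ↔ a.1 ∈ X' := by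
  haveI : (X'.subgroupOf X).Normal := ⟨fun n hn g => by
    have : g * n * g⁻¹ = ⁅g, n⁆ * n := by simp [commutatorElement_def]
    rw [this]
    exact mul_mem (hc g g.2 n n.2) hn⟩
  refine ⟨X ⧸ X'.subgroupOf X, { (inferInstance : Group (X ⧸ X'.subgroupOf X)) with mul_comm := ?_ },
    QuotientGroup.mk' _, QuotientGroup.mk'_surjective _, fun a => QuotientGroup.eq_one_iff a⟩
  rintro ⟨a⟩ ⟨b⟩
  refine commutatorElement_eq_one_iff_mul_comm.1 ?_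
  exact (QuotientGroup.eq_one_iff (⁅a, b⁆ : X)).2 (hc a a.2 b b.2)

theorem idx {S : Type*} [Group S] {π : X →* S} (h1 : Surjective π) (h2 : ∀ a, π a = 1 ↔ a.1 ∈ X') :
    Nat.card S = X'.relIndex X := by
  rw [relIndex, ← show π.ker = X'.subgroupOf X from Subgroup.ext h2, index_ker,
    MonoidHom.range_eq_top.2 h1, card_top]

theorem lift {P S T : Type*} [Group P] [Group S] [Group T] {π : P →* S} (hπ : Surjective π)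
    (φ : P →* T) (h : ∀ a, π a = 1 → φ a = 1) : ∃ ψ : S →* T, ∀ a, ψ (π a) = φ a :=
  ⟨π.liftOfSurjective hπ ⟨φ, h⟩, fun a => π.liftOfRightInverse_comp_apply _ _ _ a⟩

/-- `π` kills the commutators of `W` with `M`. -/
def Cen (M W : Subgroup G) {S : Type*} [CommGroup S] (π : W →* S) : Prop :=
  ∀ x ∈ M, ∀ w : W, ∃ h : x * w * x⁻¹ ∈ W, π ⟨_, h⟩ = π w

variable {S T U : Type*} [CommGroup S] [CommGroup T] [CommGroup U]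

theorem cen_mk {π : W →* S} (h1 : ∀ w ∈ W, ∀ x ∈ M, ⁅w, x⁆ ∈ W') (hl : W' ≤ W)
    (h2 : ∀ w : W, w.1 ∈ W' → π w = 1) : Cen M W π := fun x hx w => by
  have e : x * w * x⁻¹ = ⁅(w : G), x⁆⁻¹ * w := by simp [commutatorElement_def, mul_assoc]
  have h3 := h1 w w.2 x hx
  refine ⟨e ▸ mul_mem (inv_mem (hl h3)) w.2, ?_⟩
  have : (⟨x * w * x⁻¹, e ▸ mul_mem (inv_mem (hl h3)) w.2⟩ : W) = (⟨_, hl h3⟩ : W)⁻¹ * w :=
    Subtype.ext e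
  rw [this, map_mul, map_inv, h2 _ h3, inv_one, one_mul]

theorem hom1 {π : W →* S} (c : Cen M W π) {s : G} (hY : Y ≤ M) (h : ∀ y ∈ Y, ⁅s, y⁆ ∈ W) :
    ∃ φ : Y →* S, ∀ (y : Y) (w : W), w.1 = ⁅s, y.1⁆ → φ y = π w := by
  refine ⟨MonoidHom.mk' (fun y => π ⟨_, h y y.2⟩) fun a b => ?_, fun y w e => congrArg π (Subtype.ext e.symm)⟩
  obtain ⟨h1, h2⟩ := c a (hY a.2) ⟨_, h b b.2⟩
  rw [← h2, ← map_mul]
  exact congrArg π (Subtype.ext (by simp [commutatorElement_def, mul_assoc]))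

theorem bil {πX : X →* S} {πY : Y →* T} {π : W →* U} (c : Cen M W π) (hX : X ≤ M) (hY : Y ≤ M)
    (sX : Surjective πX) (sY : Surjective πY) (h : ∀ x ∈ X, ∀ y ∈ Y, ⁅x, y⁆ ∈ W)
    (h1 : ∀ (x : X) (y : Y) (w : W), w.1 = ⁅x.1, y.1⁆ → πX x = 1 ∨ πY y = 1 → π w = 1) :
    ∃ φ : S →* T →* U, ∀ (x : X) (y : Y) (w : W), w.1 = ⁅x.1, y.1⁆ → φ (πX x) (πY y) = π w := by
  have h2 : ∀ x : X, ∃ ψ : T →* U, ∀ (y : Y) (w : W), w.1 = ⁅x.1, y.1⁆ → ψ (πY y) = π w := fun x => by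
    obtain ⟨φ, hφ⟩ := hom1 c hY (h x x.2)
    obtain ⟨ψ, hψ⟩ := lift sY φ fun y hy =>
      (hφ y ⟨_, h x x.2 y y.2⟩ rfl).trans (h1 x y _ rfl (.inr hy))
    exact ⟨ψ, fun y w e => (hψ y).trans (hφ y w e)⟩
  choose ψ hψ using h2
  obtain ⟨φ, hφ⟩ := lift sX (MonoidHom.mk' ψ fun a b => MonoidHom.ext fun t => by
      obtain ⟨y, rfl⟩ := sY t
      obtain ⟨h3, h4⟩ := c a (hX a.2) ⟨_, h b b.2 y y.2⟩
      rw [MonoidHom.mul_apply, hψ a y ⟨_, h a a.2 y y.2⟩ rfl, hψ b y ⟨_, h b b.2 y y.2⟩ rfl, ← h4,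
        mul_comm, ← map_mul]
      exact hψ _ y _ (by simp [commutatorElement_def, mul_assoc]))
    fun x hx => MonoidHom.ext fun t => by
      obtain ⟨y, rfl⟩ := sY t
      exact (hψ x y ⟨_, h x x.2 y y.2⟩ rfl).trans (h1 x y _ rfl (.inl hx))
  exact ⟨φ, fun x y w e => by rw [hφ]; exact hψ x y w e⟩

theorem hw (x y z : G) :
    ⁅⁅x, y⁆, y * z * y⁻¹⁆ * ⁅⁅y, z⁆, z * x * z⁻¹⁆ * ⁅⁅z, x⁆, x * y * x⁻¹⁆ = 1 := by
  simp only [commutatorElement_def]; group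

theorem st_aux {P V Q : Type*} [Group P] [Group V] [Group Q] [Finite P] (π : P →* V) {ψ : P →* Q}
    (hψ : Surjective ψ) (hk : π.ker ≤ ψ.ker) {s : P} (h1 : ψ s = 1) (h2 : π s ≠ 1) :
    Nat.card Q < Nat.card π.range := by
  have e1 := ker_sur hψ
  have e2 := ker_rng π
  have l : Nat.card π.ker < Nat.card ψ.ker :=
    (card_le_of_le hk).lt_of_ne fun e => h2 (by
      have := eq_of_le_of_card_ge hk e.ge
      exact (this ▸ (h1 : s ∈ ψ.ker) : s ∈ π.ker))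
  have p : 0 < Nat.card Q := by
    have := Finite.of_surjective ψ hψ
    exact Nat.card_pos
  by_contra! hh
  have := Nat.mul_le_mul_left (Nat.card π.ker) hh
  nlinarith

/-- the commutator relations of the chain `M ≥ E2 ≥ E3 ≥ E4 ≥ E5`. -/
structure Ch (M E2 E3 E4 E5 : Subgroup G) : Prop where
  l2 : E2 ≤ M
  l3 : E3 ≤ E2
  l4 : E4 ≤ E3
  l5 : E5 ≤ E4
  m2 : ∀ a ∈ M, ∀ b ∈ M, ⁅a, b⁆ ∈ E2
  m3 : ∀ a ∈ E2, ∀ b ∈ M, ⁅a, b⁆ ∈ E3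
  m4 : ∀ a ∈ E3, ∀ b ∈ M, ⁅a, b⁆ ∈ E4
  m5 : ∀ a ∈ E4, ∀ b ∈ M, ⁅a, b⁆ ∈ E5
  c2 : ∀ g ∈ M, g ∉ E2 → ∀ e ∈ E2, ∃ n ∈ M, ⁅g, n⁆ = e
  c3 : ∀ g ∈ E2, g ∉ E3 → ∀ e ∈ E3, ∃ n ∈ M, ⁅g, n⁆ = e
  c4 : ∀ g ∈ E3, g ∉ E4 → ∀ e ∈ E4, ∃ n ∈ M, ⁅g, n⁆ = e

theorem cjm (h : ∀ a ∈ X, ∀ b ∈ M, ⁅a, b⁆ ∈ X) {x w : G} (hx : x ∈ M) (hw : w ∈ X) :
    x * w * x⁻¹ ∈ X := by
  have e : x * w * x⁻¹ = ⁅w, x⁆⁻¹ * w := by simp [commutatorElement_def, mul_assoc]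
  exact e ▸ mul_mem (inv_mem (h w hw x hx)) hw

theorem rev {a b : G} (h : ⁅a, b⁆ ∈ X) : ⁅b, a⁆ ∈ X := by
  simpa using inv_mem h

theorem Ch.x2 (c : Ch M E2 E3 E4 E5) {s : G} (hs : s ∈ M) (hs2 : s ∉ E2) (lX : X ≤ M) (lY : Y ≤ X)
    (h1 : ∀ a ∈ X, ∀ b ∈ M, ⁅a, b⁆ ∈ Y) (h2 : ∀ a ∈ Y, ∀ b ∈ M, ⁅a, b⁆ ∈ W) :
    ∀ a ∈ E2, ∀ b ∈ X, ⁅a, b⁆ ∈ W := by
  intro a ha b hb
  obtain ⟨y, hy, rfl⟩ := c.c2 s hs hs2 a ha
  have hz : y⁻¹ * b * y⁻¹⁻¹ ∈ X := cjm (fun a ha b hb => lY (h1 a ha b hb)) (inv_mem hy) hb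
  have := hw s y (y⁻¹ * b * y⁻¹⁻¹)
  rw [show y * (y⁻¹ * b * y⁻¹⁻¹) * y⁻¹ = b by group, mul_assoc] at this
  rw [eq_inv_of_mul_eq_one_left this]
  have hM := lX hz
  exact inv_mem (mul_mem (h2 _ (rev (h1 _ hz _ hy)) _ (mul_mem (mul_mem hM hs) (inv_mem hM)))
    (h2 _ (h1 _ hz _ hs) _ (mul_mem (mul_mem hs hy) (inv_mem hs))))

theorem Ch.main [Finite G] (c : Ch M E2 E3 E4 E5) {Z : Type*} [CommGroup Z] {πZ : E4 →* Z}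
    (sZ : Surjective πZ) (hZ : (Nat.card Z).Prime) (kZ : ∀ z : E4, z.1 ∈ E5 → πZ z = 1)
    (n2 : ¬ M ≤ E2) (n3 : ¬ E2 ≤ E3) (n4 : ¬ E3 ≤ E4)
    (hc : (∀ a ∈ E2, ∀ b ∈ E2, ⁅a, b⁆ ∈ E5) ∨ (E3.relIndex E2 ^ 2 ≤ E2.relIndex M ∧
      ∃ t : G, (∀ x ∈ M, t * x * t⁻¹ ∈ M) ∧ (∀ g ∈ M, ⁅g, t⁆ ∈ E2 → g ∈ E2) ∧
        (∀ b ∈ E2, ⁅b, t⁆ ∈ E3) ∧ ∀ z ∈ E4, ⁅z, t⁆ ∈ E5)) : False := by
  have l3 := c.l3.trans c.l2
  have l4 := c.l4.trans l3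
  obtain ⟨s0, hs0, ns0⟩ := SetLike.not_le_iff_exists.1 n2
  obtain ⟨b0, hb0, nb0⟩ := SetLike.not_le_iff_exists.1 n3
  obtain ⟨e0, he0, ne0⟩ := SetLike.not_le_iff_exists.1 n4
  have m22 := c.x2 hs0 ns0 c.l2 c.l3 c.m3 c.m4
  have m23 := c.x2 hs0 ns0 l3 c.l4 c.m4 c.m5
  obtain ⟨V, _, πV, sV, kV⟩ := sec c.m2 c.l2
  obtain ⟨A, _, πA, sA, kA⟩ := sec (fun a ha b hb => c.m3 a ha b (c.l2 hb)) c.l3
  obtain ⟨B, _, πB, sB, kB⟩ := sec (fun a ha b hb => c.m4 a ha b (l3 hb)) c.l4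
  have := Finite.of_surjective _ sV
  have := Finite.of_surjective _ sA
  have := Finite.of_surjective _ sB
  have := Finite.of_surjective _ sZ
  have cA := cen_mk c.m3 c.l3 fun w => (kA w).2
  have cB := cen_mk c.m4 c.l4 fun w => (kB w).2
  have cZ := cen_mk c.m5 c.l5 kZ
  obtain ⟨f, hf⟩ := bil cA le_rfl le_rfl sV sV c.m2 fun x y w e h => (kA w).2 (e ▸ h.elim
    (fun h => c.m3 _ ((kV x).1 h) _ y.2) fun h => rev (c.m3 _ ((kV y).1 h) _ x.2))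
  obtain ⟨g, hg⟩ := bil cB c.l2 le_rfl sA sV c.m3 fun x y w e h => (kB w).2 (e ▸ h.elim
    (fun h => c.m4 _ ((kA x).1 h) _ y.2) fun h => m22 _ x.2 _ ((kV y).1 h))
  obtain ⟨h, hh⟩ := bil cZ l3 le_rfl sB sV c.m4 fun x y w e h => kZ w (e ▸ h.elim
    (fun h => c.m5 _ ((kB x).1 h) _ y.2) fun h => rev (m23 _ ((kV y).1 h) _ x.2))
  obtain ⟨k, hk⟩ := bil cZ c.l2 c.l2 sA sA m22 fun x y w e h => kZ w (e ▸ h.elim
    (fun h => rev (m23 _ y.2 _ ((kA x).1 h))) fun h => m23 _ x.2 _ ((kA y).1 h))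
  have cV : ∀ x y : M, πV (x * y * x⁻¹) = πV y := fun x y => by simp
  have ff := fun x y : M => hf x y ⟨_, c.m2 _ x.2 _ y.2⟩ rfl
  have gg := fun (x : E2) (y : M) => hg x y ⟨_, c.m3 _ x.2 _ y.2⟩ rfl
  have hhh := fun (x : E3) (y : M) => hh x y ⟨_, c.m4 _ x.2 _ y.2⟩ rfl
  have kk := fun x y : E2 => hk x y ⟨_, m22 _ x.2 _ y.2⟩ rfl
  refine core hZ f g h k (fun x y => ?_) (fun x y z => ?_) (fun x y b => ?_) (fun s hs a => ?_)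
    (fun s hs a => ?_) (fun s hs a => ?_) (s0 := πV ⟨s0, hs0⟩) (fun e => ns0 ((kV _).1 e))
    (b0 := πA ⟨b0, hb0⟩) (fun e => nb0 ((kA _).1 e)) (e0 := πB ⟨e0, he0⟩) (fun e => ne0 ((kB _).1 e))
    (fun s hs => ?_) ?_
  · obtain ⟨x, rfl⟩ := sV x
    obtain ⟨y, rfl⟩ := sV y
    rw [ff, ff, ← map_mul, ← πA.map_one]
    exact congrArg _ (Subtype.ext (by simp [commutatorElement_def, mul_assoc]))
  · obtain ⟨x, rfl⟩ := sV x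
    obtain ⟨y, rfl⟩ := sV y
    obtain ⟨z, rfl⟩ := sV z
    rw [ff, ff, ff]
    nth_rw 1 [← cV y z, ← cV z x, ← cV x y]
    rw [gg, gg, gg, ← map_mul, ← map_mul, ← πB.map_one]
    exact congrArg _ (Subtype.ext (hw x.1 y.1 z.1))
  · obtain ⟨x, rfl⟩ := sV x
    obtain ⟨y, rfl⟩ := sV y
    obtain ⟨b, rfl⟩ := sA b
    obtain ⟨h1, h2⟩ := cA y y.2 b
    have e1 : h (g (πA b) (πV y)) (πV x) = h (g (πA b) (πV y)) (πV (⟨b, c.l2 b.2⟩ * x * ⟨b, c.l2 b.2⟩⁻¹)) := by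
      rw [cV]
    have e2 : h (g (πA b) (πV x)) (πV y) = h (g (πA b) (πV x)) (πV (x * y * x⁻¹)) := by rw [cV]
    rw [e1, e2, gg, gg, ← MonoidHom.inv_apply, ← map_inv, ← map_inv, ff, ← h2, hhh, hhh, kk, ← map_mul,
      ← map_mul, ← πZ.map_one]
    exact congrArg _ (Subtype.ext (by simpa using hw x.1 y.1 b.1))
  · obtain ⟨s, rfl⟩ := sV s
    obtain ⟨a, rfl⟩ := sA a
    obtain ⟨n, hn, e⟩ := c.c2 s s.2 (fun e => hs ((kV s).2 e)) a a.2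
    exact ⟨πV ⟨n, hn⟩, hf _ _ _ e.symm⟩
  · obtain ⟨s, rfl⟩ := sA s
    obtain ⟨a, rfl⟩ := sB a
    obtain ⟨n, hn, e⟩ := c.c3 s s.2 (fun e => hs ((kA s).2 e)) a a.2
    exact ⟨πV ⟨n, hn⟩, hg _ _ _ e.symm⟩
  · obtain ⟨s, rfl⟩ := sB s
    obtain ⟨a, rfl⟩ := sZ a
    obtain ⟨n, hn, e⟩ := c.c4 s s.2 (fun e => hs ((kB s).2 e)) a a.2
    exact ⟨πV ⟨n, hn⟩, hh _ _ _ e.symm⟩
  · obtain ⟨s, rfl⟩ := sV s
    let P : Subgroup G := (((f (πV s)).comp πV).ker).map M.subtype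
    have lP : P ≤ M := map_subtype_le _
    have mP : ∀ y : M, y.1 ∈ P ↔ ⁅s.1, y.1⁆ ∈ E3 := fun y => by
      rw [show y.1 ∈ P ↔ f (πV s) (πV y) = 1 from mem_map_iff_mem M.subtype_injective, ff, kA]
    obtain ⟨φ, hφ⟩ := hom1 cB lP fun y hy => (mP ⟨y, lP hy⟩).1 hy
    have l := st_aux (πV.comp (inclusion lP)) (ψ := (QuotientGroup.mk' (g.flip (πV s)).range).comp φ)
      (fun q => ?_) (fun y hy => ?_) (s := ⟨s, (mP s).2 (by simp)⟩) ?_ hs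
    · have l2 : (πV.comp (inclusion lP)).range ≤ (f (πV s)).ker := by
        rintro _ ⟨⟨_, y, hy, rfl⟩, rfl⟩
        exact hy
      rw [card_eq_card_quotient_mul_card_subgroup (g.flip (πV s)).range]
      exact Nat.mul_lt_mul_of_pos_right (l.trans_le (card_le_of_le l2)) Nat.card_pos
    · obtain ⟨q, rfl⟩ := QuotientGroup.mk'_surjective _ q
      obtain ⟨e, rfl⟩ := sB q
      obtain ⟨n, hn, e1⟩ := c.c2 s s.2 (fun e => hs ((kV s).2 e)) e (c.l3 e.2)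
      exact ⟨⟨n, (mP ⟨n, hn⟩).2 (e1 ▸ e.2)⟩, congrArg _ (hφ _ _ e1.symm)⟩
    · have y2 : y.1 ∈ E2 := (kV _).1 hy
      refine (QuotientGroup.eq_one_iff _).2 ⟨(πA ⟨y, y2⟩)⁻¹, ?_⟩
      rw [MonoidHom.flip_apply, map_inv, MonoidHom.inv_apply, gg, ← map_inv]
      exact (hφ _ _ (by simp)).symm
    · rw [MonoidHom.comp_apply, hφ _ 1 (by simp), map_one, map_one]
  rcases hc with hc | ⟨hA, t, tM, t1, t2, t4⟩
  · refine .inl fun a b => ?_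
    obtain ⟨a, rfl⟩ := sA a
    obtain ⟨b, rfl⟩ := sA b
    rw [kk]
    exact kZ _ (hc _ a.2 _ b.2)
  refine .inr ⟨by rwa [idx sA kA, idx sV kV], fun b hb hr hU => ?_⟩
  obtain ⟨b, rfl⟩ := sA b
  let P : Subgroup G := (((g (πA b)).comp πV).ker).map M.subtype
  have lP : P ≤ M := map_subtype_le _
  have mP0 : ∀ y : M, y.1 ∈ P ↔ g (πA b) (πV y) = 1 := fun y => mem_map_iff_mem M.subtype_injective
  have mP : ∀ y : M, y.1 ∈ P ↔ ⁅b.1, y.1⁆ ∈ E4 := fun y => by rw [mP0, gg, kB]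
  obtain ⟨φ, hφ⟩ := hom1 cZ lP fun y hy => (mP ⟨y, lP hy⟩).1 hy
  have ha := inv_mem (t2 b b.2)
  have key : ∀ y : P, ∃ h : t * y * t⁻¹ ∈ P, φ ⟨_, h⟩ = φ y := fun y => by
    have y4 := (mP ⟨y, lP y.2⟩).1 y.2
    have y' := tM y (lP y.2)
    have e : ⁅⁅b.1, y.1⁆, t⁆⁻¹ * ⁅b.1, y.1⁆ = ⁅b.1, t⁆⁻¹ * ⁅b.1, t * y * t⁻¹⁆ * ⁅b.1, t⁆⁻¹⁻¹ *
        ⁅⁅b.1, t⁆⁻¹, t * y * t⁻¹⁆ := by simp only [commutatorElement_def]; group
    have a4 := c.m4 _ ha _ y'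
    have z5 := t4 _ y4
    have w4 : ⁅b.1, t⁆⁻¹ * ⁅b.1, t * y * t⁻¹⁆ * ⁅b.1, t⁆⁻¹⁻¹ ∈ E4 :=
      (mul_mem_cancel_right a4).1 (e ▸ mul_mem (inv_mem (c.l5 z5)) y4)
    have w5 : ⁅b.1, t * y * t⁻¹⁆ ∈ E4 := by
      have := cjm (fun a ha b hb => c.l5 (c.m5 a ha b hb)) (inv_mem (l3 ha)) w4
      rwa [show ∀ a w : G, a⁻¹ * (a * w * a⁻¹) * a⁻¹⁻¹ = w from fun a w => by group] at this
    have hP := (mP ⟨_, y'⟩).2 w5
    refine ⟨hP, ?_⟩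
    obtain ⟨h1, h2⟩ := cZ _ (l3 ha) ⟨_, w5⟩
    have h3 := hU _ ((mP0 ⟨_, y'⟩).1 hP) (πB ⟨_, ha⟩)
    rw [hhh] at h3
    have h4 : (⟨_, c.l5 z5⟩ : E4)⁻¹ * ⟨_, y4⟩ = ⟨_, h1⟩ * ⟨_, a4⟩ := Subtype.ext e
    have h5 := congrArg πZ h4
    rw [map_mul, map_mul, map_inv, kZ _ z5, h2, h3, inv_one, one_mul, mul_one] at h5
    rw [hφ _ ⟨_, w5⟩ rfl, hφ y ⟨_, y4⟩ rfl, h5]
  choose k1 k2 using key
  obtain ⟨ψ, hψ⟩ := lift (πV.comp (inclusion lP)).rangeRestrict_surjective φ fun y hy => by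
    have y2 : y.1 ∈ E2 := (kV _).1 (congrArg Subtype.val hy)
    have := hr (πA ⟨y, y2⟩)
    rw [kk, ← inv_eq_one, ← map_inv] at this
    exact (hφ _ _ (by simp)).trans this
  obtain ⟨σ, hσ⟩ := lift (πV.comp (inclusion lP)).rangeRestrict_surjective
    ((πV.comp (inclusion lP)).rangeRestrict.comp (MonoidHom.mk' (fun y : P => (⟨_, k1 y⟩ : P))
      fun a b => Subtype.ext (by simp [mul_assoc]))) fun y hy => by
    have y2 : y.1 ∈ E2 := (kV _).1 (congrArg Subtype.val hy)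
    refine Subtype.ext ((kV _).2 ?_)
    have e : t * y * t⁻¹ = ⁅y.1, t⁆⁻¹ * y := by simp [commutatorElement_def, mul_assoc]
    exact (e ▸ mul_mem (inv_mem (c.l3 (t2 _ y2))) y2 : t * y * t⁻¹ ∈ E2)
  have inj : Injective (MonoidHom.id (πV.comp (inclusion lP)).range / σ :
      (πV.comp (inclusion lP)).range →* _) := (injective_iff_map_eq_one _).2 fun v hv => by
    obtain ⟨y, rfl⟩ := (πV.comp (inclusion lP)).rangeRestrict_surjective v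
    rw [MonoidHom.div_apply, hσ, MonoidHom.id_apply, MonoidHom.comp_apply, ← map_div] at hv
    refine Subtype.ext ((kV _).2 (t1 _ (lP y.2) ?_))
    have := (kV _).1 (congrArg Subtype.val hv)
    simpa [commutatorElement_def, div_eq_mul_inv, mul_assoc] using this
  have : Nontrivial Z := Finite.one_lt_card_iff_nontrivial.1 hZ.one_lt
  obtain ⟨z, hz⟩ := exists_ne (1 : Z)
  obtain ⟨z, rfl⟩ := sZ z
  obtain ⟨n, hn, e⟩ := c.c3 b b.2 (fun e => hb ((kA b).2 e)) z (c.l4 z.2)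
  obtain ⟨v, hv⟩ := Finite.surjective_of_injective inj
    ((πV.comp (inclusion lP)).rangeRestrict ⟨n, (mP ⟨n, hn⟩).2 (e ▸ z.2)⟩)
  obtain ⟨y, rfl⟩ := (πV.comp (inclusion lP)).rangeRestrict_surjective v
  have := congrArg ψ hv
  rw [MonoidHom.div_apply, hσ, MonoidHom.id_apply, MonoidHom.comp_apply, map_div, hψ, hψ, hψ,
    hφ ⟨n, _⟩ z e.symm] at this
  exact hz (this.symm.trans (div_eq_one.2 (k2 y).symm))

end CF.Nd.C
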