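import Cfsg.Agent.Deg.Nd2
import Cfsg.Agent.Cls.Wall2
import Cfsg.Agent.Nd.C2

/-!
The bound for semi-extraspecial groups, through the Chevalley-Warning theorem.
-/

set_option autoImplicit false

namespace CF.Nd

open Subgroup CF.BG Function MvPolynomial Module
open scoped commutatorElement

namespace C

theorem sq_det {R : Type*} [CommRing R] [IsDomain R] [IsIntegrallyClosed R] {ι : Type*} [Fintype ι]
    [DecidableEq ι] {N : Matrix ι ι R} (h0 : N.det ≠ 0) (h1 : ∀ i j, N i j + N j i = 0)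
    (h2 : ∀ i, N i i = 0) : IsSquare N.det := by
  let F := FractionRing R
  have e : CF.Geom.gram (Matrix.toBilin' (N.map (algebraMap R F))) (Pi.basisFun F ι) =
      (algebraMap R F).mapMatrix N := by
    ext i j; simp
  have hi := IsFractionRing.injective R F
  obtain ⟨r, hr⟩ := CF.Cls.isSquare_det_alt (B := Matrix.toBilin' (N.map (algebraMap R F)))
    (CF.Geom.nondegenerate_of_det_gram (Pi.basisFun F ι) (by
      rw [e, ← RingHom.map_det]; exact (map_ne_zero_iff _ hi).2 h0)) (fun v => by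
      rw [Matrix.toBilin'_apply, ← Finset.sum_product']
      refine Finset.sum_ninvolution Prod.swap (fun a => ?_) (fun a ha hb => ha ?_) (fun a => by simp)
        fun a => rfl
      · have := congrArg (algebraMap R F) (h1 a.1 a.2)
        simp only [map_add, map_zero] at this
        simp only [Matrix.map_apply, Prod.fst_swap, Prod.snd_swap]
        linear_combination v a.1 * v a.2 * this
      · have : a.2 = a.1 := congrArg Prod.fst hb
        simp [this, h2]) (Pi.basisFun F ι)
  rw [e, ← RingHom.map_det] at hr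
  obtain ⟨g, rfl⟩ := IsIntegrallyClosed.exists_algebraMap_eq_of_isIntegral_pow (R := R) (x := r) two_pos
    (by rw [sq, ← hr]; exact isIntegral_algebraMap)
  exact ⟨g, hi (by rw [hr, map_mul])⟩

theorem lin {p : ℕ} [Fact p.Prime] {V W : Type*} [AddCommGroup V] [AddCommGroup W] [Module (ZMod p) V]
    [Module (ZMod p) W] [Finite V] [Finite W] [Nontrivial V] (β : V →ₗ[ZMod p] V →ₗ[ZMod p] W)
    (ha : ∀ v, β v v = 0) (hs : ∀ v ≠ 0, Surjective (β v)) :
    2 * finrank (ZMod p) W ≤ finrank (ZMod p) V := by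
  classical
  let a := finBasis (ZMod p) V
  let b := finBasis (ZMod p) W
  let N : Matrix (Fin (finrank (ZMod p) V)) (Fin (finrank (ZMod p) V))
      (MvPolynomial (Fin (finrank (ZMod p) W)) (ZMod p)) :=
    fun i j => ∑ l, C (b.repr (β (a i) (a j)) l) * X l
  have pV : 0 < finrank (ZMod p) V := finrank_pos
  have ev : ∀ t, eval t N.det = 0 ↔ t = 0 := fun t => by
    have e0 : (MvPolynomial.eval t).mapMatrix N =
        Matrix.of fun i j => ∑ l, t l * b.repr (β (a i) (a j)) l := by
      ext i j; change MvPolynomial.eval t (N i j) = _; simp [N, mul_comm]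
    rw [RingHom.map_det, ← Matrix.exists_vecMul_eq_zero_iff, e0]
    refine ⟨fun ⟨v, hv, e⟩ => funext fun l => ?_, ?_⟩
    · let φ : W →ₗ[ZMod p] ZMod p := ∑ l, t l • b.coord l
      obtain ⟨y, hy⟩ := hs (a.equivFun.symm v) (fun e => hv (a.equivFun.symm.map_eq_zero_iff.1 e)) (b l)
      have h1 : φ ∘ₗ β (a.equivFun.symm v) = 0 := a.ext fun j => by
        have := congrFun e j
        simp only [Matrix.vecMul, dotProduct, Matrix.of_apply, Pi.zero_apply] at this
        simp only [φ, LinearMap.comp_apply, Basis.equivFun_symm_apply, map_sum, map_smul,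
          LinearMap.sum_apply, LinearMap.smul_apply, Basis.coord_apply, smul_eq_mul, LinearMap.zero_apply]
        exact this
      have h2 := LinearMap.congr_fun h1 y
      rw [LinearMap.comp_apply, hy] at h2
      simpa [φ, Finsupp.single_apply] using h2
    · rintro rfl
      refine ⟨fun _ => 1, fun e => one_ne_zero (congrFun e ⟨0, pV⟩), ?_⟩
      ext j
      simp [Matrix.vecMul, dotProduct]
  by_contra! hlt
  have h0 : N.det ≠ 0 := fun e => one_ne_zero (congrFun ((ev 1).1 (by rw [e, map_zero])) ⟨0, by omega⟩)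
  obtain ⟨g, hg⟩ := sq_det h0 (fun i j => by
      have := ha (a i + a j)
      simp only [map_add, LinearMap.add_apply, ha, zero_add, add_zero] at this
      simp only [N, ← Finset.sum_add_distrib, ← add_mul, ← map_add, ← Finsupp.add_apply]
      rw [add_comm, this]; simp)
    fun i => by simp [N, ha]
  have g0 : g ≠ 0 := fun e => h0 (by rw [hg, e, mul_zero])
  have d1 : ∀ i j, (N i j).totalDegree ≤ 1 := fun i j =>
    (totalDegree_finsetSum _ _).trans (Finset.sup_le fun l _ =>
      (totalDegree_mul _ _).trans (by simp [totalDegree_X]))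
  have d2 : N.det.totalDegree ≤ finrank (ZMod p) V := by
    rw [Matrix.det_apply']
    refine (totalDegree_finsetSum _ _).trans (Finset.sup_le fun s _ => (totalDegree_mul _ _).trans ?_)
    rw [← map_intCast (C : ZMod p →+* MvPolynomial _ (ZMod p)), totalDegree_C, zero_add]
    refine (totalDegree_finsetProd _ _).trans ((Finset.sum_le_sum fun i _ => d1 _ _).trans (by simp))
  rw [hg, totalDegree_mul_of_isDomain g0 g0] at d2
  have := char_dvd_card_solutions p (f := g) (by rw [Fintype.card_fin]; omega)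
  have e1 : Fintype.card {x : Fin (finrank (ZMod p) W) → ZMod p // eval x g = 0} = 1 :=
    Fintype.card_eq_one_iff.2 ⟨⟨0, mul_self_eq_zero.1 (by rw [← map_mul, ← hg, ev])⟩,
      fun x => Subtype.ext ((ev _).1 (by rw [hg, map_mul, x.2, mul_zero]))⟩
  rw [e1] at this
  exact (Fact.out : p.Prime).one_lt.ne' (Nat.dvd_one.1 this)

theorem cardp {p : ℕ} [Fact p.Prime] {V : Type*} [AddCommGroup V] [Module (ZMod p) V] [Finite V] :
    Nat.card V = p ^ finrank (ZMod p) V := by
  rw [natCard_eq_pow_finrank (K := ZMod p), Nat.card_zmod]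

theorem lin' {p : ℕ} (hp : p.Prime) {V A : Type*} [CommGroup V] [CommGroup A] [Finite V] [Finite A]
    [Nontrivial V] (k : IsPGroup p A) (f : V →* V →* A) (ha : ∀ v, f v v = 1)
    (hs : ∀ v ≠ 1, Surjective (f v)) : Nat.card A ^ 2 ≤ Nat.card V := by
  have := Fact.mk hp
  rcases subsingleton_or_nontrivial A with hA | hA
  · rw [Nat.card_unique, one_pow]; exact Nat.card_pos
  have hV : ∀ v : V, v ^ p = 1 := fun v => by_contra fun hv => by
    have h1 : Surjective (powMonoidHom p : A →* A) := fun a => by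
      obtain ⟨y, rfl⟩ := hs _ hv a
      exact ⟨f v y, by simp⟩
    obtain ⟨a, ha⟩ := exists_prime_orderOf_dvd_card' (G := A) p
      (k.card_eq_or_dvd.resolve_left Finite.one_lt_card.ne')
    have := (injective_iff_map_eq_one _).1 (Finite.injective_iff_surjective.2 h1) a
      (ha ▸ pow_orderOf_eq_one a)
    rw [this, orderOf_one] at ha
    exact hp.one_lt.ne ha
  have hA' : ∀ a : A, a ^ p = 1 := fun a => by
    obtain ⟨s, h⟩ := exists_ne (1 : V)
    obtain ⟨y, rfl⟩ := hs s h a
    rw [← map_pow, hV, map_one]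
  letI : Module (ZMod p) (Additive V) := AddCommGroup.zmodModule hV
  letI : Module (ZMod p) (Additive A) := AddCommGroup.zmodModule hA'
  have := lin (p := p) (V := Additive V) (W := Additive A) (LinearMap.mk₂ (ZMod p)
    (fun v y => Additive.ofMul (f v.toMul y.toMul)) (fun a b y => by simp)
    (fun c a y => ZMod.map_smul (MonoidHom.toAdditive (f.flip y.toMul)) c a) (fun a b y => by simp)
    fun c a y => ZMod.map_smul (MonoidHom.toAdditive (f a.toMul)) c y) (fun v => ha v) fun v => hs v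
  have e1 : Nat.card A = p ^ finrank (ZMod p) (Additive A) := cardp (V := Additive A)
  have e2 : Nat.card V = p ^ finrank (ZMod p) (Additive V) := cardp (V := Additive V)
  rw [e1, e2, ← pow_mul, mul_comm]
  exact Nat.pow_le_pow_right hp.pos this

end C

open C

variable {G : Type*} [Group G] [Finite G] {M : Subgroup G} {p : ℕ}

theorem C.nil (hp : p.Prime) (k : PiGrp {p} M) {X : Subgroup G} (hX : X ≤ M) (h : X ≤ ⁅X, M⁆) :
    X = ⊥ := by
  have := Fact.mk hp
  have := ((piGrp_iff_isPGroup hp).1 k).isNilpotent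
  obtain ⟨n, hn⟩ := (isNilpotent_iff_lowerCentralSeries M).1 this
  have : ∀ m, X ≤ M.lowerCentralSeries m := fun m => by
    induction m with
    | zero => exact hX
    | succ m ih => exact h.trans (commutator_mono ih le_rfl)
  simpa [hn] using this n

theorem C.cle {X : Subgroup G} (hX : X ≤ M) : ⁅X, M⁆ ≤ M :=
  (commutator_mono hX le_rfl).trans (commutator_le.2 fun a ha b hb =>
    mul_mem (mul_mem (mul_mem ha hb) (inv_mem ha)) (inv_mem hb))

theorem cw (hp : p.Prime) (k : PiGrp {p} M)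
    (c2 : ∀ g ∈ M, g ∉ ⁅M, M⁆ → ∀ e ∈ ⁅M, M⁆, ∃ n ∈ M, ⁅g, n⁆ = e) :
    (⁅⁅M, M⁆, M⁆.relIndex ⁅M, M⁆) ^ 2 ≤ ⁅M, M⁆.relIndex M := by
  have l2 : ⁅M, M⁆ ≤ M := cle le_rfl
  have l3 : ⁅⁅M, M⁆, M⁆ ≤ ⁅M, M⁆ := commutator_mono l2 le_rfl
  by_cases h : M ≤ ⁅M, M⁆
  · obtain rfl := nil hp k le_rfl h
    simp
  obtain ⟨s, hs, ns⟩ := SetLike.not_le_iff_exists.1 h
  have m2 := commutator_le.1 (le_refl ⁅M, M⁆)
  have m3 := commutator_le.1 (le_refl ⁅⁅M, M⁆, M⁆)
  obtain ⟨V, _, πV, sV, kV⟩ := sec m2 l2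
  obtain ⟨A, _, πA, sA, kA⟩ := sec (fun a ha b hb => m3 a ha b (l2 hb)) l3
  have := Finite.of_surjective _ sV
  have := Finite.of_surjective _ sA
  obtain ⟨f, hf⟩ := bil (cen_mk m3 l3 fun w => (kA w).2) le_rfl le_rfl sV sV m2 fun x y w e h =>
    (kA w).2 (e ▸ h.elim (fun h => m3 _ ((kV x).1 h) _ y.2) fun h => rev (m3 _ ((kV y).1 h) _ x.2))
  have : Nontrivial V := ⟨πV ⟨s, hs⟩, 1, fun e => ns ((kV _).1 e)⟩
  rw [← idx sA kA, ← idx sV kV]
  refine lin' hp ((((piGrp_iff_isPGroup hp).1 k).to_le l2).of_surjective _ sA) f (fun v => ?_)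
    fun v hv a => ?_
  · obtain ⟨v, rfl⟩ := sV v
    rw [hf v v 1 (by simp), map_one]
  · obtain ⟨v, rfl⟩ := sV v
    obtain ⟨a, rfl⟩ := sA a
    obtain ⟨n, hn, e⟩ := c2 v v.2 (fun e => hv ((kV v).2 e)) a a.2
    exact ⟨πV ⟨n, hn⟩, hf _ _ _ e.symm⟩

end CF.Nd
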