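import Cfsg.Agent.Nd.B

/-!
A Camina `p`-group with the extra condition has class at most 3.
-/

set_option autoImplicit false

namespace CF.Nd

open Subgroup CF.BG Function C
open scoped commutatorElement

variable {G : Type*} [Group G] [Finite G] {M : Subgroup G} {p : ℕ}

theorem C.ex_prime (hp : p.Prime) {S : Type*} [CommGroup S] [Finite S] [Nontrivial S]
    (k : IsPGroup p S) : ∃ N : Subgroup S, (Nat.card (S ⧸ N)).Prime := by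
  have := Fact.mk hp
  obtain ⟨n, h0, hn⟩ := k.nontrivial_iff_card.1 inferInstance
  obtain ⟨n, rfl⟩ := Nat.exists_eq_succ_of_ne_zero h0.ne'
  obtain ⟨N, hN⟩ := Sylow.exists_subgroup_card_pow_prime (G := S) p (n := n)
    (hn ▸ pow_dvd_pow p n.le_succ)
  have := card_eq_card_quotient_mul_card_subgroup N
  rw [hn, hN, pow_succ'] at this
  exact ⟨N, Nat.eq_of_mul_eq_mul_right (pow_pos hp.pos n) this ▸ hp⟩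

theorem cl4 (hp : p.Prime) (k : PiGrp {p} M)
    (c2 : ∀ g ∈ M, g ∉ ⁅M, M⁆ → ∀ e ∈ ⁅M, M⁆, ∃ n ∈ M, ⁅g, n⁆ = e)
    (c3 : ∀ g ∈ ⁅M, M⁆, g ∉ ⁅⁅M, M⁆, M⁆ → ∀ e ∈ ⁅⁅M, M⁆, M⁆, ∃ n ∈ M, ⁅g, n⁆ = e)
    (c4 : ∀ g ∈ ⁅⁅M, M⁆, M⁆, g ∉ ⁅⁅⁅M, M⁆, M⁆, M⁆ → ∀ e ∈ ⁅⁅⁅M, M⁆, M⁆, M⁆, ∃ n ∈ M, ⁅g, n⁆ = e)
    (hc : ⁅⁅M, M⁆, ⁅M, M⁆⁆ ≤ ⁅⁅⁅⁅M, M⁆, M⁆, M⁆, M⁆ ∨ ∃ c ∈ 𝐍 M, (∀ g ∈ M, ⁅g, c⁆ ∈ ⁅M, M⁆ → g ∈ ⁅M, M⁆) ∧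
      (∀ b ∈ ⁅M, M⁆, ⁅b, c⁆ ∈ ⁅⁅M, M⁆, M⁆) ∧ ∀ z ∈ ⁅⁅⁅M, M⁆, M⁆, M⁆, ⁅z, c⁆ ∈ ⁅⁅⁅⁅M, M⁆, M⁆, M⁆, M⁆) :
    ⁅⁅⁅M, M⁆, M⁆, M⁆ = ⊥ := by
  have l2 : ⁅M, M⁆ ≤ M := cle le_rfl
  have l3 : ⁅⁅M, M⁆, M⁆ ≤ ⁅M, M⁆ := commutator_mono l2 le_rfl
  have l4 : ⁅⁅⁅M, M⁆, M⁆, M⁆ ≤ ⁅⁅M, M⁆, M⁆ := commutator_mono l3 le_rfl
  have l5 : ⁅⁅⁅⁅M, M⁆, M⁆, M⁆, M⁆ ≤ ⁅⁅⁅M, M⁆, M⁆, M⁆ := commutator_mono l4 le_rfl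
  have c : Ch M _ _ _ _ := ⟨l2, l3, l4, l5, commutator_le.1 le_rfl, commutator_le.1 le_rfl,
    commutator_le.1 le_rfl, commutator_le.1 le_rfl, c2, c3, c4⟩
  have lM := (l4.trans l3).trans l2
  by_contra h
  obtain ⟨z, hz, nz⟩ := SetLike.not_le_iff_exists.1 fun e => h (nil hp k lM e)
  obtain ⟨S, _, π, sS, kS⟩ := sec (fun a ha b hb => c.m5 a ha b (lM hb)) l5
  have := Finite.of_surjective _ sS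
  have : Nontrivial S := ⟨π ⟨z, hz⟩, 1, fun e => nz ((kS _).1 e)⟩
  obtain ⟨N, hN⟩ := ex_prime hp ((((piGrp_iff_isPGroup hp).1 k).to_le lM).of_surjective _ sS)
  refine c.main (πZ := (QuotientGroup.mk' N).comp π) ((QuotientGroup.mk'_surjective N).comp sS) hN
    (fun w hw => by rw [MonoidHom.comp_apply, (kS w).2 hw, map_one]) (fun e => h ?_) (fun e => h ?_)
    (fun e => h ?_) (hc.imp commutator_le.1 fun ⟨t, ht, h1⟩ =>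
      ⟨cw hp k c2, t, fun x hx => (mem_normalizer_iff.1 ht x).1 hx, h1⟩)
  · exact eq_bot_iff.2 (lM.trans (nil hp k le_rfl e).le)
  · exact eq_bot_iff.2 ((l4.trans l3).trans (nil hp k l2 e).le)
  · exact eq_bot_iff.2 (l4.trans (nil hp k (l3.trans l2) e).le)

end CF.Nd
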