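import Mathlib

/-!
The graded part of the proof that a Camina `p`-group with the extra condition has class at most 3.
-/

set_option autoImplicit false

namespace CF.Nd.C

open Subgroup Function

section pair

variable {X Y Z : Type*} [CommGroup X] [CommGroup Y] [CommGroup Z] [Finite X] [Finite Y] [Finite Z]

theorem ker_rng {P Q : Type*} [Group P] [Group Q] (φ : P →* Q) :
    Nat.card φ.ker * Nat.card φ.range = Nat.card P := by
  rw [← φ.ker.card_mul_index, index_ker]

theorem ker_sur {P Q : Type*} [Group P] [Group Q] {φ : P →* Q} (h : Surjective φ) :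
    Nat.card φ.ker * Nat.card Q = Nat.card P := by
  rw [← ker_rng φ, MonoidHom.range_eq_top.2 h, card_top]

open Classical in
theorem pair0 [Fintype X] [Fintype Y] (hZ : (Nat.card Z).Prime) (β : X →* Y →* Z) :
    Nat.card Z * (∑ x, ∑ y, if β x y = 1 then 1 else 0) + Nat.card β.ker * Nat.card Y =
      Nat.card Z * (Nat.card β.ker * Nat.card Y) + Nat.card X * Nat.card Y := by
  haveI := Fact.mk hZ
  have e1 : ∀ x, (∑ y, if β x y = 1 then 1 else 0) = Nat.card (β x).ker := by
    intro x
    rw [Finset.sum_boole, Nat.card_eq_fintype_card, Fintype.card_subtype]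
    simp [MonoidHom.mem_ker]
  have e2 : ∀ c : ℕ, (∑ x : X, if β x = 1 then c else 0) = Nat.card β.ker * c := by
    intro c
    rw [← Finset.sum_filter, Finset.sum_const, Nat.card_eq_fintype_card, Fintype.card_subtype]
    simp [MonoidHom.mem_ker]
  have e3 : ∀ x, Nat.card Z * Nat.card (β x).ker + (if β x = 1 then Nat.card Y else 0) =
      (if β x = 1 then Nat.card Z * Nat.card Y else 0) + Nat.card Y := by
    intro x
    split_ifs with h
    · rw [h, MonoidHom.ker_one, card_top]
    · rcases (β x).range.eq_bot_or_eq_top_of_prime_card with h1 | h1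
      · exact absurd (MonoidHom.range_eq_bot_iff.1 h1) h
      · rw [← ker_sur (MonoidHom.range_eq_top.1 h1), mul_comm]; simp
  simp only [e1]
  have e4 := Finset.sum_congr (s₁ := Finset.univ) rfl fun x _ => e3 x
  rw [Finset.sum_add_distrib, Finset.sum_add_distrib, e2, e2, Finset.sum_const, Finset.card_univ,
    smul_eq_mul, ← Finset.mul_sum, ← Nat.card_eq_fintype_card] at e4
  rw [e4]; ring

theorem pair (hZ : (Nat.card Z).Prime) (β : X →* Y →* Z) : β.ker.index = β.flip.ker.index := by
  classical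
  haveI := Fintype.ofFinite X
  haveI := Fintype.ofFinite Y
  have h1 := pair0 hZ β
  have h2 := pair0 hZ β.flip
  have h0 : (∑ y, ∑ x, if β.flip y x = 1 then 1 else 0) = ∑ x, ∑ y, if β x y = 1 then 1 else 0 :=
    Finset.sum_comm
  rw [h0] at h2
  have c1 := β.ker.card_mul_index
  have c2 := β.flip.ker.card_mul_index
  have p1 : 0 < Nat.card β.ker := Nat.card_pos
  have p2 : 0 < Nat.card β.flip.ker := Nat.card_pos
  obtain ⟨q, hq⟩ : ∃ q, Nat.card Z = q + 2 := ⟨Nat.card Z - 2, by have := hZ.two_le; omega⟩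
  rw [hq] at h1 h2
  generalize β.ker.index = i at *
  generalize β.flip.ker.index = j at *
  generalize Nat.card β.ker = a at *
  generalize Nat.card β.flip.ker = b at *
  rw [← c1, ← c2] at h1 h2
  refine Nat.eq_of_mul_eq_mul_left (Nat.mul_pos (Nat.succ_pos q) (Nat.mul_pos p1 p2)) ?_
  linarith

end pair

theorem ex_ne {P : Type*} [Group P] {U : Subgroup P} (h : 1 < Nat.card U) : ∃ x, x ≠ 1 ∧ x ∈ U := by
  by_contra! hh
  have : U = ⊥ := eq_bot_iff.2 fun x hx => by_contra fun h1 => hh x h1 hx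
  rw [this, card_bot] at h
  exact lt_irrefl _ h

variable {V A B Z : Type*} [CommGroup V] [CommGroup A] [CommGroup B] [CommGroup Z]
  [Finite V] [Finite A] [Finite B] [Finite Z]

theorem core (hZ : (Nat.card Z).Prime) (f : V →* V →* A) (g : A →* V →* B) (h : B →* V →* Z)
    (k : A →* A →* Z) (fa : ∀ x y, f x y * f y x = 1)
    (j1 : ∀ x y z, g (f x y) z * g (f y z) x * g (f z x) y = 1)
    (j2 : ∀ x y b, k (f x y) b * (h (g b y) x)⁻¹ * h (g b x) y = 1)
    (c2 : ∀ s ≠ 1, Surjective (f s)) (c3 : ∀ b ≠ 1, Surjective (g b))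
    (c4 : ∀ e ≠ 1, Surjective (h e)) {s0 : V} (hs0 : s0 ≠ 1) {b0 : A} (hb0 : b0 ≠ 1) {e0 : B}
    (he0 : e0 ≠ 1)
    (st : ∀ s ≠ 1, Nat.card B < Nat.card (f s).ker * Nat.card (g.flip s).range)
    (hc : (∀ a b, k a b = 1) ∨ (Nat.card A ^ 2 ≤ Nat.card V ∧
      ∀ b ≠ 1, (∀ a, k a b = 1) → (∀ y, g b y = 1 → ∀ e, h e y = 1) → False)) : False := by
  have pA : 0 < Nat.card A := Nat.card_pos
  have pB : 0 < Nat.card B := Nat.card_pos
  haveI : Nontrivial Z := Finite.one_lt_card_iff_nontrivial.1 hZ.one_lt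
  have sig := fun s hs => ker_sur (c2 s hs)
  have cb := fun b hb => ker_sur (c3 b hb)
  have hk : h.ker = ⊥ := eq_bot_iff.2 fun e he => by_contra fun h1 => by
    obtain ⟨z, hz⟩ := exists_ne (1 : Z)
    obtain ⟨y, rfl⟩ := c4 e h1 z
    exact hz (by rw [MonoidHom.mem_ker.1 he]; rfl)
  have mU : ∀ y, y ∈ h.flip.ker ↔ ∀ e, h e y = 1 := fun y =>
    ⟨fun hy e => DFunLike.congr_fun (MonoidHom.mem_ker.1 hy) e, fun hy => MonoidHom.ext hy⟩
  have cU : Nat.card h.flip.ker * Nat.card B = Nat.card V := by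
    rw [← h.flip.ker.card_mul_index, ← pair hZ h, hk, index_bot]
  have rA : ∀ s, Nat.card (g.flip s).range ≤ Nat.card A := fun s =>
    Nat.le_of_dvd pA (by rw [← ker_rng (g.flip s)]; exact Dvd.intro_left _ rfl)
  have BV : Nat.card B < Nat.card V := (st s0 hs0).trans_le (by
    rw [← sig s0 hs0]; exact Nat.mul_le_mul_left _ (rA s0))
  have big : ∀ n, n * Nat.card B = Nat.card V → 1 < n := fun n hn => by
    by_contra! h1
    have := Nat.mul_le_mul_right (Nat.card B) h1
    omega
  have fs : ∀ s y, f s y = 1 → f y s = 1 := fun s y hy => by simpa [hy] using fa s y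
  have J : ∀ s ≠ 1, ∀ y, f s y = 1 → (g.flip y).range ≤ (g.flip s).range := by
    rintro s hs y hy _ ⟨a, rfl⟩
    obtain ⟨x, rfl⟩ := c2 s hs a
    have := j1 s x y
    rw [fs s y hy, map_one, MonoidHom.one_apply, mul_one] at this
    exact ⟨(f x y)⁻¹, by simpa using (eq_inv_of_mul_eq_one_left this).symm⟩
  have C2U : ∀ b ≠ 1, (∀ a, k a b = 1) → ∀ y, g b y = 1 → ∀ e, h e y = 1 := by
    intro b hb hr y hy e
    obtain ⟨z, rfl⟩ := c3 b hb e
    simpa [hr, hy] using j2 z y b
  rcases hc with hc | ⟨hA, hc⟩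
  · have eU : ∀ b ≠ 1, (g b).ker = h.flip.ker := fun b hb =>
      eq_of_le_of_card_ge (fun y hy => (mU y).2 (C2U b hb (hc · b) y hy))
        (Nat.eq_of_mul_eq_mul_right pB (cU.trans (cb b hb).symm)).le
    have gU : ∀ x ∈ h.flip.ker, ∀ a, g a x = 1 := fun x hx a => by
      by_cases ha : a = 1
      · simp [ha]
      · rw [← eU a ha] at hx; exact hx
    have rb : ∀ x ∈ h.flip.ker, (g.flip x).range = ⊥ := fun x hx =>
      MonoidHom.range_eq_bot_iff.2 (MonoidHom.ext (gU x hx))
    have kU : ∀ x ≠ 1, x ∈ h.flip.ker → (f x).ker = h.flip.ker := fun x h1 hx => by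
      refine le_antisymm (fun y hy => ?_) fun y hy => by_contra fun h2 => ?_
      · rw [← eU b0 hb0]
        exact mem_bot.1 (rb x hx ▸ J x h1 y hy ⟨b0, rfl⟩)
      · obtain ⟨z, hz⟩ := c3 _ h2 e0
        have := j1 x y z
        rw [gU x hx, gU y hy, hz] at this
        exact he0 (by simpa using this)
    obtain ⟨x, h1, hx⟩ := ex_ne (big _ cU)
    have l1 := st x h1
    rw [rb x hx, card_bot, mul_one, kU x h1 hx] at l1
    have l2 := sig x h1
    rw [kU x h1 hx, ← cU] at l2
    have l3 := Nat.eq_of_mul_eq_mul_left Nat.card_pos l2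
    obtain ⟨z, hz⟩ := exists_ne (1 : Z)
    obtain ⟨y, rfl⟩ := c4 e0 he0 z
    have l4 : Nat.card h.flip.ker ≤ Nat.card A := by
      refine Nat.card_le_card_of_injective ((f.flip y).comp h.flip.ker.subtype)
        ((injective_iff_map_eq_one _).2 fun u hu => Subtype.ext (by_contra fun h2 => hz ?_))
      exact (mU y).1 (kU u h2 u.2 ▸ hu) e0
    omega
  · have rad : ∀ b, (∀ a, k a b = 1) → b = 1 := fun b hr => by_contra fun hb =>
      hc b hb hr (C2U b hb hr)
    have inj : ∀ x ≠ 1, x ∈ h.flip.ker → Nat.card (g.flip x).range = Nat.card A := fun x h1 hx => by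
      have : (g.flip x).ker = ⊥ := eq_bot_iff.2 fun b hb => rad b fun a => by
        obtain ⟨y, rfl⟩ := c2 x h1 a
        have hb' : g b x = 1 := hb
        simpa [hb', (mU x).1 hx] using j2 x y b
      rw [← ker_rng (g.flip x), this, card_bot, one_mul]
    obtain ⟨s, hs, hbs⟩ := ex_ne (big _ (cb b0 hb0))
    have r1 : Nat.card (g.flip s).range < Nat.card A := by
      have h2 : 1 < Nat.card (g.flip s).ker :=
        (one_lt_card_iff_ne_bot _).2 fun e => hb0 (mem_bot.1 (e ▸ (hbs : b0 ∈ (g.flip s).ker)))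
      have h3 : 0 < Nat.card (g.flip s).range := Nat.card_pos
      rw [← ker_rng (g.flip s)]
      nlinarith
    have r2 : Nat.card A ≤ Nat.card (f s).ker := by
      rw [← sig s hs, sq] at hA
      exact Nat.le_of_mul_le_mul_right hA pA
    have sw : ∀ y, f s y = 1 → ∀ b, h (g b y) s = h (g b s) y := fun y hy b => by
      have := j2 s y b
      rwa [hy, map_one, MonoidHom.one_apply, one_mul, inv_mul_eq_one] at this
    have eR : ∀ y ≠ 1, f s y = 1 → (g.flip y).range = (g.flip s).range := fun y h1 hy =>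
      le_antisymm (J s hs y hy) (J y h1 s (fs s y hy))
    obtain ⟨y, h1, hy⟩ : ∃ y, y ≠ 1 ∧
        y ∈ ((h.comp (g.flip s).range.subtype).flip.comp (f s).ker.subtype).ker := by
      by_contra! hh
      have e : ((h.comp (g.flip s).range.subtype).flip.comp (f s).ker.subtype).ker = ⊥ :=
        eq_bot_iff.2 fun x hx => by_contra fun h1 => hh x h1 hx
      have := pair hZ ((h.comp (g.flip s).range.subtype).flip.comp (f s).ker.subtype)
      rw [e, index_bot] at this
      have h3 := Nat.le_of_dvd Nat.card_pos (index_dvd_card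
        ((h.comp (g.flip s).range.subtype).flip.comp (f s).ker.subtype).flip.ker)
      omega
    have hs1 : ∀ e ∈ (g.flip s).range, h e s = 1 := by
      rw [← eR y (fun e => h1 (Subtype.ext e)) y.2]
      rintro _ ⟨b, rfl⟩
      exact (sw y y.2 b).trans (DFunLike.congr_fun (MonoidHom.mem_ker.1 hy) ⟨_, b, rfl⟩)
    have e : (h.flip.comp (f s).ker.subtype).ker = ⊥ := eq_bot_iff.2 fun x hx => by_contra fun h2 => by
      have h3 : (x : V) ≠ 1 := fun e => h2 (Subtype.ext e)
      have := inj x h3 hx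
      rw [eR x h3 x.2] at this
      omega
    have l1 := pair hZ (h.flip.comp (f s).ker.subtype)
    rw [e, index_bot] at l1
    have l2 : (g.flip s).range ≤ (h.flip.comp (f s).ker.subtype).flip.ker := by
      rintro _ ⟨b, rfl⟩
      exact MonoidHom.ext fun u => (sw u u.2 b).symm.trans (hs1 _ (J s hs u u.2 ⟨b, rfl⟩))
    have l3 := index_antitone l2
    have l4 := st s hs
    rw [← (g.flip s).range.index_mul_card] at l4
    have := Nat.lt_of_mul_lt_mul_right l4
    omega

end CF.Nd.C
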