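import Cfsg.Agent.Nd.A2

/-!
The case in which the normal subgroup `N` is nilpotent: the layers of its lower central series.
-/

set_option autoImplicit false

namespace CF.Nd

open Cfsg Subgroup CF.BG CF.Clifford CF.Char CF.Fgs2.Isa CF.Degs MulAction
open scoped commutatorElement ComplexConjugate

attribute [local instance] Fintype.ofFinite linAct

set_option linter.unusedSectionVars false

universe u v

variable {G : Type u} [Group G] {d e m n p q r s t : ℕ} {x y z g : G} {S : Set ℕ}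
  {A B C D E H I K L M N P T U V W X Y Z : Subgroup G}

/-- the nilpotent case -/
structure Ni (S : Set ℕ) (N : Subgroup G) (x : G) (p : ℕ) : Prop extends St S N x where
  nil : Nil N
  prime : p.Prime
  pi : PiGrp {p} (commutator G)
  nd : ¬ p ∣ N.index
  px : PiElt {p}ᶜ x

/-- characters that are non-trivial on `V` vanish outside `C_N(x) V` -/
def C1 (N : Subgroup G) (x : G) (V : Subgroup G) : Prop :=
  ∀ ψ, IsIrrCharacter N ψ → ¬ V.subgroupOf N ≤ charKer ψ → ∀ g : N, g.1 ∉ V ⊔ N ⊓ 𝐂₁ x → ψ g = 0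

theorem pow_comm_of (h : g ∈ 𝐂₁ x) (k : ℕ) : g * x ^ k = x ^ k * g :=
  (Commute.pow_right (mem_cent1.1 h) k).eq

theorem comm3 [V.Normal] [M.Normal] : ⁅V, ⁅M, M⁆⁆ ≤ ⁅⁅V, M⁆, M⁆ := by
  rw [commutator_comm]
  exact three_subgroup (nm _ _) (nm _ _) (nm _ _) (by rw [commutator_comm M V]) le_rfl

variable [Finite G] [N.Normal]

theorem St.piE (h : St S N x) (k : Nil N) (hq : q.Prime) (a : q ∣ (DD N).relIndex N) :
    PiGrp {q} ⁅N, N⁆ := by
  obtain ⟨g, hg, w⟩ := SetLike.not_le_iff_exists.1 fun w : 𝐎 {q} N ≤ DD N =>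
    ((k.hall_O _).idx_of_le w).not_dvd' hq rfl a
  have e := ((k.mono (der_le N)).dprod {q}).sup
  rw [eq_bot_of_forall (H := 𝐎 {q}ᶜ ⁅N, N⁆) fun e he => by
    have c := ((O_pi _ _).elt hg).coprime ((O_pi _ _).elt he)
    exact h.g1' (O_le _ _ hg) w (O_le _ _ he)
      (k.comm_of_coprime (O_le _ _ hg) (der_le N (O_le _ _ he)) c) c, sup_bot_eq] at e
  exact e ▸ O_pi _ _

theorem St.ni (h : St S N x) (k : Nil N) (e : ⁅N, N⁆ ≠ ⊥) : ∃ y p, Ni S N y p := by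
  obtain ⟨p, hp, a⟩ := Nat.exists_prime_and_dvd fun w => h.ne (relIndex_eq_one.1 w)
  have b := h.piE k hp (h.idx ▸ a)
  have c := not_dvd_of_coprime h.cop hp a
  refine ⟨constt {p}ᶜ x, p, h.change (top_le_iff.1 (h.gen.ge.trans (sup_le le_sup_left ?_))), k, hp,
    b.of_relIndex fun q hq w => (h.piE k hq (h.idx ▸ w)).mem_of_ne_bot e b, c, constt_pi _ _⟩
  rw [zpowers_le]
  conv_rhs => rw [← constt_mul_constt {p} x]
  exact mul_mem_sup ((constt_pi {p} x).mem_of_relIndex (mem_top _) (nm _ N) (by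
    rw [relIndex_top_right]; exact (piNat_compl_single hp).2 c)) (mem_zpowers _)

namespace Ni

theorem cp (h : Ni S N x p) (l : V ≤ commutator G) : (♯(zpowers x)).Coprime (♯V) :=
  PiNat.coprime' (piGrp_zpowers.2 h.px) (h.pi.le l)

theorem supM (h : Ni S N x p) : commutator G ⊔ N ⊓ 𝐂₁ x = N := by
  rw [← cent_zpowers]
  exact sup_inf_cent_of_comm_le h.MN (nm _ _) (h.cp le_rfl) (.inl (cyc_zpowers x).sol)
    (commutator_mono le_top le_top)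

theorem D0_le (h : Ni S N x p) : N ⊓ 𝐂₁ x ≤ DD N := fun g hg => h.mem_D hg.1 (by
  rw [commutatorElement_eq_one_iff_mul_comm.2 (mem_cent1.1 hg.2)]; exact one_mem _)

theorem supE (h : Ni S N x p) : ⁅N, N⁆ ⊔ N ⊓ 𝐂₁ x = DD N := by
  refine le_antisymm (sup_le le_DD h.D0_le) ((sup_inf_cent_of_comm_le le_DD (nm _ _) (h.cp (EM N))
    (.inl (cyc_zpowers x).sol) (comm_DD _)).ge.trans (sup_le_sup_left ?_ _))
  rw [cent_zpowers]
  exact inf_le_inf_right _ DD_le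

theorem exM (h : Ni S N x p) (a : g ∈ N) : ∃ m ∈ commutator G, ∃ d ∈ N ⊓ 𝐂₁ x, m * d = g :=
  (mem_sup_norm' (nm _ _)).1 (h.supM.ge a)

theorem cent (h : Ni S N x p) : N ⊓ 𝐂₁ x ≤ 𝐂 (commutator G) := by
  set D := N ⊓ 𝐂₁ x
  set J := ⁅D, commutator G⁆
  have c : zpowers x ≤ 𝐂 D := cent_symm (by rw [cent_zpowers]; exact inf_le_right)
  have : J.Normal := nrm_of (h.gen.ge.trans (sup_le (h.supM.ge.trans
    (sup_le (norm_comm_right _ _) (norm_comm_left _ _))) (norm_commutator (norm_of_cent c) (nm _ _))))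
  have l : J ≤ ⁅N, N⁆ := commutator_mono inf_le_left h.MN
  have EJ : ⁅N, N⁆ ≤ J ⊔ ⁅commutator G, commutator G⁆ := fun e he => by
    obtain ⟨g, a, b⟩ := h.toSt.exM
    obtain ⟨n, hn, rfl⟩ := h.g1 (h.MN a) (fun w => b (h.DM w a)) he
    obtain ⟨m, hm, d, hd, rfl⟩ := h.exM hn
    rw [commutatorElement_mul_right_eq_mul_conj, mul_assoc, mul_assoc, ← mul_assoc m]
    exact mul_mem (mem_sup_right (commutator_mem_commutator a hm)) (mem_sup_left
      (this.conj_mem _ (cm_swap (commutator_mem_commutator hd a)) m))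
  rw [← comm_eq_bot]
  by_contra w
  obtain ⟨μ, a, b⟩ := exists_lin_of_der_le (h.nil.comm_lt ⟨l.trans (der_le N), nm _ _⟩ w).not_ge
    (commutator_mono le_rfl (l.trans (der_le N)))
  have i := le_Il.2 a
  obtain ⟨k, u, v⟩ := exists_pow_mem h.gen i le_rfl (h.nt l b i)
  have j : ⁅J, N⁆ ≤ ⁅J, Il J μ⁆ := commutator_mono le_rfl i
  have := nrm_of_le h.gen i
  have := h.ts (D := D) (U := J) i u v le_rfl (by
    rw [comm_eq_bot'.2 ((zpowers_le.2 (npow_mem_zpowers x k)).trans c)]; exact bot_le)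
    ((commutator_mono le_rfl EJ).trans (comm_sup_le' (by
      rw [commutator_comm]; exact (commutator_mono le_rfl inf_le_left).trans j) (by
      rw [commutator_comm]
      exact three_subgroup (nm _ _) (nm _ _) (nm _ _)
        ((commutator_mono (commutator_comm _ _).le h.MN).trans j)
        ((commutator_mono le_rfl h.MN).trans j)) (nm _ _) (nm _ _)))
  exact b (MonoidHom.ext fun v => le_Il.1 le_rfl (this v.2))

theorem cm_one (h : Ni S N x p) {d : G} (a : g ∈ commutator G) (b : d ∈ N ⊓ 𝐂₁ x) : ⁅g, d⁆ = 1 :=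
  commutatorElement_eq_one_iff_mul_comm.2 (h.cent b g a)

theorem toM (h : Ni S N x p) {e : G} (a : g ∈ commutator G) (b : ∃ n ∈ N, ⁅g, n⁆ = e) :
    ∃ n ∈ commutator G, ⁅g, n⁆ = e := by
  obtain ⟨n, hn, rfl⟩ := b
  obtain ⟨m, hm, d, hd, rfl⟩ := h.exM hn
  exact ⟨m, hm, by simp [commutatorElement_mul_right_eq_mul_conj, h.cm_one a hd]⟩

theorem commN (h : Ni S N x p) (l : V ≤ commutator G) : ⁅V, N⁆ = ⁅V, commutator G⁆ :=
  le_antisymm (commutator_le.2 fun g a n b => by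
    obtain ⟨m, hm, e⟩ := h.toM (l a) ⟨n, b, rfl⟩
    exact e ▸ commutator_mem_commutator a hm) (commutator_mono le_rfl h.MN)

theorem der (h : Ni S N x p) : ⁅N, N⁆ = ⁅commutator G, commutator G⁆ := by
  refine le_antisymm (fun e he => ?_) (commutator_mono h.MN h.MN)
  obtain ⟨g, a, b⟩ := h.toSt.exM
  obtain ⟨m, hm, rfl⟩ := h.toM a (h.g1 (h.MN a) (fun w => b (h.DM w a)) he)
  exact commutator_mem_commutator a hm

theorem nD0 (h : Ni S N x p) : (N ⊓ 𝐂₁ x).Normal :=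
  nrm_of (h.gen.ge.trans (sup_le (h.supM.ge.trans (sup_le (norm_of_cent' h.cent) (le_norm_self _)))
    (norm_of_cent' (by rw [cent_zpowers]; exact inf_le_right))))

theorem c1E (h : Ni S N x p) : C1 N x ⁅N, N⁆ := fun _ a b _ c => h.van a b (h.supE ▸ c)

theorem in_eq (h : Ni S N x p) [V.Normal] (l : V ≤ N) (c : C1 N x V) {ψ : N → ℂ}
    (hψ : IsIrrCharacter N ψ) {μ : V →* ℂˣ} (o : Ovc ψ μ) (m1 : μ ≠ 1) : In N ψ = Il V μ := by
  have i := le_inertia_self hψ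
  refine le_antisymm (o.le hψ l) (by_contra fun w => ?_)
  obtain ⟨k, a, b⟩ := exists_pow_mem h.gen (i.trans (o.le hψ l)) i w
  refine b ((NormalEmb.mem_inertia' _).2 fun n => ?_)
  have := h.nD0
  have z := c ψ hψ fun v => m1 ((o.ne hψ l).1 v)
  by_cases u : n.1 ∈ V ⊔ N ⊓ 𝐂₁ x
  · obtain ⟨v, hv, d, hd, e⟩ := (mem_sup_norm' (nm _ _)).1 u
    have e1 : n = ⟨v, l hv⟩ * ⟨d, hd.1⟩ := Subtype.ext e.symm
    have e2 : (NormalEmb.sub N).c (x ^ k) n = ⟨(NormalEmb.sub V).c (x ^ k) ⟨v, hv⟩,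
        l (Subtype.prop _)⟩ * ⟨d, hd.1⟩ := Subtype.ext (by
      simp only [NormalEmb.sub_c, coe_mul, ← e, mul_assoc, mul_right_inj]
      rw [eq_inv_mul_iff_mul_eq, ← mul_assoc, ← pow_comm_of hd.2, mul_inv_cancel_right])
    rw [e2, o, mem_Il.1 a, e1, o ⟨v, hv⟩]
  · rw [z n u, z _ fun v => u (by
      rw [NormalEmb.sub_c] at v
      simpa [mul_assoc] using Normal.conj_mem inferInstance _ v (x ^ k)⁻¹)]

theorem fp_next (h : Ni S N x p) [V.Normal] (l : V ≤ commutator G) (hy : y ∉ N)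
    (a : ⁅V, zpowers y⁆ ≤ ⁅V, N⁆) : Fp ⁅V, N⁆ ⁅⁅V, N⁆, N⁆ y := by
  refine fp_of_dual (commutator_mono le_rfl (comm_le_right (nm _ _))) fun μ u v => ?_
  have i := le_Il.2 u
  have := h.ts i v hy (commutator_mono le_rfl h.MN) a (comm3.trans (commutator_mono le_rfl i))
  rw [← h.commN l] at this
  exact MonoidHom.ext fun v => le_Il.1 le_rfl (this v.2)

theorem pgrp (h : Ni S N x p) (l : V ≤ commutator G) (μ : V →* ℂˣ) : ∃ k, μ ^ p ^ k = 1 :=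
  pgroup_lin h.prime (h.pi.le l) μ

theorem smul_eq (h : Ni S N x p) [V.Normal] (l : V ≤ commutator G) {μ : V →* ℂˣ} (i : N ≤ Il V μ)
    (k : y • (y • μ * μ⁻¹) = y • μ * μ⁻¹) : y • μ = μ := by
  obtain ⟨k', e⟩ := h.pgrp l (y • μ * μ⁻¹)
  exact smul_eq_of_coprime k ((stab_linAct μ).ge (i (N.pow_index_mem y))) e
    (((Nat.Prime.coprime_iff_not_dvd h.prime).2 h.nd).symm.pow_right _)

end Ni

omit [Finite G] [N.Normal] in
theorem smul_iff [V.Normal] {μ : V →* ℂˣ} : y • μ = μ ↔ y ∈ Il V μ := by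
  rw [← stab_linAct]; rfl

omit [Finite G] [N.Normal] in
theorem smul_ann [V.Normal] [W.Normal] {μ : V →* ℂˣ} (h : μ ∈ Ann V W) (y : G) : y • μ ∈ Ann V W :=
  fun _ hv => h (‹W.Normal›.conj_mem _ hv y⁻¹)

omit [Finite G] in
theorem St.sc (h : St S N x) [V.Normal] {μ : V →* ℂˣ} (i : N ≤ Il V μ) (a b : G) :
    a • b • μ = b • a • μ := by
  have := smul_iff.2 (i (h.MN (cm_der a⁻¹ b⁻¹)))
  conv_rhs => rw [← this]
  simp only [← mul_smul, commutatorElement_def]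
  congr 1
  group

omit [Finite G] [N.Normal] in
theorem all_eq_abs {A : Type v} [CommGroup A] [MulDistribMulAction G A] {W : Subgroup A}
    (iv : ∀ v ∈ W, ∀ g : G, g • v ∈ W) (sc : ∀ v ∈ W, ∀ a b : G, a • b • v = b • a • v)
    (j : ∀ μ ∈ W, ∀ y : G, y • (y • μ * μ⁻¹) = y • μ * μ⁻¹ → y • μ = μ)
    (k : ∀ μ ∈ W, ∀ ν ∈ W, μ ≠ 1 → ν ≠ 1 → stabilizer G μ ≤ stabilizer G ν →
      stabilizer G ν ≤ stabilizer G μ)
    {μ ν : A} (a : μ ∈ W) (b : ν ∈ W) (m1 : μ ≠ 1) : stabilizer G μ ≤ stabilizer G ν := by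
  intro t ht
  by_contra w
  have c := mul_mem (iv _ b t) (inv_mem b)
  have ht' : t • μ = μ := ht
  have nt : t ∉ stabilizer G (t • ν * ν⁻¹) := fun v => w (j ν b t v)
  have d1 : μ * (t • ν * ν⁻¹) ≠ 1 := fun v => nt (by
    rw [eq_inv_of_mul_eq_one_right v, mem_stabilizer_iff, smul_inv', ht'])
  have := k _ (mul_mem a c) _ a d1 m1 (fun s (e : s • _ = _) => by
    have f : t • (s • ν * ν⁻¹) * (s • ν * ν⁻¹)⁻¹ = (s • μ * μ⁻¹)⁻¹ := by
      rw [smul_mul', smul_mul', smul_inv'] at e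
      rw [smul_mul', smul_inv', sc ν b, eq_inv_iff_mul_eq_one, ← mul_inv_eq_one.2 e]
      simp only [mul_inv, inv_inv]
      generalize (s • ν)⁻¹ = a, (t • ν)⁻¹ = b, s • t • ν = c, s • μ = d
      ac_rfl
    have := j _ (mul_mem (iv _ b s) (inv_mem b)) t (by
      rw [f, smul_inv', smul_mul', smul_inv', sc μ a, ht'])
    rw [this, mul_inv_cancel, eq_comm, inv_eq_one] at f
    exact mul_inv_eq_one.1 f) ht
  rw [mem_stabilizer_iff, smul_mul', ht', mul_right_inj] at this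
  exact nt this

omit [Finite G] in
theorem St.all_eq (h : St S N x) [V.Normal] [W.Normal] (i : ∀ μ ∈ Ann V W, N ≤ Il V μ)
    (j : ∀ μ ∈ Ann V W, ∀ y : G, y • (y • μ * μ⁻¹) = y • μ * μ⁻¹ → y • μ = μ)
    (k : ∀ μ ∈ Ann V W, ∀ ν ∈ Ann V W, μ ≠ 1 → ν ≠ 1 → Il V μ ≤ Il V ν → Il V ν ≤ Il V μ)
    {μ ν : V →* ℂˣ} (a : μ ∈ Ann V W) (b : ν ∈ Ann V W) (m1 : μ ≠ 1) :
    Il V μ ≤ Il V ν := by
  simp only [← stab_linAct] at k ⊢
  exact all_eq_abs (fun _ => smul_ann) (fun v hv => h.sc (i v hv)) j k a b m1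

/-- the data of one layer -/
structure Ly (N : Subgroup G) [N.Normal] (x : G) (V C : Subgroup G) (d : ℕ) : Prop where
  le : N ≤ C
  ne : ¬ C ≤ N
  triv : ⁅V, C⁆ ≤ ⁅V, N⁆
  fp : ∀ y, y ∉ C → Fp V ⁅V, N⁆ y
  deg : ∀ ψ (t : ℕ), IsIrrCharacter N ψ → ψ 1 = t → ⁅V, N⁆.subgroupOf N ≤ charKer ψ →
    ¬ V.subgroupOf N ≤ charKer ψ → In N ψ = C ∧ C.index * t = d
  ex : ∃ ψ, IsIrrCharacter N ψ ∧ ⁅V, N⁆.subgroupOf N ≤ charKer ψ ∧ ¬ V.subgroupOf N ≤ charKer ψ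
  cls : ∀ g ∈ V, g ∉ ⁅V, N⁆ → ∀ e ∈ ⁅V, N⁆, ∃ n ∈ N, ⁅g, n⁆ = e
  c1 : C1 N x ⁅V, N⁆
  c2 : ⁅N ⊓ 𝐂₁ x, N ⊓ 𝐂₁ x⁆ ≤ ⁅⁅V, N⁆, N⁆

theorem Ni.ex_mu (h : Ni S N x p) [V.Normal] (l : V ≤ N) (v1 : V ≠ ⊥) :
    ∃ μ ∈ Ann V ⁅V, N⁆, μ ≠ 1 :=
  exists_lin_of_der_le (h.nil.comm_lt ⟨l, nm _ _⟩ v1).not_ge (commutator_mono le_rfl l)

theorem Ni.ly (h : Ni S N x p) [V.Normal] (l : V ≤ ⁅N, N⁆) (v1 : V ≠ ⊥) (c1 : C1 N x V)
    (c2 : ⁅N ⊓ 𝐂₁ x, N ⊓ 𝐂₁ x⁆ ≤ ⁅V, N⁆) : ∃ C d, Ly N x V C d := by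
  have := h.nD0
  have lN := l.trans (der_le N)
  have lM := l.trans (EM N)
  have lV : ⁅V, N⁆ ≤ V := comm_le_left (nm _ _)
  set Z := V ⊔ N ⊓ 𝐂₁ x
  have cZ : ⁅Z, N⁆ ≤ ⁅V, N⁆ := comm_sup_le le_rfl (by
    conv_lhs => enter [2]; rw [← h.supM]
    exact comm_sup_le' ((comm_eq_bot.2 h.cent).le.trans bot_le) c2 (nm _ _) (nm _ _)) (nm _ _) (nm _ _)
  have ZN : Z ≤ N := sup_le lN inf_le_left
  have nl : ∀ ψ : N → ℂ, ¬ V.subgroupOf N ≤ charKer ψ → ¬ ⁅N, N⁆.subgroupOf N ≤ charKer ψ :=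
    fun ψ a b => a ((subgroupOf_mono N l).trans b)
  have sq : ∀ ψ (t : ℕ), IsIrrCharacter N ψ → ψ 1 = t → ⁅V, N⁆.subgroupOf N ≤ charKer ψ →
      ¬ V.subgroupOf N ≤ charKer ψ → t ^ 2 = Z.relIndex N := fun ψ t a b c e => by
    have := irr_one_sq_eq_index a (Z.subgroupOf N) (fun z hz => (mem_charCenter_iff_commutator a).2
      fun n => c (cZ (commutator_mem_commutator hz n.2))) (c1 ψ a e)
    rw [b] at this
    exact_mod_cast this
  have A : ∀ μ ∈ Ann V ⁅V, N⁆, μ ≠ 1 → ∃ ψ, ∃ t : ℕ, IsIrrCharacter N ψ ∧ ψ 1 = t ∧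
      ⁅V, N⁆.subgroupOf N ≤ charKer ψ ∧ ¬ V.subgroupOf N ≤ charKer ψ ∧ In N ψ = Il V μ :=
    fun μ a b => by
      obtain ⟨ψ, u, o⟩ := exists_irr_ovc lN (le_Il.2 a)
      obtain ⟨t, -, e⟩ := exists_cd u
      exact ⟨ψ, t, u, e, (o.ann u lN lV).2 a, fun w => b ((o.ne u lN).1 w), h.in_eq lN c1 u o b⟩
  obtain ⟨μ, ma, m1⟩ := h.ex_mu lN v1
  obtain ⟨ψ, t, p1, p2, p3, p4, p5⟩ := A μ ma m1
  have t1 : t ≠ 1 := fun w => nl ψ p4 ((nl_iff p1).2 (by simp [p2, w]))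
  have st := sq ψ t p1 p2 p3 p4
  have t0 : 0 < t := cd_pos (cd_of_irr p1 p2)
  have B : ∀ ν ∈ Ann V ⁅V, N⁆, ν ≠ 1 → (Il V ν).index * t ∈ S := fun ν a b => by
    obtain ⟨φ, s, q1, q2, q3, q4, q5⟩ := A ν a b
    obtain rfl : s = t := Nat.pow_left_injective two_ne_zero ((sq φ s q1 q2 q3 q4).trans st.symm)
    exact q5 ▸ h.deg q1 q2
  have K : ∀ ν ∈ Ann V ⁅V, N⁆, ν ≠ 1 → Il V ν = Il V μ := by
    have := @St.all_eq G _ x S N V ⁅V, N⁆ _ h.toSt _ _ (fun μ a => le_Il.2 a)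
      (fun μ a y => h.smul_eq lM (le_Il.2 a)) fun μ a ν b c e f => (eq_of_le_of_index_le f
        (Nat.eq_of_mul_eq_mul_right t0 (h.anti _ (B ν b e) _ (B μ a c)
          (fun w => t1 (Nat.eq_one_of_mul_eq_one_left w))
          (Nat.mul_dvd_mul_right (index_dvd_of_le f) t))).ge).ge
    exact fun ν a b => le_antisymm (this a ma b) (this ma a m1)
  set C := Il V μ
  have NC : N ≤ C := le_Il.2 ma
  have CN := h.nt l m1 NC
  have triv : ⁅V, C⁆ ≤ ⁅V, N⁆ := fun g hg => by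
    by_contra w
    obtain ⟨ν, a, b⟩ := exists_lin_ne (commutator_mono le_rfl lN)
      (x := ⟨g, comm_le_left (nm _ _) hg⟩) w
    exact b (le_Il.1 (K ν a fun e => b (e ▸ rfl)).ge hg)
  have fp : ∀ y, y ∉ C → Fp V ⁅V, N⁆ y := fun y hy => fp_of_dual (commutator_mono le_rfl lN)
    fun ν a b => by_contra fun w => hy (K ν a w ▸ b)
  have nC : ∀ φ, IsIrrCharacter N φ → ¬ ⁅V, N⁆.subgroupOf N ≤ charKer φ → ¬ In N φ ≤ C :=
    fun φ a b w => by
      obtain ⟨s, hs, e⟩ := exists_cd a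
      have z := c1 φ a fun v => b ((subgroupOf_mono N lV).trans v)
      have ts : t ∣ s := (Nat.pow_dvd_pow_iff two_ne_zero).1
        (st ▸ index_dvd_sq_of_vanish (K := Z.subgroupOf N) a e z)
      have q := h.anti _ (B μ ma m1) _ (h.deg a e) (fun w => t1 (Nat.eq_one_of_mul_eq_one_left w))
        (Nat.mul_dvd_mul (index_dvd_of_le w) ts)
      have : s ≤ t := by
        by_contra! v
        exact (Nat.mul_lt_mul_of_le_of_lt (Nat.le_of_dvd (Nat.pos_of_ne_zero index_ne_zero_of_finite)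
          (index_dvd_of_le w)) v (Nat.pos_of_ne_zero index_ne_zero_of_finite)).ne q
      obtain rfl := this.antisymm (Nat.le_of_dvd (cd_pos hs) ts)
      have zc := le_center_of_sq a e z st
      refine b ?_
      rw [subgroupOf_comm lN le_rfl]
      exact commutator_le.2 fun u hu n _ => commutator_mem_charKer_of_mem_charCenter
        (irr_isClassFunction a) (zc (subgroupOf_mono N le_sup_left hu)) n
  have van : ∀ v ∈ V, v ∉ ⁅V, N⁆ → ∀ d ∈ N ⊓ 𝐂₁ x, ∀ (hg : v * d ∈ N) φ, IsIrrCharacter N φ →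
      ¬ ⁅V, N⁆.subgroupOf N ≤ charKer φ → φ ⟨v * d, hg⟩ = 0 := fun v hv v0 d hd hg φ a b => by
    have hz : v * d ∈ Z := mul_mem_sup hv hd
    refine bt h.gen NC nC (fun n hn => cm_swap (cZ (commutator_mem_commutator hz hn)))
      (fun y hy w => ?_) a b
    obtain ⟨n, hn, k, rfl⟩ := exists_pow h.gen y
    have w1 : x ^ k ∈ Cy ⁅V, N⁆ (v * d) := (mul_mem_cancel_left (mem_Cy'.2
      (cZ (commutator_mem_commutator hz hn)))).1 (mem_Cy.2 w)
    have w2 : v ∈ Cy ⁅V, N⁆ (x ^ k) := (mul_mem_cancel_right (mem_Cy.2 (by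
      rw [commutatorElement_eq_one_iff_mul_comm.2 (pow_comm_of hd.2 k)]; exact one_mem _))).1
        (mem_Cy'.2 (mem_Cy.1 w1))
    exact v0 (fp _ (fun u => hy (C.mul_mem (NC hn) u)) v hv (mem_Cy.1 w2))
  obtain ⟨k, k1, k2⟩ := exists_pow_mem h.gen NC le_rfl CN
  refine ⟨C, C.index * t, NC, CN, triv, fp, fun φ s a b c e => ?_, ⟨ψ, p1, p3, p4⟩,
    fun g a b e c => cls' (lV.trans lN) (g := ⟨g, lN a⟩) (fun φ u v => ?_) c, fun φ a b g c => ?_,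
    fun g hg => h.fp_next lM k2 ((commutator_mono le_rfl (zpowers_le.2 k1)).trans triv) g (c2 hg) ?_⟩
  · obtain ⟨ν, o⟩ := exists_ovc lN a c
    have n1 : ν ≠ 1 := fun w => e ((o.ne a lN).2 w)
    rw [h.in_eq lN c1 a o n1, K ν ((o.ann a lN lV).1 c) n1,
      Nat.pow_left_injective two_ne_zero ((sq φ s a b c e).trans st.symm)]
    exact ⟨rfl, rfl⟩
  · simpa using van g a b 1 (one_mem _) (by simpa using lN a) φ u v
  · by_cases w : g.1 ∈ Z
    · obtain ⟨v, hv, d, hd, e⟩ := (mem_sup_norm' (nm _ _)).1 w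
      have := van v hv (fun u => c (e ▸ mul_mem_sup u hd)) d hd (e ▸ g.2) φ a b
      simpa only [e] using this
    · exact c1 φ a (fun v => b ((subgroupOf_mono N lV).trans v)) g w
  · rw [commutatorElement_eq_one_iff_mul_comm.2 (pow_comm_of (der_le _ hg).2 k)]
    exact one_mem _

end CF.Nd
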