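import Cfsg.Agent.Nd.D1
import Cfsg.Agent.Nd.C

/-!
The case in which the normal subgroup `N` is nilpotent: the degrees.
-/

set_option autoImplicit false

namespace CF.Nd

open Cfsg Subgroup CF.BG CF.Clifford CF.Char CF.Fgs2.Isa CF.Degs MulAction
open scoped commutatorElement ComplexConjugate

attribute [local instance] Fintype.ofFinite linAct
attribute [-instance] MonoidHom.instPow MonoidHom.mul instOneMonoidHom MonoidHom.instInv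

set_option linter.unusedSectionVars false

universe u v

variable {G : Type u} [Group G] {d e m n p q r s t : ℕ} {x y z g : G} {S : Set ℕ}
  {A B C D E H I K L M N P R T U V W X Y Z : Subgroup G}

variable [Finite G] [N.Normal]

theorem cm_eq_one (h : g ∈ 𝐂₁ y) : ⁅g, y⁆ = 1 :=
  commutatorElement_eq_one_iff_mul_comm.2 (mem_cent1.1 h)

theorem Ni.O_cent (h : Ni S N x p) : 𝐎 {p}ᶜ N ≤ 𝐂 N := by
  have := normalIn_top.1 ((normalIn_top.2 ‹N.Normal›).O {p}ᶜ)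
  exact comm_eq_bot.1 (eq_bot_mono ((O_pi {p}ᶜ N).inf_eq_bot' h.pi) (le_inf (comm_le_left (nm _ _))
    (commutator_mono le_top le_top)))

theorem Ni.pw (h : Ni S N x p) (ht : t ∈ 𝐜𝐝 N) : ∃ a, t = p ^ a := by
  have := normalIn_top.1 ((normalIn_top.2 ‹N.Normal›).O {p}ᶜ)
  exact ((h.nil.hall_O {p}ᶜ).idx.of_compl_compl.dvd (cd_dvd_index
    (Abel.subgroupOf (h.O_cent.trans (cent_anti (O_le _ _))) N) ht)).exists_pow (cd_pos ht).ne'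

theorem Ni.dvd (h : Ni S N x p) (ht : t ∈ 𝐜𝐝 N) (a : Abel R) (l : 𝐙 N ≤ R) :
    t ∣ R.relIndex N := by
  obtain ⟨i, rfl⟩ := h.pw ht
  obtain ⟨j, e⟩ := ((h.nil.hall_O {p}ᶜ).idx_of_le
    ((le_inf (O_le _ _) h.O_cent).trans l)).of_compl_compl.exists_pow (relIndex_ne_zero' _ _)
  have := cd_le_index (a.subgroupOf N) ht
  rw [← relIndex, e, Nat.pow_le_pow_iff_right h.prime.one_lt] at this
  exact e ▸ pow_dvd_pow p this

theorem Ly.np (L : Ly N x V C d) (a : g ∈ V) (b : g ∉ ⁅V, N⁆) :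
    ∃ ψ, IsIrrCharacter N ψ ∧ ¬ V.subgroupOf N ≤ charKer ψ ∧ 𝐂₁ g ≤ In N ψ := by
  obtain ⟨ψ, u, v, w⟩ := L.ex
  obtain ⟨t, -, e⟩ := exists_cd u
  refine ⟨ψ, u, w, fun y hy => (L.deg ψ t u e v w).1.ge (by_contra fun c => b (L.fp y c g a ?_))⟩
  rw [cm_eq_one (mem_cent1_comm.1 hy)]
  exact one_mem _

theorem sq_center {ψ : N → ℂ} (a : IsIrrCharacter N ψ) (e : ψ 1 = t)
    (k : ⁅⁅N, N⁆, N⁆.subgroupOf N ≤ charKer ψ) : ⁅N, N⁆.subgroupOf N ≤ charCenter ψ ∧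
      t ^ 2 = (charCenter ψ).index := by
  have c : ⁅N, N⁆.subgroupOf N ≤ charCenter ψ := fun z hz => (mem_charCenter_iff_commutator a).2
    fun n => k (commutator_mem_commutator hz n.2)
  have := irr_one_sq_eq_index a _ le_rfl fun g hg => by
    obtain ⟨n, w⟩ := not_forall.1 (mt (mem_charCenter_iff_commutator a).2 hg)
    exact irr_eq_zero_of_conj_eq_mul a (z := ⁅n, g⁆) (y := n)
      (c (commutator_mem_commutator n.2 g.2)) (fun v => w (cm_swap v))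
      (by rw [commutatorElement_def]; group)
  rw [e] at this
  exact ⟨c, by exact_mod_cast this⟩

theorem Ni.exc (h : Ni S N x p) (k : ¬ ⁅N, N⁆ ⊓ (N ⊓ 𝐂₁ x) ≤ ⁅⁅N, N⁆, N⁆) :
    ⁅⁅N, N⁆, N⁆ = ⊥ ∧ ∃ e, ∀ ψ (t : ℕ), IsIrrCharacter N ψ → ψ 1 = t →
      ¬ ⁅N, N⁆.subgroupOf N ≤ charKer ψ → In N ψ = ⊤ ∧ t = e := by
  have := h.nD0
  have lN := der_le N
  have l3 : ⁅⁅N, N⁆, N⁆ ≤ ⁅N, N⁆ := comm_le_left (nm _ _)
  obtain ⟨d, hd, d1⟩ := SetLike.not_le_iff_exists.1 k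
  obtain ⟨μ, ma, m1, mx⟩ := exists_fix (y := x) (commutator_mono le_rfl lN) fun w =>
    d1 (w d hd.1 (by rw [cm_eq_one hd.2.2]; exact one_mem _))
  have top : ∀ ν ∈ Ann ⁅N, N⁆ ⁅⁅N, N⁆, N⁆, x ∈ Il _ ν → Il _ ν = ⊤ := fun ν a b =>
    top_le_iff.1 (h.gen.ge.trans (sup_le (le_Il.2 a) (zpowers_le.2 b)))
  have Z : ∀ (ψ φ : N → ℂ) (ν κ : (⁅N, N⁆ : Subgroup G) →* ℂˣ), IsIrrCharacter N ψ →
      IsIrrCharacter N φ → Ovc ψ ν → Ovc φ κ → ν ≠ 1 → ν ∈ Ann _ ⁅⁅N, N⁆, N⁆ →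
      κ ∈ Ann _ ⁅⁅N, N⁆, N⁆ → (∀ v, v.1 ∈ N ⊓ 𝐂₁ x → ν v = κ v) → charCenter ψ ≤ charCenter φ :=
    fun ψ φ ν κ a b o o' n1 na ka e g hg => by
      have : g.1 ∈ ⁅N, N⁆ ⊔ N ⊓ 𝐂₁ x := by_contra fun w => irr_one_ne_zero a (by
        have := (mem_charCenter_iff (irr_isCharacter a)).1 hg
        rwa [h.c1E ψ a (fun v => n1 ((o.ne a lN).1 v)) g w, norm_zero, eq_comm, norm_eq_zero] at this)
      obtain ⟨v, hv, c, hc, e'⟩ := (mem_sup_norm' (nm _ _)).1 this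
      have e1 : g = ⟨v, lN hv⟩ * ⟨c, hc.1⟩ := Subtype.ext e'.symm
      obtain ⟨t, -, p1⟩ := exists_cd a
      obtain ⟨s, -, p2⟩ := exists_cd b
      rw [e1, mul_mem_cancel_left ((sq_center a p1 ((o.ann a lN l3).2 na)).1 hv)] at hg
      rw [e1, mul_mem_cancel_left ((sq_center b p2 ((o'.ann b lN l3).2 ka)).1 hv)]
      refine (mem_charCenter_iff_commutator b).2 fun n => (o'.ker b
        ⟨⁅c, n.1⁆, commutator_mem_commutator hc.1 n.2⟩ _).2 ?_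
      rw [← e _ (cm_left hc _)]
      exact (o.ker a _ (cm_left hc.1 _)).1 ((mem_charCenter_iff_commutator a).1 hg n)
  obtain ⟨ψ, p1, o⟩ := exists_irr_ovc lN (le_Il.2 ma)
  obtain ⟨t, ht, p2⟩ := exists_cd p1
  have t1 : t ≠ 1 := fun w => m1 ((o.ne p1 lN).1 ((nl_iff p1).2 (by simp [p2, w])))
  have tS : t ∈ S := by
    simpa [h.in_eq lN h.c1E p1 o m1, top μ ma mx] using h.deg p1 p2
  have fx : ∀ ν ∈ Ann ⁅N, N⁆ ⁅⁅N, N⁆, N⁆, Il _ ν = ⊤ := fun ν a => by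
    refine top ν a (smul_iff.1 (h.smul_eq (EM N) (le_Il.2 a) ?_))
    have c := mul_mem ma (mul_mem (smul_ann a x) (inv_mem a))
    suffices x • (μ * (x • ν * ν⁻¹)) = μ * (x • ν * ν⁻¹) by
      rwa [smul_mul', smul_iff.2 mx, mul_right_inj] at this
    by_cases c1 : μ * (x • ν * ν⁻¹) = 1
    · rw [c1, smul_one]
    obtain ⟨φ, q1, o'⟩ := exists_irr_ovc lN (le_Il.2 c)
    obtain ⟨s, -, q2⟩ := exists_cd q1
    have e : ∀ v : (⁅N, N⁆ : Subgroup G), v.1 ∈ N ⊓ 𝐂₁ x → μ v = (μ * (x • ν * ν⁻¹)) v :=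
      fun v hv => by
        have : (NormalEmb.sub ⁅N, N⁆).c x⁻¹ v = v := Subtype.ext (by
          rw [NormalEmb.sub_c]
          simp [mul_assoc, mem_cent1.1 hv.2])
        change _ = μ v * (ν ((NormalEmb.sub ⁅N, N⁆).c x⁻¹ v) * (ν v)⁻¹)
        rw [this, mul_inv_cancel, mul_one]
    obtain rfl : s = t := Nat.pow_left_injective two_ne_zero (by
      beta_reduce
      rw [(sq_center q1 q2 ((o'.ann q1 lN l3).2 c)).2, (sq_center p1 p2 ((o.ann p1 lN l3).2 ma)).2,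
        le_antisymm (Z ψ φ _ _ p1 q1 o o' m1 ma c e)
          (Z φ ψ _ _ q1 p1 o' o c1 c ma fun v hv => (e v hv).symm)])
    have := h.anti _ tS _ (h.deg q1 q2) t1 (Dvd.intro_left _ rfl)
    rw [h.in_eq lN h.c1E q1 o' c1, eq_comm, Nat.mul_eq_right (cd_pos ht).ne', index_eq_one] at this
    exact smul_iff.2 (this.ge (mem_top x))
  have triv : ⁅⁅N, N⁆, ⊤⁆ ≤ ⁅⁅N, N⁆, N⁆ := fun g hg => by
    by_contra w
    obtain ⟨ν, a, b⟩ := exists_lin_ne (commutator_mono le_rfl lN)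
      (x := ⟨g, comm_le_left (nm _ _) hg⟩) w
    exact b (le_Il.1 (fx ν a).ge hg)
  have e3 : ⁅⁅N, N⁆, N⁆ = ⊥ := by
    by_contra w
    obtain ⟨ν, a, b⟩ := h.ex_mu (l3.trans lN) w
    obtain ⟨y, u, v⟩ := SetLike.not_le_iff_exists.1 (h.nt l3 b (le_Il.2 a))
    exact b ((h.fp_next (EM N) v ((commutator_mono le_rfl le_top).trans triv)).eq_one a u)
  refine ⟨e3, t, fun φ s a b c => ?_⟩
  have k3 : ⁅⁅N, N⁆, N⁆.subgroupOf N ≤ charKer φ := by rw [e3, bot_subgroupOf]; exact bot_le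
  obtain ⟨ν, o'⟩ := exists_ovc lN a k3
  have i := (h.in_eq lN h.c1E a o' fun w => c ((o'.ne a lN).2 w)).trans
    (fx ν ((o'.ann a lN l3).1 k3))
  have sS : s ∈ S := by simpa [i] using h.deg a b
  obtain ⟨i1, rfl⟩ := h.pw ht
  obtain ⟨i2, rfl⟩ := h.pw (cd_of_irr a b)
  exact ⟨i, eq_of_pow h.anti sS tS (fun w => c ((nl_iff a).2 (by rw [b, w, Nat.cast_one]))) t1⟩

theorem Ni.e4 (h : Ni S N x p) (L : Ly N x ⁅N, N⁆ C d) : ⁅⁅⁅N, N⁆, N⁆, N⁆ = ⊥ := by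
  by_contra w
  have l3 : ⁅⁅N, N⁆, N⁆ ≤ ⁅N, N⁆ := comm_le_left (nm _ _)
  have l4 : ⁅⁅⁅N, N⁆, N⁆, N⁆ ≤ ⁅⁅N, N⁆, N⁆ := comm_le_left (nm _ _)
  obtain ⟨C3, d3, L3⟩ := h.ly l3 (ne_bot_mono w l4) L.c1 L.c2
  obtain ⟨C4, d4, L4⟩ := h.ly (l4.trans l3) w L3.c1 L3.c2
  have := @cl4 G _ _ (commutator G) p h.prime h.pi
  rw [← h.der, ← h.commN (EM N), ← h.commN (l3.trans (EM N)),
    ← h.commN ((l4.trans l3).trans (EM N))] at this
  refine w (this (fun g a b e c => h.toM a (h.g1 (h.MN a) (fun w => b (h.DM w a)) c))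
    (fun g a b e c => h.toM (EM N a) (L.cls g a b e c))
    (fun g a b e c => h.toM (EM N (l3 a)) (L3.cls g a b e c)) (or_iff_not_imp_left.2 fun v => ?_))
  obtain ⟨c, c1, c2⟩ := SetLike.not_le_iff_exists.1 L.ne
  have t2 : ⁅⁅N, N⁆, zpowers c⁆ ≤ ⁅⁅N, N⁆, N⁆ :=
    (commutator_mono le_rfl (zpowers_le.2 c1)).trans L.triv
  refine ⟨c, nm ⊤ _ trivial, h.fpM c2, fun b hb => t2 (commutator_mem_commutator hb (mem_zpowers c)),
    fun z hz => L4.triv (commutator_mem_commutator hz (by_contra fun u => v fun g hg => ?_))⟩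
  refine L4.fp c u g (comm3 hg) (three_subgroup (A := ⁅N, N⁆) (B := ⁅N, N⁆) (C := zpowers c)
    (nm _ _) (nm _ _) (nm _ _) ((commutator_mono t2 le_rfl).trans comm3) ?_
    (commutator_mem_commutator hg (mem_zpowers c)))
  rw [commutator_comm (zpowers c)]
  exact (commutator_mono t2 le_rfl).trans comm3

theorem Ni.main (h : Ni S N x p) (e1 : ⁅N, N⁆ ≠ ⊥) : ⁅⁅N, N⁆, ⁅N, N⁆⁆ = ⊥ ∧
    (∃ a b, ∀ ψ (t : ℕ), IsIrrCharacter N ψ → ψ 1 = t → ¬ ⁅N, N⁆.subgroupOf N ≤ charKer ψ →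
      (In N ψ).index * t = a ∨ (In N ψ).index * t = b) ∧ ∀ v ∈ ⁅N, N⁆, v ≠ 1 →
      ∃ ψ, IsIrrCharacter N ψ ∧ ¬ ⁅N, N⁆.subgroupOf N ≤ charKer ψ ∧ 𝐂₁ v ≤ In N ψ := by
  have l3 : ⁅⁅N, N⁆, N⁆ ≤ ⁅N, N⁆ := comm_le_left (nm _ _)
  have bot : ∀ (V : Subgroup G) (ψ : N → ℂ), V = ⊥ → V.subgroupOf N ≤ charKer ψ := fun V ψ e => by
    rw [e, bot_subgroupOf]; exact bot_le
  by_cases k : ⁅N, N⁆ ⊓ (N ⊓ 𝐂₁ x) ≤ ⁅⁅N, N⁆, N⁆
  swap
  · obtain ⟨e3, e, f⟩ := h.exc k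
    refine ⟨eq_bot_mono e3 (commutator_mono le_rfl (der_le N)), ⟨e, e, fun ψ t a b c => .inl ?_⟩,
      fun v hv v1 => ?_⟩
    · simp [f ψ t a b c]
    obtain ⟨μ, a, b⟩ := h.ex_mu (der_le N) e1
    obtain ⟨ψ, u, o⟩ := exists_irr_ovc (der_le N) (le_Il.2 a)
    obtain ⟨t, -, c⟩ := exists_cd u
    have := fun w => b ((o.ne u (der_le N)).1 w)
    exact ⟨ψ, u, this, le_top.trans (f ψ t u c this).1.ge⟩
  obtain ⟨C, d, L⟩ := h.ly le_rfl e1 h.c1E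
    ((le_inf (commutator_mono inf_le_left inf_le_left) (der_le _)).trans k)
  have e4 := h.e4 L
  refine ⟨eq_bot_mono e4 comm3, ?_⟩
  by_cases e3 : ⁅⁅N, N⁆, N⁆ = ⊥
  · refine ⟨⟨d, d, fun ψ t a b c => .inl ?_⟩, fun v hv v1 => L.np hv (by rwa [e3, mem_bot])⟩
    have := L.deg ψ t a b (bot _ ψ e3) c
    rw [this.1, this.2]
  obtain ⟨C3, d3, L3⟩ := h.ly l3 e3 L.c1 L.c2
  refine ⟨⟨d, d3, fun ψ t a b c => ?_⟩, fun v hv v1 => ?_⟩
  · by_cases w : ⁅⁅N, N⁆, N⁆.subgroupOf N ≤ charKer ψ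
    · have := L.deg ψ t a b w c
      exact .inl (by rw [this.1, this.2])
    · have := L3.deg ψ t a b (bot _ ψ e4) w
      exact .inr (by rw [this.1, this.2])
  · by_cases w : v ∈ ⁅⁅N, N⁆, N⁆
    · obtain ⟨ψ, a, b, c⟩ := L3.np w (by rwa [e4, mem_bot])
      exact ⟨ψ, a, fun u => b ((subgroupOf_mono N l3).trans u), c⟩
    · exact L.np hv w

theorem Ni.np (h : Ni S N x p) (e1 : ⁅N, N⁆ ≠ ⊥) (a : Abel R) (i : R.index ∈ S) {v : G}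
    (hv : v ∈ commutator G) (v1 : v ≠ 1) (l : R ≤ 𝐂₁ v) : 𝐙 N ≤ R := by
  by_cases w : v ∈ ⁅N, N⁆
  swap
  · refine inf_le_left.trans (h.eq_N (t := 1) (by rwa [mul_one]) fun y hy => h.cyN hv w ?_).1.ge
    rw [cm_eq_one (mem_cent1_comm.1 (l hy))]
    exact one_mem _
  obtain ⟨ψ, u, nl, c⟩ := (h.main e1).2.2 v w v1
  obtain ⟨t, ht, e⟩ := exists_cd u
  have d1 := index_dvd_of_le (sup_le (le_inertia_self u) (l.trans c))
  have d2 := h.dvd ht (R := N ⊓ R ⊔ 𝐙 N) (Abel.sup (a.mono inf_le_right) (center_abel N)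
    (cent_symm (inf_le_right.trans (cent_anti inf_le_left)))) le_sup_right
  have d3 : (N ⊓ R ⊔ 𝐙 N).relIndex N ∣ (N ⊓ R).relIndex N := relIndex_dvd_left N le_sup_left
  have j : (N ⊔ R).index * (N ⊓ R).relIndex N = R.index := by
    rw [inf_relIndex_left, ← relIndex_sup_norm (.inr (nm R N)), mul_comm,
      relIndex_mul_index le_sup_right]
  have q := h.anti _ (h.deg u e) _ i (fun z => nl ((nl_iff u).2 (by
    simp [e, Nat.eq_one_of_mul_eq_one_left z]))) (j ▸ Nat.mul_dvd_mul d1 (d2.trans d3))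
  refine le_sup_right.trans ((eq_of_relIndex le_sup_left (sup_le inf_le_left inf_le_left)
    (Nat.dvd_antisymm ?_ d3)).trans inf_le_right)
  refine Nat.dvd_of_mul_dvd_mul_left (Nat.pos_of_ne_zero (index_ne_zero_of_finite (H := N ⊔ R))) ?_
  rw [j, ← q]
  exact Nat.mul_dvd_mul d1 d2

theorem St.nil_main (h : St S N x) (k : Nil N) :
    (∃ a b, 𝐜𝐝 G ⊆ {1, N.index, a, b}) ∧ derivedSeries G 3 = ⊥ := by
  by_cases e1 : ⁅N, N⁆ = ⊥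
  · refine ⟨⟨1, 1, fun d hd => ?_⟩, ?_⟩
    · obtain w | w | ⟨ψ, t, -, -, w, -⟩ := h.cases hd
      · exact .inl w
      · exact .inr (.inl w)
      · exact absurd (by rw [e1, bot_subgroupOf]; exact bot_le) w
    · exact eq_bot_mono e1 (commutator_mono ((der_le _).trans h.MN) ((der_le _).trans h.MN))
  obtain ⟨y, p, h⟩ := h.ni k e1
  obtain ⟨e, ⟨a, b, f⟩, -⟩ := h.main e1
  refine ⟨⟨a, b, fun d hd => ?_⟩, ?_⟩
  · obtain w | w | ⟨ψ, t, u, v, w, rfl⟩ := h.cases hd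
    · exact .inl w
    · exact .inr (.inl w)
    · exact .inr (.inr (f ψ t u v w))
  · rwa [h.der] at e

end CF.Nd
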