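import Cfsg.Agent.Nd.D2

/-!
If `N / D` is not cyclic then `N` is nilpotent.
-/

set_option autoImplicit false

namespace CF.Nd

open Cfsg Subgroup CF.BG CF.Clifford CF.Char CF.Fgs2.Isa CF.Degs MulAction
open scoped commutatorElement ComplexConjugate

attribute [local instance] Fintype.ofFinite linAct
attribute [-instance] MonoidHom.instPow MonoidHom.mul instOneMonoidHom MonoidHom.instInv

set_option linter.unusedSectionVars false

universe u v

variable {G : Type u} [Group G] {d e m n p q r s t : ℕ} {x y z g : G} {S : Set ℕ}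
  {A B C D E H I K L M N P R T U V W X Y Z : Subgroup G}

/-- `N / D` is cyclic -/
def CyD (N : Subgroup G) : Prop := ∃ g ∈ N, N ≤ DD N ⊔ zpowers g

theorem nil_mk_iff [L.Normal] :
    Nil (N.map (QuotientGroup.mk' L)) ↔ ∃ k, N.lowerCentralSeries k ≤ L := by
  simp only [nil_iff_lcs, ← map_lowerCentralSeries, Subgroup.map_eq_bot_iff, QuotientGroup.ker_mk']

theorem CyD.map [N.Normal] [L.Normal] [(N.map (QuotientGroup.mk' L)).Normal] (h : CyD N) :
    CyD (N.map (QuotientGroup.mk' L)) := by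
  obtain ⟨g, a, b⟩ := h
  refine ⟨_, ⟨g, a, rfl⟩, (map_mono b).trans ?_⟩
  rw [Subgroup.map_sup, MonoidHom.map_zpowers]
  exact sup_le_sup_right map_DD _

variable [Finite G]

theorem sd_deg [V.Normal] (sd : SDProd V H ⊤) (μ : V →* ℂˣ)
    (hd : d ∈ 𝐜𝐝 ((Il V μ).subgroupOf H)) : (Il V μ).index * d ∈ 𝐜𝐝 G := by
  obtain ⟨β, x, y, z⟩ := sd_char sd (le_Il_self μ) hd
  obtain ⟨χ, u, -, v⟩ := sd_over sd μ x y z
  exact cd_of_irr u v

theorem St.sd_idx [V.Normal] (h : St S N x) (sd : SDProd V H ⊤) (μ : V →* ℂˣ) :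
    (Il V μ).index ∈ S := by simpa using h.sub (sd_deg sd μ one_mem_cd)

theorem St.sd_der [V.Normal] (h : St S N x) (sd : SDProd V H ⊤) {μ : V →* ℂˣ} (k : Il V μ ≠ ⊤) :
    ⁅Il V μ, Il V μ⁆ ≤ V := by
  have a := abel_inf (abel_iff_cd.2 fun d hd => (Nat.mul_eq_left index_ne_zero_of_finite).1
    (h.anti _ (h.sd_idx sd μ) _ (h.sub (sd_deg sd μ hd)) (fun w => k (index_eq_one.1 w))
      (Dvd.intro _ rfl)).symm)
  have s := sd.inf_of_left_le (le_Il_self μ)
  rw [top_inf_eq] at s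
  have := der_le_sup' s.normal s.sup
  rwa [der_eq_bot.2 a, sup_bot_eq] at this

theorem cent_of_Il [W.Normal] [Z.Normal] (m : MinN W ⊤) {μ : W →* ℂˣ} (m1 : μ ≠ 1)
    (l : Z ≤ Il W μ) : Z ≤ 𝐂 W :=
  comm_eq_bot'.1 ((m.eq_bot_or (comm_le_left (nm _ _)) (nm _ _)).resolve_right fun e =>
    m1 (MonoidHom.ext fun v => le_Il.1 l (e.ge v.2)))

variable [N.Normal]

theorem St.cyD_comap [L.Normal] [(N.map (QuotientGroup.mk' L)).Normal] (h : St S N x)
    (l : L ≤ DD N) (k : CyD (N.map (QuotientGroup.mk' L))) : CyD N := by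
  obtain ⟨_, ⟨g, a, rfl⟩, b⟩ := k
  refine ⟨g, a, fun n hn => ?_⟩
  obtain ⟨d, hd, _, ⟨k, rfl⟩, e⟩ := (mem_sup_norm' (nm _ _)).1 (b ⟨n, hn, rfl⟩)
  have : n * (g ^ k)⁻¹ ∈ DD N := h.comap_DD l (by
    rwa [mem_comap, map_mul, map_inv, map_zpow, ← e, mul_inv_cancel_right])
  simpa using mul_mem_sup this (zpow_mem_zpowers g k)

theorem St.prim (h : St S N x) (P : Prim W X r) (l : W ≤ N)
    (k : ∃ k, N.lowerCentralSeries k ≤ W) (n : ¬ Nil N) : CyD N := by
  have := P.nrm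
  have sj := QuotientGroup.mk'_surjective W
  have := Normal.map ‹N.Normal› _ sj
  have WE : W ≤ ⁅N, N⁆ := P.min _ inferInstance fun w => n (der_eq_bot.1 w).nil
  have i : ∀ g ∈ W, g ∈ X → g = 1 := fun g a b => eq_one_of_mem_bot P.sd.inf ⟨a, b⟩
  by_cases e1 : ⁅N.map (QuotientGroup.mk' W), N.map (QuotientGroup.mk' W)⁆ = ⊥
  · rw [← map_commutator, Subgroup.map_eq_bot_iff, QuotientGroup.ker_mk'] at e1
    have s := P.sd.inf_of_left_le l
    rw [top_inf_eq] at s
    have aY : Abel (X ⊓ N) := der_eq_bot.1 (eq_bot_of_forall fun g hg =>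
      i g (e1 (commutator_mono inf_le_right inf_le_right hg)) (der_le _ hg).1)
    have : (W ⊔ 𝐎 {r} (X ⊓ N)).Normal := nrm_of (P.sd.sup.ge.trans (sup_le (norm_of_le le_sup_left)
      (norm_sup (nm _ _) (le_norm_O _ (norm_inf (le_norm_self X) (nm _ _))))))
    have o : 𝐎 {r} (X ⊓ N) = ⊥ := eq_bot_of_forall fun g hg => i g (P.le_of_pi
      (P.ab.pi.sup (O_pi _ _) (.inr (nm _ _))) (mem_sup_right hg)) (O_le _ _ hg).1
    have kY := (o ▸ aY.nil.hall_O {r}).pi'_of_eq_bot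
    by_contra c
    refine P.ne (le_bot_iff.1 (aY.le_of_cocyc (nm _ _) (kY.coprime' P.ab.pi) fun B hB cy => ?_))
    intro w hw
    by_contra w1
    obtain ⟨y, hy, z⟩ := (cyc_qt_iff (aY.le_norm hB)).1 cy
    refine c ⟨y, hy.2, s.sup.ge.trans (sup_le ((WE.trans le_DD).trans le_sup_left)
      (z.trans (sup_le_sup_right (fun b hb => by_contra fun v => w1 ?_) _)))⟩
    exact h.g1' (hB hb).2 v (WE hw.1) (hw.2 b hb) ((kY.elt (hB hb)).coprime' (P.ab.pi.elt hw.1))
  exfalso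
  obtain ⟨y, p, h'⟩ := (h.quot (WE.trans le_DD)).ni (nil_mk_iff.2 k) e1
  have nt : ∀ μ : W →* ℂˣ, μ ≠ 1 → Il W μ ≠ ⊤ := fun μ m1 w =>
    n (P.ab.abel.nil.mono ((cent_of_Il P.minN m1 (le_top.trans w.ge)).trans P.cent))
  have key : ∀ μ : W →* ℂˣ, μ ≠ 1 → ∀ v ∈ commutator G, v ∉ W → ¬ Il W μ ≤ Cy W v :=
    fun μ m1 v a b c => by
      have z := h'.np e1 (R := (Il W μ).map (QuotientGroup.mk' W)) (der_eq_bot.1 (by
        rw [← map_commutator, Subgroup.map_eq_bot_iff, QuotientGroup.ker_mk']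
        exact h.sd_der P.sd (nt μ m1))) (by
          rw [index_map_eq _ sj (by rw [QuotientGroup.ker_mk']; exact le_Il_self μ)]
          exact h.sd_idx P.sd μ) (v := v) (map_der sj ▸ ⟨v, a, rfl⟩)
        (fun w => b ((QuotientGroup.eq_one_iff v).1 w)) (map_le_iff_le_comap.2 c)
      have : (𝐙 (N.map (QuotientGroup.mk' W))).Normal := nrm_of ((nm _ _).trans (norm_center _))
      have z' := comap_mono (f := QuotientGroup.mk' W) z
      rw [comap_map_eq, QuotientGroup.ker_mk', sup_eq_left.2 (le_Il_self μ)] at z'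
      refine h'.nil.center_ne_bot (ne_bot_mono e1 (der_le _)) ?_
      rw [← map_comap_eq_self_of_surjective sj (𝐙 _), Subgroup.map_eq_bot_iff, QuotientGroup.ker_mk']
      exact (cent_of_Il P.minN m1 z').trans P.cent
  have dW := (der_eq_bot.2 P.ab.abel).le
  have reg : Reg W (X ⊓ commutator G) := fun m hm m1 => eq_bot_of_forall fun w hw =>
    fp_of_dual (y := m) dW (fun μ _ a => by_contra fun b => key μ b m hm.2 (fun v => m1 (i m v hm.1))
      fun t ht => mem_Cy.2 (h.sd_der P.sd (nt μ b) (commutator_mem_commutator ht a))) w hw.1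
        (cm_eq_one hw.2)
  have s := P.sd.inf_of_left_le (WE.trans (EM N))
  rw [top_inf_eq] at s
  have pi : PiGrp {p} (X ⊓ commutator G) := by
    have := h'.pi
    rwa [← map_der sj, PiGrp, ← relIndex_ker, QuotientGroup.ker_mk', s.relIndex_left] at this
  obtain rfl | o := h'.prime.eq_two_or_odd'
  · obtain ⟨z, hz, o⟩ := exists_mem_orderOf_eq Nat.prime_two (pi.dvd_card fun w => h.ne (by
      rw [← s.sup, w, sup_bot_eq]; exact WE))
    have inv : ∀ z ∈ X ⊓ commutator G, orderOf z = 2 → ∀ w ∈ W, z * w * z⁻¹ = w⁻¹ :=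
      fun z hz o w hw => by
        have z2 : z * z = 1 := by rw [← pow_two, ← o, pow_orderOf_eq_one]
        have c := P.nrm.conj_mem w hw z
        refine eq_inv_of_mul_eq_one_left (eq_one_of_mem_bot (reg z hz (fun e => by simp [e] at o))
          ⟨W.mul_mem c hw, mem_cent1.2 ?_⟩)
        conv_lhs => rw [P.ab.abel.mul_comm c hw]
        calc w * (z * w * z⁻¹) * z = w * z * w := by group
          _ = z * z * w * z⁻¹ * w := by rw [inv_eq_of_mul_eq_one_right z2, z2, one_mul]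
          _ = _ := by group
    obtain ⟨μ, -, m1⟩ := exists_lin_of_lt P.ab.abel (W := ⊥) (by simpa using P.ne)
    have z1 : z ≠ 1 := fun e => by simp [e] at o
    refine key μ m1 z hz.2 (fun v => z1 (i z v hz.1)) (le_top.trans (P.sd.sup.ge.trans
      (sup_le le_Cy fun g hg => mem_Cy.2 ?_)))
    have c : g * z * g⁻¹ ∈ X ⊓ commutator G := ⟨X.mul_mem (X.mul_mem hg hz.1) (X.inv_mem hg),
      Normal.conj_mem inferInstance _ hz.2 g⟩
    refine P.cent (mem_cent.2 fun w hw => ?_)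
    have a := inv z hz o w hw
    have b := inv _ c (by rw [orderOf_conj', o]) w hw
    calc w * ⁅g, z⁆ = (g * z * g⁻¹ * w * (g * z * g⁻¹)⁻¹)⁻¹ * ⁅g, z⁆ := by rw [b, inv_inv]
      _ = ⁅g, z⁆ * (z * w * z⁻¹)⁻¹ := by rw [commutatorElement_def]; group
      _ = _ := by rw [a, inv_inv]
  · obtain ⟨j, e⟩ := pi.card_pow
    have := der_le_sup' s.normal s.sup
    rw [der_eq_bot.2 (reg.cyc_of_pi (nm _ _) P.ne pi (e ▸ o.pow)).abel, sup_bot_eq] at this
    refine e1 ?_
    rwa [h'.der, ← map_der sj, ← map_commutator, Subgroup.map_eq_bot_iff, QuotientGroup.ker_mk']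

theorem St.claim1 (n : ℕ) : ∀ (G : Type u) [Group G] [Finite G] (N : Subgroup G) [N.Normal] (x : G),
    Nat.card G = n → St S N x → ¬ CyD N → Nil N := by
  induction n using Nat.strong_induction_on with | _ n ih => ?_
  intro G _ _ N _ x e h c
  by_contra w
  have := h.sol
  obtain ⟨W, X, r, P, l, k⟩ := prim_of (Y := N) inferInstance w fun L _ L1 => by
    by_cases v : L ⊓ DD N = ⊥
    swap
    · have := Normal.map ‹N.Normal› _ (QuotientGroup.mk'_surjective (L ⊓ DD N))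
      obtain ⟨k, hk⟩ := nil_mk_iff.1 (ih _ (e ▸ Solv.card_quotient_lt v) _ _ _ rfl
        (h.quot inf_le_right) fun u => c (h.cyD_comap inf_le_right u))
      exact ⟨k, hk.trans inf_le_left⟩
    exfalso
    obtain ⟨y, hy, y1⟩ := exists_mem_ne_one L1
    obtain ⟨g, a, b⟩ := h.exM
    have z : ∀ y ∈ L, y ∈ N → y = 1 := fun y hy u => eq_one_of_mem_bot v ⟨hy, by_contra fun d =>
      w (der_eq_bot.1 (eq_bot_of_forall fun e he => by
        obtain ⟨n, -, rfl⟩ := h.g1 u d he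
        exact eq_one_of_mem_bot v ⟨cm_left hy n, le_DD he⟩)).nil⟩
    refine y1 (z y hy (h.cyN a b ?_))
    rw [z _ (cm_right g hy) (cm_left (h.MN a) y)]
    exact one_mem _
  exact c (h.prim P l ((nil_qt_iff (le_top.trans P.minN.norm)).1 k) w)

end CF.Nd
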