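import Cfsg.Agent.Nd.E

/-!
The case in which `N / D` is cyclic: the action on the top chief factor of `N'`.
-/

set_option autoImplicit false

namespace CF.Nd

open Cfsg Subgroup CF.BG CF.Clifford CF.Char CF.Fgs2.Isa CF.Degs MulAction
open scoped commutatorElement ComplexConjugate

attribute [local instance] Fintype.ofFinite linAct
attribute [-instance] MonoidHom.instPow MonoidHom.mul instOneMonoidHom MonoidHom.instInv

set_option linter.unusedSectionVars false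

universe u v

variable {G : Type u} [Group G] {d e m n p q r s t : ℕ} {x y z g : G} {S : Set ℕ}
  {A B C D E H I K L M N P R T U V W X Y Z : Subgroup G}

/-- the Frobenius configuration -/
structure Fr (S : Set ℕ) (N : Subgroup G) (x : G) (B X : Subgroup G) : Prop extends St S N x where
  sB : SDProd ⁅N, N⁆ B (commutator G)
  sX : SDProd ⁅N, N⁆ X ⊤
  nX : X ≤ 𝐍 B
  reg : Reg ⁅N, N⁆ B

/-- subgroups that behave like inertia groups -/
structure Gd (N T : Subgroup G) : Prop where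
  le : ⁅N, N⁆ ≤ T
  inf : ∀ g ∈ T, g ∈ commutator G → g ∈ ⁅N, N⁆
  ne : ¬ T ≤ N

theorem Gd.cm (h : Gd N T) (a : y ∈ T) (b : z ∈ T) : ⁅y, z⁆ ∈ ⁅N, N⁆ :=
  h.inf _ (der_le T (commutator_mem_commutator a b)) (cm_der y z)

theorem Gd.ex (h : Gd N T) : ∃ y ∈ T, y ∉ N := SetLike.not_le_iff_exists.1 h.ne

theorem Il_smul [V.Normal] (g : G) (μ : V →* ℂˣ) : Il V (g • μ) = cj g (Il V μ) := by
  rw [← stab_linAct, ← stab_linAct, stabilizer_smul_eq_stabilizer_map_conj]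
  rfl

theorem cm_eq_iff {Q : Type*} [Group Q] {a b y : Q} : ⁅a, y⁆ = ⁅b, y⁆ ↔ ⁅b⁻¹ * a, y⁆ = 1 := by
  rw [commutatorElement_eq_one_iff_mul_comm, commutatorElement_def, commutatorElement_def,
    mul_left_inj]
  constructor <;> intro e
  · calc b⁻¹ * a * y = b⁻¹ * (a * y * a⁻¹) * a := by group
      _ = _ := by rw [e]; group
  · calc a * y * a⁻¹ = b * (b⁻¹ * a * y) * a⁻¹ := by group
      _ = _ := by rw [e]; group

theorem mem_Cy_of [W.Normal] {a b : G} (h : ⁅a, y⁆⁻¹ * ⁅b, y⁆ ∈ W) : b⁻¹ * a ∈ Cy W y := by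
  have := QuotientGroup.eq.2 h
  rw [← QuotientGroup.mk'_apply, ← QuotientGroup.mk'_apply, map_commutatorElement,
    map_commutatorElement, cm_eq_iff, commutatorElement_eq_one_iff_mul_comm] at this
  exact mem_cent1.2 this

variable [Finite G]

theorem fixvec {A : Type v} [CommGroup A] [MulDistribMulAction G A] {W : Subgroup A}
    (iv : ∀ v ∈ W, ∀ g : G, g • v ∈ W) (hz : z ∈ 𝐍 B) (n0 : 0 < n)
    (fp : ∀ i, 0 < i → i < n → ∀ b ∈ B, ⁅b, z ^ i⁆ = 1 → b = 1) (hn : ∀ v ∈ W, z ^ n • v = v)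
    (hB : ∀ v ∈ W, (∀ b ∈ B, b • v = v) → v = 1) (h1 : ∀ v ∈ W, z • v = v → v = 1) {v : A}
    (hv : v ∈ W) : v ^ ♯B = 1 := by
  have a : ∀ v ∈ W, ∏ i ∈ Finset.range n, z ^ i • v = 1 := fun v hv =>
    h1 _ (prod_mem fun i _ => iv v hv _) (by
      have := (Finset.prod_range_succ (fun i => z ^ i • v) n).symm.trans
        (Finset.prod_range_succ' (fun i => z ^ i • v) n)
      rw [hn v hv, pow_zero, one_smul, mul_left_inj] at this
      rw [Finset.smul_prod', this]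
      simp only [pow_succ', mul_smul])
  have b : ∀ v ∈ W, ∏ b : B, b.1 • v = 1 := fun v hv =>
    hB _ (prod_mem fun i _ => iv v hv _) fun b hb => by
      rw [Finset.smul_prod']
      exact Fintype.prod_equiv (Equiv.mulLeft ⟨b, hb⟩) _ _ fun c => (mul_smul _ _ _).symm
  have c : ∏ b : B, ∏ i ∈ Finset.range n, ⁅b.1, z ^ i⁆ • z ^ i • v = 1 :=
    Finset.prod_eq_one fun b _ => by
      have := congrArg (b.1 • ·) (a _ (iv v hv b.1⁻¹))
      simp only [Finset.smul_prod', smul_one] at this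
      rw [← this]
      refine Finset.prod_congr rfl fun i _ => ?_
      simp only [← mul_smul, commutatorElement_def]
      congr 1
      group
  rw [Finset.prod_comm, Finset.prod_eq_single 0 (fun i hi i0 => by
    have m : ∀ b : B, ⁅b.1, z ^ i⁆ ∈ B := fun b => comm_le_left (zpowers_le.2 (pow_mem hz i))
      (commutator_mem_commutator b.2 (mem_zpowers _))
    rw [← b _ (iv v hv (z ^ i))]
    exact Fintype.prod_bijective (fun b : B => (⟨_, m b⟩ : B)) (Finite.injective_iff_bijective.1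
      fun b c e => Subtype.ext (inv_mul_eq_one.1 (fp i (Nat.pos_of_ne_zero i0)
        (Finset.mem_range.1 hi) _ (B.mul_mem (B.inv_mem c.2) b.2)
          (cm_eq_iff.1 (congrArg Subtype.val e)))).symm) _ _ fun _ => rfl) (by simp [n0.ne'])] at c
  simpa using c

theorem card_Ann [W.Normal] (k : ⁅V, V⁆ ≤ W) : ♯(Ann V W) = W.relIndex V := by
  have f := QuotientGroup.mk'_surjective (W.subgroupOf V)
  have : commutator (V ⧸ W.subgroupOf V) = ⊥ := by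
    rw [← map_der f, Subgroup.map_eq_bot_iff, QuotientGroup.ker_mk', ← der_sub]
    exact subgroupOf_mono V k
  have e := card_linear (G := V ⧸ W.subgroupOf V)
  rw [this, index_bot] at e
  rw [relIndex, index, ← e]
  refine (Nat.card_congr (Equiv.ofBijective (fun ν => ⟨ν.comp (QuotientGroup.mk' _), fun v hv => by
    rw [MonoidHom.mem_ker, MonoidHom.comp_apply, QuotientGroup.mk'_apply,
      (QuotientGroup.eq_one_iff v).2 hv, map_one]⟩) ⟨fun a b e =>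
    (MonoidHom.cancel_right f).1 (congrArg Subtype.val e), fun μ =>
    ⟨QuotientGroup.lift _ μ.1 μ.2, rfl⟩⟩)).symm

theorem dich [V.Normal] [W.Normal] [N.Normal] (c : Chief ⊤ W V) (k : ⁅V, ⁅N, N⁆⁆ ≤ W)
    (h : g ∈ DD N) : (∀ v ∈ V, ⁅v, g⁆ ∈ W) ∨ Fp V W g := by
  refine (c.eq_or (W := V ⊓ Cy W g) (le_inf c.lt.le le_Cy) inf_le_left (le_norm_iff.2
    fun a _ v hv => ⟨Normal.conj_mem inferInstance _ hv.1 a, mem_Cy.2 ?_⟩)).symm.imp
    (fun e v hv => mem_Cy.1 (e.ge hv).2) fun e v hv w => e.le ⟨hv, mem_Cy.2 w⟩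
  have : g * ⁅g⁻¹, a⁻¹⁆ ∈ Cy W v := mul_mem (mem_Cy'.2 (mem_Cy.1 hv.2)) (mem_Cy'.2
    (k (commutator_mem_commutator hv.1 ((mem_DD.1 (inv_mem h)).2 _))))
  have := Normal.conj_mem inferInstance _ (mem_Cy'.1 this) a
  convert this using 1
  simp only [commutatorElement_def]
  group

variable [N.Normal]

theorem Gd.mem_D (k : Gd N T) (h : St S N x) (a : g ∈ T) (b : g ∈ N) : g ∈ DD N :=
  let ⟨_, u, v⟩ := k.ex
  h.g0 v b (k.cm a u)

theorem Gd.idx (k : Gd N T) (h : St S N x) : T.index ≠ 1 := fun w =>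
  h.ne fun g hg => k.inf g ((index_eq_one.1 w).ge trivial) hg

theorem St.t2 [V.Normal] (h : St S N x) {θ : V → ℂ} (a : IsIrrCharacter V θ) (l : In V θ ≤ N) :
    N ≤ In V θ := by
  obtain ⟨t, -, e⟩ := exists_cd a
  obtain ⟨d, hd, k⟩ := exists_inertia_dvd a e
  have k := (Dvd.intro _ rfl).trans k
  rw [← h.anti _ h.mem _ (h.sub hd) h.f1 ((index_dvd_of_le l).trans k)] at k
  exact (eq_of_le_of_index_le l (Nat.le_of_dvd (Nat.pos_of_ne_zero index_ne_zero_of_finite) k)).ge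

theorem St.cy_cm (h : St S N x) (hy : y ∉ N) {a b : G} (u : a ∈ Cy ⁅N, N⁆ y)
    (v : b ∈ Cy ⁅N, N⁆ y) : ⁅a, b⁆ ∈ ⁅N, N⁆ :=
  h.fpM hy _ (cm_der a b) (mem_Cy.1 (der_le _ (commutator_mem_commutator u v)))

theorem St.cy_sup (h : St S N x) (hy : y ∉ N) : commutator G ⊔ Cy ⁅N, N⁆ y = ⊤ :=
  eq_top_iff.2 fun g _ => by
    obtain ⟨u, hu, w⟩ := (h.fpM hy).surj (cm_der g y)
    simpa using mul_mem_sup hu (inv_mem (mem_Cy_of w))

theorem St.toF (h : St S N x) (hy : y ∉ N) (k : Gd N T) :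
    ∃ b ∈ commutator G, cj b T ≤ Cy ⁅N, N⁆ y := by
  obtain ⟨z, a, hz⟩ := k.ex
  obtain ⟨m, hm, c, hc, e⟩ := (mem_sup_norm' (nm _ _)).1 ((h.cy_sup hz).ge (mem_top y))
  obtain ⟨u, hu, w⟩ := (h.fpM (y := c) fun v => hy (e ▸ N.mul_mem (h.MN hm) v)).surj hm
  refine ⟨u, hu, fun g hg => ?_⟩
  obtain ⟨t, ht, rfl⟩ := mem_cj_iff.1 hg
  have e1 : u * c * u⁻¹ * (c⁻¹ * (⁅u, c⁆⁻¹ * m) * c⁻¹⁻¹) = y := by
    rw [← e, commutatorElement_def]; group
  rw [mem_Cy', ← mem_Cy, ← e1, mul_mem_cancel_right (le_Cy (Normal.conj_mem inferInstance _ w _)),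
    mem_Cy]
  have := Normal.conj_mem inferInstance _ (h.cy_cm hz hc (mem_Cy.2 (k.cm ht a))) u
  convert this using 1
  simp only [commutatorElement_def]
  group

theorem St.ee (h : St S N x) (c : CyD N) : ⁅N, N⁆ ≤ ⁅⁅N, N⁆, N⁆ := by
  by_contra w
  obtain ⟨μ, a, b⟩ := exists_lin_of_der_le w (commutator_mono le_rfl (der_le N))
  have i := le_Il.2 a
  have := nrm_of_le h.gen i
  obtain ⟨y, u, v⟩ := SetLike.not_le_iff_exists.1 (h.nt le_rfl b i)
  have t := h.ts i u v (comm_DD _) (comm_DD _) (by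
    rw [commutator_comm]; exact commutator_mono le_rfl (DD_le.trans i))
  obtain ⟨g, hg, k⟩ := c
  obtain ⟨d, hd, m, hm, rfl⟩ := (mem_sup_norm (nm _ _)).1 (h.sup.ge hg)
  have k' : N ≤ DD N ⊔ zpowers m := k.trans (sup_le le_sup_left
    (zpowers_le.2 (mul_mem_sup hd (mem_zpowers m))))
  refine b (MonoidHom.ext fun e => le_Il.1 le_rfl (x := e) ?_)
  obtain ⟨n, hn, f⟩ := h.g1 (h.MN hm) (fun v => h.ne fun g hg => h.DM
    ((h.MN.trans k').trans (sup_le le_rfl (zpowers_le.2 v)) hg) hg) e.2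
  rw [mem_subgroupOf, ← f, ← mem_Cy']
  exact (k'.trans (sup_le (fun d hd => mem_Cy.2 (t (commutator_mem_commutator hd hm)))
    (zpowers_le.2 (mem_Cy.2 (by simp))))) hn

theorem St.fr (h : St S N x) (c : CyD N) : ∃ B X, Fr S N x B X := by
  have := h.sol
  have co : (♯⁅N, N⁆).Coprime (⁅N, N⁆.relIndex (commutator G)) := coprime_of_primes fun q hq a b => by
    obtain ⟨K, _, u, k, v⟩ := npc_of_cd (G := N) hq fun t ht t1 => by
      obtain ⟨ψ, p1, p2⟩ := mem_cd.1 ht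
      exact hq.dvd_of_dvd_pow ((h.idx ▸ b).trans (index_dvd_sq_of_vanish (K := (DD N).subgroupOf N)
        p1 p2 fun g => h.van p1 fun w => t1 (by exact_mod_cast p2.symm.trans ((nl_iff p1).1 w))))
    have := IsPGroup.nil_quot hq v
    have f := QuotientGroup.mk'_surjective K
    have e := Nil.eq_bot_of_le_comm (H := ⊤) inferInstance
      (K := (⁅N, N⁆.subgroupOf N).map (QuotientGroup.mk' K)) le_top (by
        rw [← map_top_of_surjective _ f, ← map_commutator, ← subgroupOf_self,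
          ← subgroupOf_comm (der_le N) le_rfl]
        exact map_mono (subgroupOf_mono N (h.ee c)))
    rw [Subgroup.map_eq_bot_iff, QuotientGroup.ker_mk'] at e
    exact u (a.trans (card_subgroupOf' (der_le N) ▸ card_dvd e))
  obtain ⟨B, sB⟩ := exists_compl ⟨EM N, nm _ _⟩ co
  rw [sB.relIndex_left] at co
  have reg : Reg ⁅N, N⁆ B := reg_of_forall fun b hb b1 e he c => h.g1' (h.MN (sB.right_le hb))
    (fun w => b1 (eq_one_of_mem_bot sB.inf ⟨h.DM w (sB.right_le hb), hb⟩)) he c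
    ((co.symm.coprime_dvd_left (orderOf_dvd_card' hb)).coprime_dvd_right (orderOf_dvd_card' he))
  have B1 : B ≠ ⊥ := fun w => h.ne (by rw [← sB.sup, w, sup_bot_eq])
  refine ⟨B, 𝐍 B, h, sB, ⟨nm _ _, ?_, ?_⟩, le_rfl, reg⟩
  · have := (hall_of_coprime sB.right_le (sB.relIndex_right ▸ co.symm)).frattini_sup inferInstance
      (normalIn_top.2 inferInstance)
    rwa [top_inf_eq, ← sB.sup, sup_assoc, sup_eq_right.2 (le_norm_self B)] at this
  · rw [inf_norm_eq_inf_cent (nm _ _) sB.inf', reg.cent le_rfl B1]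

theorem Fr.B1 (h : Fr S N x B X) : B ≠ ⊥ := fun w => h.ne (by rw [← h.sB.sup, w, sup_bot_eq])

theorem Fr.nil (h : Fr S N x B X) : Nil ⁅N, N⁆ :=
  have := h.sol
  h.reg.nil (nm _ _) h.B1 inferInstance

theorem Fr.gd [V.Normal] (h : Fr S N x B X) (l : V ≤ ⁅N, N⁆) {θ : V → ℂ} (a : IsIrrCharacter V θ)
    (b : θ ≠ fun _ => 1) (c : ⁅N, N⁆ ≤ In V θ) : Gd N (In V θ) := by
  have i : ∀ g ∈ In V θ, g ∈ commutator G → g ∈ ⁅N, N⁆ := fun g hg hm => by
    obtain ⟨e, he, β, hβ, rfl⟩ := h.sB.exists_mul hm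
    by_cases w : β = 1
    · simpa [w] using he
    exact absurd (irr_eq_one_of_mem_inertia V a (eq_bot_mono (h.reg β hβ w) (inf_le_inf_right _ l))
      ((mul_mem_cancel_left (c he)).1 hg)) b
  exact ⟨c, i, fun w => h.ne fun g hg => i g (h.t2 a w (h.MN hg)) hg⟩

theorem Fr.gdE (h : Fr S N x B X) {α : (⁅N, N⁆ : Subgroup G) →* ℂˣ} (a : α ≠ 1) : Gd N (Il _ α) :=
  h.gd le_rfl (irr_linear α) (lin_ne a) (le_Il_self α)

variable [W.Normal]

theorem Fr.dW (h : Fr S N x B X) (c : Chief ⊤ W ⁅N, N⁆) : ⁅⁅N, N⁆, ⁅N, N⁆⁆ ≤ W :=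
  c.comm_le_of_nil (normalIn_top.2 inferInstance) (h.nil.qt W)

theorem cm_le_Il [V.Normal] {α : V →* ℂˣ} (a : α ∈ Ann V W) : centMod V W ≤ Il V α :=
  le_Il.2 ((subgroupOf_mono V (by rw [commutator_comm]; exact comm_centMod_le _ _)).trans a)

theorem Fr.fv0 (h : Fr S N x B X) (c : Chief ⊤ W ⁅N, N⁆)
    (k : ∀ i : ℕ, z ^ i ∈ N → z ^ i ∈ centMod ⁅N, N⁆ W) :
    ∃ α ∈ Ann ⁅N, N⁆ W, α ≠ 1 ∧ z ∈ Il _ α := by
  obtain ⟨e, he, y, hy, rfl⟩ := h.sX.exists_mul (mem_top z)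
  have q : ∀ i : ℕ, (y ^ i)⁻¹ * (e * y) ^ i ∈ ⁅N, N⁆ := fun i => QuotientGroup.eq.1 (by
    rw [QuotientGroup.mk_pow, QuotientGroup.mk_pow, QuotientGroup.mk_mul,
      (QuotientGroup.eq_one_iff e).2 he, one_mul])
  have o : ∀ i : ℕ, y ^ i ∈ N ↔ orderOf (y : G ⧸ N) ∣ i := fun i => by
    rw [orderOf_dvd_iff_pow_eq_one, ← QuotientGroup.mk_pow, QuotientGroup.eq_one_iff]
  by_contra! w
  obtain ⟨α, a, a1⟩ := exists_lin_of_der_le c.lt.not_ge (h.dW c)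
  obtain ⟨b, hb, b1⟩ := exists_mem_ne_one h.B1
  refine a1 (eq_one_of_pow (fixvec (W := Ann ⁅N, N⁆ W) (fun _ => smul_ann) (h.nX hy)
    (orderOf_pos (y : G ⧸ N)) (fun i i0 i1 b hb v => eq_one_of_mem_bot h.sB.inf ⟨h.fpM
      (fun u => (Nat.le_of_dvd i0 ((o i).1 u)).not_gt i1) b (h.sB.right_le hb) (v ▸ one_mem _), hb⟩)
    (fun v hv => smul_iff.2 ?_) (fun v _ u => by_contra fun v1 => b1 (eq_one_of_mem_bot h.sB.inf
      ⟨(h.gdE v1).inf b (smul_iff.1 (u b hb)) (h.sB.right_le hb), hb⟩))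
    (fun v hv u => by_contra fun v1 => w v hv v1 (mul_mem (le_Il_self v he) (smul_iff.1 u))) a)
    (pow_card_lin α) ((h.reg.coprime (nm _ _)).coprime_dvd_right (relIndex_dvd_card _ _)))
  have := (o _).2 dvd_rfl
  have r := q (orderOf (y : G ⧸ N))
  exact inv_mem_iff.1 ((mul_mem_cancel_right
    (cm_le_Il hv (k _ ((mul_mem_cancel_left (inv_mem this)).1 (der_le N r))))).1 (le_Il_self v r))

theorem Fr.fv (h : Fr S N x B X) (c : Chief ⊤ W ⁅N, N⁆) (k : N ⊓ T ≤ centMod ⁅N, N⁆ W) :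
    ∃ α ∈ Ann ⁅N, N⁆ W, α ≠ 1 ∧ T ≤ Il _ α := by
  obtain ⟨z, hz, l⟩ := exists_gen h.gen T
  obtain ⟨α, a, a1, b⟩ := h.fv0 c (z := z) fun i u => k ⟨u, pow_mem hz i⟩
  refine ⟨α, a, a1, fun t ht => ?_⟩
  obtain ⟨n, hn, _, ⟨i, rfl⟩, rfl⟩ := (mem_sup_norm' (nm _ _)).1 (l ht)
  exact mul_mem (cm_le_Il a (k ⟨hn, (mul_mem_cancel_right (zpow_mem hz i)).1 ht⟩)) (zpow_mem b i)

theorem Fr.inf_Il (h : Fr S N x B X) (c : Chief ⊤ W ⁅N, N⁆) {α : (⁅N, N⁆ : Subgroup G) →* ℂˣ}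
    (a : α ∈ Ann _ W) (a1 : α ≠ 1) : N ⊓ Il _ α = N ⊓ centMod ⁅N, N⁆ W :=
  le_antisymm (fun g hg => ⟨hg.1, nm ⊤ _ trivial, fun e he => cm_swap
    ((dich c (h.dW c) ((h.gdE a1).mem_D h.toSt hg.2 hg.1)).resolve_right
      (fun w => a1 (w.eq_one a hg.2)) e he)⟩) (inf_le_inf_left N (cm_le_Il a))

theorem Fr.idx_Il (h : Fr S N x B X) (c : Chief ⊤ W ⁅N, N⁆) {α : (⁅N, N⁆ : Subgroup G) →* ℂˣ}
    (a : α ∈ Ann _ W) (a1 : α ≠ 1) :
    (Il _ α).index = (N ⊔ Il _ α).index * (centMod ⁅N, N⁆ W).relIndex N := by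
  rw [← inf_relIndex_left N (centMod _ _), ← h.inf_Il c a a1, inf_relIndex_left,
    ← relIndex_sup_norm (.inr (nm _ N)), mul_comm, relIndex_mul_index le_sup_right]

theorem Fr.idx_eq (h : Fr S N x B X) (c : Chief ⊤ W ⁅N, N⁆) {α β : (⁅N, N⁆ : Subgroup G) →* ℂˣ}
    (a : α ∈ Ann _ W) (a1 : α ≠ 1) (b : β ∈ Ann _ W) (b1 : β ≠ 1) :
    (Il _ α).index = (Il _ β).index := by
  obtain ⟨y, hy, yN⟩ := (h.gdE a1).ex
  have l1 : Il _ α ≤ Cy ⁅N, N⁆ y := fun t ht => mem_Cy.2 ((h.gdE a1).cm ht hy)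
  obtain ⟨u, -, l2⟩ := h.toF yN (h.gdE b1)
  rw [← index_cj u (Il _ β)]
  rw [← Il_smul] at l2 ⊢
  replace b := smul_ann b u
  replace b1 : u • β ≠ 1 := fun w => b1 (eq_one_of_smul w)
  generalize u • β = β at *
  obtain ⟨z, hz, l⟩ := exists_gen h.gen (Il _ α ⊔ Il _ β)
  have : (centMod ⁅N, N⁆ W).Normal := nrm_of (norm_centMod (nm _ _) (nm _ _))
  have EK : ⁅N, N⁆ ≤ centMod ⁅N, N⁆ W := le_centMod.2 ⟨nm _ _, h.dW c⟩
  obtain ⟨γ, g, g1, k⟩ := h.fv0 c (z := z) fun i hi => by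
    have P : ∀ γ ∈ Ann ⁅N, N⁆ W, γ ≠ 1 → Il _ γ ≤ Il _ α ⊔ Il _ β → ∀ t ∈ Il _ γ,
        (t : G ⧸ centMod ⁅N, N⁆ W) ^ i = 1 := fun γ g g1 v t ht => by
      rw [← QuotientGroup.mk_pow, QuotientGroup.eq_one_iff]
      refine ((h.inf_Il c g g1).le ⟨?_, pow_mem ht i⟩).2
      obtain ⟨n, hn, _, ⟨j, rfl⟩, rfl⟩ := (mem_sup_norm' (nm _ _)).1 (l (v ht))
      rw [← QuotientGroup.eq_one_iff, QuotientGroup.mk_pow] at hi
      refine (QuotientGroup.eq_one_iff _).1 ?_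
      beta_reduce
      rw [QuotientGroup.mk_pow, QuotientGroup.mk_mul, (QuotientGroup.eq_one_iff n).2 hn, one_mul, QuotientGroup.mk_zpow,
        ← zpow_natCast, zpow_comm, zpow_natCast, hi, one_zpow]
    obtain ⟨s, hs, t, ht, rfl⟩ := (mem_sup_norm (l1.trans (norm_of_der_le l2 (commutator_le.2
      fun _ u _ v => (h.gdE b1).le (h.cy_cm yN u v))))).1 hz
    rw [← QuotientGroup.eq_one_iff, QuotientGroup.mk_pow, QuotientGroup.mk_mul,
      Commute.mul_pow (show Commute (s : G ⧸ centMod ⁅N, N⁆ W) t from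
        (mem_cent1.1 (mem_Cy.2 (EK (h.cy_cm yN (l1 hs) (l2 ht)))))),
      P α a a1 le_sup_left s hs, P β b b1 le_sup_right t ht, one_mul]
  have Q : ∀ δ ∈ Ann ⁅N, N⁆ W, δ ≠ 1 → Il _ δ ≤ Il _ α ⊔ Il _ β → (Il _ γ).index = (Il _ δ).index :=
    fun δ d d1 v => h.anti _ (h.sd_idx h.sX γ) _ (h.sd_idx h.sX δ) ((h.gdE g1).idx h.toSt) (by
      rw [h.idx_Il c g g1, h.idx_Il c d d1]
      exact Nat.mul_dvd_mul_right (index_dvd_of_le (sup_le le_sup_left ((v.trans l).trans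
        (sup_le_sup_left (zpowers_le.2 k) N)))) _)
  exact (Q α a a1 le_sup_left).symm.trans (Q β b b1 le_sup_right)

end CF.Nd
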