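import Cfsg.Agent.Nd.F1

/-!
The case in which `N / D` is cyclic: the top chief factor of `N'` is small.
-/

set_option autoImplicit false

namespace CF.Nd

open Cfsg Subgroup CF.BG CF.Clifford CF.Char CF.Fgs2.Isa CF.Degs MulAction
open scoped commutatorElement ComplexConjugate

attribute [local instance] Fintype.ofFinite linAct
attribute [-instance] MonoidHom.instPow MonoidHom.mul instOneMonoidHom MonoidHom.instInv

set_option linter.unusedSectionVars false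

universe u v

variable {G : Type u} [Group G] {d e m n p q r s t : ℕ} {x y z g : G} {S : Set ℕ}
  {A B C D E H I K L M N P R T U V W X Y Z : Subgroup G}

theorem dif_eq {A : Type v} [CommGroup A] [MulDistribMulAction G A] {a b : A}
    (h : g • (a * b) = a * b) : g • a * a⁻¹ = (g • b * b⁻¹)⁻¹ := by
  rw [eq_inv_iff_mul_eq_one, mul_mul_mul_comm, ← smul_mul', h, ← mul_inv, mul_inv_cancel]

variable [Finite G]

theorem lin_sc [V.Normal] (μ : V →* ℂˣ) {a b : G} (h : ⁅a, b⁆ ∈ V) : a • b • μ = b • a • μ := by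
  rw [← smul_iff.2 (le_Il_self (b • a • μ) h), ← mul_smul, ← mul_smul, ← mul_smul,
    commutatorElement_def]
  congr 1
  group

theorem Il_inv [V.Normal] {μ : V →* ℂˣ} (h : y ∈ Il V μ) : y ∈ Il V μ⁻¹ :=
  smul_iff.1 (by rw [smul_inv', smul_iff.2 h])

theorem Il_mul [V.Normal] {μ ν : V →* ℂˣ} (h : y ∈ Il V μ) (k : y ∈ Il V ν) : y ∈ Il V (μ * ν) :=
  smul_iff.1 (by rw [smul_mul', smul_iff.2 h, smul_iff.2 k])

theorem Il_dif [V.Normal] {μ : V →* ℂˣ} (h : y ∈ Il V μ) (k : ⁅y, z⁆ ∈ V) :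
    y ∈ Il V (z • μ * μ⁻¹) :=
  Il_mul (smul_iff.1 (by rw [lin_sc μ k, smul_iff.2 h])) (Il_inv h)

theorem arith_bound {q j y b : ℕ} (h : q - 1 = j * (y - 1)) (k : y * y ≤ q) (l : 1 < y) (m : j ≤ b) :
    q < b ^ 2 := by
  obtain ⟨y, rfl⟩ := Nat.exists_eq_add_of_lt l
  obtain ⟨q, rfl⟩ := Nat.exists_eq_add_of_le'
    (Nat.succ_le_of_lt ((Nat.mul_pos (by omega) (by omega)).trans_le k))
  rw [Nat.add_sub_cancel, show 1 + y + 1 - 1 = y + 1 by omega] at h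
  have : y + 3 ≤ j := Nat.le_of_mul_le_mul_right (by nlinarith) (Nat.succ_pos y)
  nlinarith

variable [N.Normal]

theorem Gd.not_cj (k : Gd N T) (h : St S N x) (a : y ∈ T) (hy : y ∉ N) (b : g ∈ commutator G)
    (c : g * y * g⁻¹ ∈ T) : g ∈ ⁅N, N⁆ :=
  h.fpM hy g b (k.inf _ (mul_mem c (inv_mem a)) (cm_der g y))

theorem St.b1 (h : St S N x) : 1 < ⁅N, N⁆.relIndex (commutator G) :=
  lt_of_le_of_ne (Nat.pos_of_ne_zero index_ne_zero_of_finite) fun e =>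
    h.ne (relIndex_eq_one.1 e.symm)

theorem rel_eq {T : Subgroup G} (a : ⁅N, N⁆ ≤ T) (b : ∀ g ∈ T, g ∈ commutator G → g ∈ ⁅N, N⁆) :
    T.relIndex (commutator G ⊔ T) = ⁅N, N⁆.relIndex (commutator G) := by
  rw [relIndex_sup_norm (.inr (nm _ _)), ← inf_relIndex_right,
    le_antisymm (fun g hg => b g hg.1 hg.2) (le_inf a (EM N))]

variable [W.Normal] {α β γ : (⁅N, N⁆ : Subgroup G) →* ℂˣ}

theorem Fr.Il_eq (h : Fr S N x B X) (c : Chief ⊤ W ⁅N, N⁆) (a : α ∈ Ann _ W) (a1 : α ≠ 1)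
    (b : β ∈ Ann _ W) (b1 : β ≠ 1) (l : Il _ α ≤ Il _ β) : Il _ α = Il _ β :=
  eq_of_le_of_index_le l (h.idx_eq c a a1 b b1).le

theorem Fr.le_sup (h : Fr S N x B X) (c : Chief ⊤ W ⁅N, N⁆) (a : α ∈ Ann _ W) (a1 : α ≠ 1)
    (b : β ∈ Ann _ W) (b1 : β ≠ 1) : Il _ α ≤ N ⊔ Il _ β := by
  have := h.idx_eq c b b1 a a1
  rw [h.idx_Il c a a1, h.idx_Il c b b1] at this
  exact le_sup_right.trans (le_of_idx h.gen le_sup_left le_sup_left
    (Nat.eq_of_mul_eq_mul_right (Nat.pos_of_ne_zero index_ne_zero_of_finite) this).dvd)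

theorem Fr.uniq (h : Fr S N x B X) (c : Chief ⊤ W ⁅N, N⁆) (a : α ∈ Ann _ W) (a1 : α ≠ 1)
    (b : β ∈ Ann _ W) (b1 : β ≠ 1) (hy : y ∉ N) (l1 : Il _ α ≤ Cy ⁅N, N⁆ y)
    (l2 : Il _ β ≤ Cy ⁅N, N⁆ y) : Il _ α ≤ Il _ β := by
  have K : N ⊓ Il _ α = N ⊓ Il _ β := (h.inf_Il c a a1).trans (h.inf_Il c b b1).symm
  by_cases w : Il _ α ⊓ Il _ β ≤ N
  · have n : Il _ β ≤ 𝐍 (Il _ α) := l2.trans (norm_of_der_le l1 (commutator_le.2
      fun _ u _ v => le_Il_self α (h.cy_cm hy u v)))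
    have e : (Il _ α).relIndex (Il _ β) = N.relIndex (Il _ β) := by
      rw [← inf_relIndex_right, ← inf_relIndex_right N,
        le_antisymm (le_inf w inf_le_right) (le_inf (K.ge.trans inf_le_right) inf_le_right)]
    have f := h.anti _ h.mem _ (h.sd_idx h.sX α) h.f1 (by
      rw [← relIndex_mul_index (le_sup_right : Il _ α ≤ Il _ β ⊔ Il _ α), relIndex_sup_norm (.inl n),
        e, ← relIndex_mul_index (le_sup_right : N ≤ Il _ β ⊔ N), relIndex_sup_norm (.inl (nm _ N))]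
      exact Nat.mul_dvd_mul_left _ (index_dvd_of_le (sup_le le_sup_left
        ((h.le_sup c a a1 b b1).trans (sup_comm _ _).le))))
    refine absurd (h.cop.eq_one_of_dvd ?_) h.b1.ne'
    rw [f, ← rel_eq (le_Il_self α) (h.gdE a1).inf]
    exact relIndex_dvd_index_of_le le_sup_right
  obtain ⟨y0, ⟨u1, u2⟩, v⟩ := SetLike.not_le_iff_exists.1 w
  by_cases g1 : α * β = 1
  · rw [show β = α⁻¹ from eq_inv_of_mul_eq_one_right g1]
    exact fun _ => Il_inv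
  intro u hu
  obtain ⟨n, hn, t, ht, rfl⟩ := (mem_sup_norm' (nm _ _)).1 (h.le_sup c a a1 (mul_mem a b) g1 hu)
  have ct := mem_Cy.2 ((h.gdE g1).cm ht (Il_mul u1 u2))
  have e : t • α * α⁻¹ = (t • β * β⁻¹)⁻¹ := dif_eq (smul_iff.2 ht)
  by_cases d1 : t • α * α⁻¹ = 1
  · refine mul_mem (K.le ⟨hn, (mul_mem_cancel_right (smul_iff.1 (mul_inv_eq_one.1 d1))).1 hu⟩).2
      (smul_iff.1 (mul_inv_eq_one.1 (inv_eq_one.1 (e.symm.trans d1))))
  have d := mul_mem (smul_ann a t) (inv_mem a)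
  rw [h.Il_eq c b b1 d d1 fun s hs => e ▸ Il_inv (Il_dif hs
    (h.cy_cm v (mem_Cy.2 ((h.gdE b1).cm hs u2)) ct))]
  exact (h.Il_eq c a a1 d d1 fun s hs => Il_dif hs
    (h.cy_cm v (mem_Cy.2 ((h.gdE a1).cm hs u1)) ct)).le hu

theorem Fr.bound (h : Fr S N x B X) (c : Chief ⊤ W ⁅N, N⁆) :
    W.relIndex ⁅N, N⁆ < ⁅N, N⁆.relIndex (commutator G) ^ 2 := by
  obtain ⟨α, a, a1⟩ := exists_lin_of_der_le c.lt.not_ge (h.dW c)
  obtain ⟨y, hy, yN⟩ := (h.gdE a1).ex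
  obtain ⟨β, hβ, βE⟩ := h.exM
  have l1 : Il _ α ≤ Cy ⁅N, N⁆ y := fun t ht => mem_Cy.2 ((h.gdE a1).cm ht hy)
  have ct := count (W := Ann ⁅N, N⁆ W) (X := Il _ α) (fun g _ v hv => smul_ann hv g)
    (fun v hv v1 => by
      obtain ⟨b, -, l⟩ := h.toF yN (h.gdE v1)
      rw [← Il_smul] at l
      refine ⟨b⁻¹, ?_⟩
      rw [← inv_smul_smul b v, smul_mem_Fx, mem_Fx_lin']
      exact h.uniq c a a1 (smul_ann hv b) (fun w => v1 (eq_one_of_smul w)) yN l1 l)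
    fun v hv v1 g u w => by
      rw [mem_Fx_lin'] at u w
      exact mem_norm_of_cj_le (w.trans (h.Il_eq c a a1 hv v1 u).ge)
  rw [← card_Ann (h.dW c)]
  refine arith_bound ct ?_ ?_ (Nat.le_of_dvd (zero_lt_one.trans h.b1) ?_)
  · rw [← Nat.card_prod]
    refine Nat.card_le_card_of_injective (fun p => ⟨p.1.1 * β • p.2.1,
      mul_mem p.1.2.1 (smul_ann p.2.2.1 β)⟩) fun p q e => ?_
    have e : q.1.1⁻¹ * p.1.1 = β • (q.2.1 * p.2.1⁻¹) := by
      rw [smul_mul', smul_inv', inv_mul_eq_iff_eq_mul, ← mul_assoc, eq_mul_inv_iff_mul_eq]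
      exact congrArg Subtype.val e
    have f : q.1.1⁻¹ * p.1.1 = 1 := by_contra fun v1 => βE ((h.gdE v1).not_cj h.toSt
      (mem_Fx_lin'.1 (mul_mem (inv_mem q.1.2.2) p.1.2.2) hy) yN hβ (by
        rw [e, Il_smul, conj_mem_cj]
        exact mem_Fx_lin'.1 (mul_mem q.2.2.2 (inv_mem p.2.2.2)) hy))
    exact Prod.ext (Subtype.ext (inv_mul_eq_one.1 f).symm)
      (Subtype.ext (mul_inv_eq_one.1 (eq_one_of_smul (e.symm.trans f))).symm)
  · exact (Subgroup.one_lt_card_iff_ne_bot _).2 fun w =>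
      a1 (mem_bot.1 (w.le ⟨a, mem_Fx_lin'.2 le_rfl⟩))
  · rw [← rel_eq (le_Cy (y := y)) fun g u v => h.fpM yN g v (mem_Cy.1 u), h.cy_sup yN,
      relIndex_top_right]
    exact index_dvd_of_le (norm_of_der_le l1 (commutator_le.2
      fun _ u _ v => le_Il_self α (h.cy_cm yN u v)))

end CF.Nd
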