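import Cfsg.Agent.Nd.F2

/-!
The case in which `N / D` is cyclic: `N'` is a minimal normal subgroup.
-/

set_option autoImplicit false

namespace CF.Nd

open Cfsg Subgroup CF.BG CF.Clifford CF.Char CF.Fgs2.Isa CF.Degs MulAction
open scoped commutatorElement ComplexConjugate

attribute [local instance] Fintype.ofFinite linAct
attribute [-instance] MonoidHom.instPow MonoidHom.mul instOneMonoidHom MonoidHom.instInv

set_option linter.unusedSectionVars false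

universe u v

variable {G : Type u} [Group G] {d e m n p q r s t : ℕ} {x y z g : G} {S : Set ℕ}
  {A B C D E H I K L M N P R T U V W X Y Z : Subgroup G}

theorem fpf_mem {A : Type v} [CommGroup A] [Finite A] [MulDistribMulAction G A] {W S : Subgroup A}
    (iw : ∀ v ∈ W, g • v ∈ W) (is : ∀ v ∈ S, g • v ∈ S) (fp : ∀ v ∈ W, g • v = v → v = 1) {v : A}
    (hv : v ∈ W) (h : g • v * v⁻¹ ∈ S) : v ∈ S := by
  have inj : ∀ a ∈ W, ∀ b ∈ W, g • a * a⁻¹ = g • b * b⁻¹ → a = b := fun a ha b hb e =>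
    mul_inv_eq_one.1 (fp _ (mul_mem ha (inv_mem hb)) (by
      rw [smul_mul', smul_inv', mul_inv_eq_iff_eq_mul.1 e, mul_right_comm _ _ (g • b)⁻¹,
        mul_right_comm _ _ (g • b)⁻¹, mul_inv_cancel, one_mul, mul_comm]))
  obtain ⟨u, e⟩ := Finite.surjective_of_injective (f := fun u : (W ⊓ S : Subgroup A) =>
    (⟨g • u.1 * u.1⁻¹, W.mul_mem (iw _ u.2.1) (W.inv_mem u.2.1),
      S.mul_mem (is _ u.2.2) (S.inv_mem u.2.2)⟩ : (W ⊓ S : Subgroup A))) (fun a b e => Subtype.ext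
        (inj _ a.2.1 _ b.2.1 (congrArg Subtype.val e))) ⟨_, W.mul_mem (iw v hv) (W.inv_mem hv), h⟩
  exact inj _ u.2.1 _ hv (congrArg Subtype.val e) ▸ u.2.2

/-- the linear characters that are trivial on the support of `φ` -/
def Sp {V : Type u} [Group V] (φ : V → ℂ) : Subgroup (V →* ℂˣ) where
  carrier := {δ | ∀ e, φ e ≠ 0 → δ e = 1}
  one_mem' _ _ := rfl
  mul_mem' a b e h := by rw [MonoidHom.mul_apply, a e h, b e h, one_mul]
  inv_mem' a e h := by rw [MonoidHom.inv_apply, a e h, inv_one]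

theorem arith_gcd {r n k b : ℕ} (hr : 1 < r) (k0 : 0 < k) (l : k < n) (a : b ∣ r ^ k * r ^ n - 1)
    (c : b ∣ r ^ k - 1) : b ^ 2 ≤ r ^ n := by
  have := Nat.dvd_gcd c a
  rw [← pow_add, Nat.pow_sub_one_gcd_pow_sub_one, Nat.gcd_self_add_right] at this
  have g0 := Nat.gcd_pos_of_pos_left n k0
  have g1 := (Nat.gcd_le_left n k0).trans_lt l
  obtain ⟨j, e⟩ := Nat.gcd_dvd_right k n
  generalize k.gcd n = g at *
  have j2 : 2 ≤ j := by
    by_contra! w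
    interval_cases j <;> omega
  calc b ^ 2 ≤ (r ^ g) ^ 2 := Nat.pow_le_pow_left ((Nat.le_of_dvd
        (Nat.sub_pos_of_lt (Nat.one_lt_pow g0.ne' hr)) this).trans (Nat.sub_le _ _)) 2
    _ ≤ _ := by
      rw [← pow_mul, e]
      exact Nat.pow_le_pow_right hr.le (Nat.mul_le_mul_left g j2)

variable [Finite G]

theorem two_cm [V.Normal] [W.Normal] {φ : V → ℂ} (cf : IsIrrCharacter V φ) {α : V →* ℂˣ}
    (a : α ∈ Ann V W) (f : Fp V W y) (f' : Fp V W z) (i : y ∈ In V φ)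
    (i' : z ∈ In V fun e => α e * φ e) (k : ⁅z⁻¹, y⁻¹⁆ ∈ V) : α ∈ Sp φ := by
  have j := (NormalEmb.mem_inertia' _).1 (inv_mem i)
  have j' := (NormalEmb.mem_inertia' _).1 (inv_mem i')
  have n : ∀ e, φ e ≠ 0 → φ ((NormalEmb.sub V).c z⁻¹ e) ≠ 0 := fun e he w =>
    mul_ne_zero (α e).ne_zero he (by rw [← j' e, w, mul_zero])
  refine fpf_mem (g := z) (S := Sp φ) (fun _ u => smul_ann u z) (fun δ u e he => u _ (n e he))
    (fun _ u w => f'.eq_one u (smul_iff.1 w)) a (fpf_mem (g := y) (S := Sp φ)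
      (fun _ u => smul_ann u y) (fun δ u e he => u _ ((j e).trans_ne he))
      (fun _ u w => f.eq_one u (smul_iff.1 w)) (mul_mem (smul_ann a z) (inv_mem a)) fun e he => ?_)
  have m := (NormalEmb.mem_inertia' _).1 (mul_mem (le_inertia_self cf k) (inv_mem i))
    ((NormalEmb.sub V).c z⁻¹ e)
  rw [← NormalEmb.c_mul, show ⁅z⁻¹, y⁻¹⁆ * y⁻¹ * z⁻¹ = z⁻¹ * y⁻¹ by
    rw [commutatorElement_def]; group, NormalEmb.c_mul] at m
  have u := j' ((NormalEmb.sub V).c y⁻¹ e)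
  rw [m, j] at u
  have v := j' e
  change α ((NormalEmb.sub V).c z⁻¹ ((NormalEmb.sub V).c y⁻¹ e)) *
    (α ((NormalEmb.sub V).c y⁻¹ e))⁻¹ * (α ((NormalEmb.sub V).c z⁻¹ e) * (α e)⁻¹)⁻¹ = 1
  rw [mul_inv_eq_one, ← div_eq_mul_inv, ← div_eq_mul_inv, div_eq_div_iff_mul_eq_mul, ← Units.val_inj,
    Units.val_mul, Units.val_mul]
  refine mul_right_cancel₀ (n e he) ?_
  rw [mul_right_comm, u, mul_right_comm _ _ (φ _), v]
  ring

variable [N.Normal] [W.Normal]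

theorem Fr.dd (h : Fr S N x B X) (c : Chief ⊤ W ⁅N, N⁆) (k : Gd N T) :
    N ⊓ T ≤ centMod ⁅N, N⁆ W ∨ ∃ d ∈ DD N, d ∈ T ∧ Fp ⁅N, N⁆ W d := by
  by_contra! w
  obtain ⟨g, hg, u⟩ := SetLike.not_le_iff_exists.1 w.1
  have d := k.mem_D h.toSt hg.2 hg.1
  exact u ⟨nm ⊤ _ trivial, fun e he => cm_swap
    ((dich c (h.dW c) d).resolve_right (w.2 g d hg.2) e he)⟩

theorem Fr.exd (h : Fr S N x B X) (c : Chief ⊤ W ⁅N, N⁆) {φ : (⁅N, N⁆ : Subgroup G) → ℂ}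
    (a : IsIrrCharacter _ φ) (b : φ 1 ≠ 1) : ∃ d ∈ DD N, d ∈ In _ φ ∧ Fp ⁅N, N⁆ W d := by
  refine (h.dd c (h.gd le_rfl a (fun w => b (congrFun w 1)) (le_inertia_self a))).resolve_left
    fun w => ?_
  obtain ⟨α, -, a1, l⟩ := h.fv c w
  obtain ⟨t, -, e⟩ := exists_cd a
  obtain ⟨d, hd, k⟩ := exists_inertia_dvd a e
  have l := index_dvd_of_le l
  rw [← h.anti _ (h.sd_idx h.sX α) _ (h.sub hd) ((h.gdE a1).idx h.toSt)
    (l.trans ((Dvd.intro _ rfl).trans k))] at k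
  have := Nat.dvd_of_mul_dvd_mul_left (Nat.pos_of_ne_zero index_ne_zero_of_finite)
    ((k.trans l).trans (mul_one _).symm.dvd)
  exact b (by rw [e, Nat.dvd_one.1 this, Nat.cast_one])

theorem Fr.nonab (h : Fr S N x B X) (c : Chief ⊤ ⁅⁅N, N⁆, ⁅N, N⁆⁆ ⁅N, N⁆)
    (m : MinN ⁅⁅N, N⁆, ⁅N, N⁆⁆ ⊤) : False := by
  have := h.sol
  have cE := m.cent_of_nil le_top (normalIn_top.2 inferInstance) h.nil
  obtain ⟨g, hg, gW⟩ := SetLike.not_le_iff_exists.1 c.lt.not_ge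
  have sj : Function.Surjective (brk cE ⟨g, hg⟩) := fun e => by
    obtain ⟨n, hn, f⟩ := cls' c.lt.le (g := ⟨g, hg⟩) (fun ψ hψ k => by
      have n1 : ψ 1 ≠ 1 := fun w => k ((nl_iff hψ).2 w)
      obtain ⟨α, a, a1⟩ := exists_lin_ne le_rfl (x := ⟨g, hg⟩) gW
      obtain ⟨y, -, y1, y2⟩ := h.exd c hψ n1
      obtain ⟨z, hz, z1, z2⟩ := h.exd c (irr_linear_mul α hψ) (by simpa using n1)
      exact by_contra fun w => a1 (two_cm hψ a y2 z2 y1 z1 ((mem_DD.1 (inv_mem hz)).2 _) _ w)) e.2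
    exact ⟨⟨n, hn⟩, Subtype.ext f⟩
  have i : (brk cE ⟨g, hg⟩).ker.index = ♯⁅⁅N, N⁆, ⁅N, N⁆⁆ := by
    rw [index_ker, MonoidHom.range_eq_top.2 sj, card_top]
  have l : ⁅⁅N, N⁆, ⁅N, N⁆⁆.subgroupOf ⁅N, N⁆ ≤ (brk cE ⟨g, hg⟩).ker := fun w hw =>
    Subtype.ext (commutatorElement_eq_one_iff_mul_comm.2 (cE hg _ hw).symm)
  obtain ⟨r, hr, ab⟩ := c.exists_abelem inferInstance
  obtain ⟨n, e⟩ := ab.pi.card_pow
  rw [card_qt (nm _ _)] at e
  obtain ⟨k, kn, f⟩ := (Nat.dvd_prime_pow hr).1 (i.symm.dvd.trans ((index_dvd_of_le l).trans e.dvd))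
  refine (h.bound c).not_ge ?_
  rw [h.sB.relIndex_left, e]
  refine arith_gcd hr.one_lt (k := k) (Nat.pos_of_ne_zero fun w => m.ne_bot (card_eq_one.1 (by
    rw [f, w, pow_zero]))) (lt_of_le_of_ne kn fun w => gW ?_) ?_ ?_
  · exact (eq_of_le_of_index_le l (e.trans (w ▸ (i.trans f).symm)).le).ge (x := ⟨g, hg⟩)
      (Subtype.ext (commutatorElement_self g))
  · rw [← e, ← f, card_mul_relIndex c.lt.le]
    exact h.reg.card_dvd (nm _ _)
  · exact f ▸ (h.reg.mono c.lt.le le_rfl).card_dvd (nm _ _)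

theorem Fr.ab (h : Fr S N x B X) (c : Chief ⊤ W ⁅N, N⁆) (m : MinN W ⊤)
    (e : ⁅⁅N, N⁆, ⁅N, N⁆⁆ = ⊥) : False := by
  obtain ⟨w, hw, w1⟩ := exists_mem_ne_one m.ne_bot
  obtain ⟨θ, -, t1⟩ := exists_lin_ne (W := ⊥) e.le (x := ⟨w, c.lt.le hw⟩) w1
  have l1 : θ.comp (inclusion c.lt.le) ≠ 1 := fun e => t1 (DFunLike.congr_fun e ⟨w, hw⟩)
  have WE : ⁅W, ⁅N, N⁆⁆ ≤ ⊥ := (commutator_mono c.lt.le le_rfl).trans e.le
  have k := h.gd c.lt.le (irr_linear _) (lin_ne l1) (le_Il.2 ((subgroupOf_mono W WE).trans (by simp)))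
  obtain ⟨β, hβ, βE⟩ := h.exM
  obtain u | ⟨d, hd, dT, fp⟩ := h.dd c k
  · obtain ⟨α, a, a1, l⟩ := h.fv c u
    have P : ∀ γ ∈ Ann ⁅N, N⁆ W, Il _ α ≤ Il _ (θ * γ) := fun γ g => by
      have l' : Il _ (θ * γ) ≤ Il _ α := le_trans (fun s hs => mem_Il.2 fun v => by
        have := mem_Il.1 hs ⟨v, c.lt.le v.2⟩
        rwa [MonoidHom.mul_apply, MonoidHom.mul_apply, g (x := ⟨v, _⟩) v.2,
          g (x := (NormalEmb.sub _).c s _) (Normal.conj_mem inferInstance _ v.2 s), mul_one,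
          mul_one] at this) l
      exact (eq_of_le_of_index_le l' (h.anti _ (h.sd_idx h.sX α) _ (h.sd_idx h.sX _)
        ((h.gdE a1).idx h.toSt) (index_dvd_of_le l')).ge).ge
    obtain ⟨y, hy, yN⟩ := (h.gdE a1).ex
    have := Il_mul (Il_inv (P 1 (one_mem _) hy)) (P _ (smul_ann a β⁻¹) hy)
    rw [show (θ * 1)⁻¹ * (θ * β⁻¹ • α) = β⁻¹ • α from MonoidHom.ext fun _ => by simp, Il_smul,
      mem_cj, inv_inv] at this
    exact βE ((h.gdE a1).not_cj h.toSt hy yN hβ this)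
  have dc := (dich (W := ⊥) ⟨bot_lt_iff_ne_bot.2 m.ne_bot, nm _ _, normalIn_top.2 inferInstance,
    fun V _ b n => (m.eq_bot_or b.le n).resolve_right b.ne⟩ WE hd).resolve_right
      fun w => l1 (w.eq_one (mem_Ann.2 (by simp)) dT)
  obtain ⟨θ0, -, t0, dt⟩ := exists_fix (W := ⊥) e.le (y := d) fun f => w1 (f w (c.lt.le hw) (dc w hw))
  have Q : ∀ γ ∈ Ann ⁅N, N⁆ W, ∃ y, y ∉ N ∧ y ∈ Il _ γ ∧ y ∈ Il _ θ0 := fun γ g => by
    obtain ⟨y, hy, yN⟩ := (h.gdE (α := γ * θ0) fun w => t0 (fp.eq_one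
      ((show θ0 = γ⁻¹ from eq_inv_of_mul_eq_one_right w) ▸ inv_mem g) dt)).ex
    have f := dif_eq (smul_iff.2 hy)
    have o := fp.eq_one (mul_mem (smul_ann g y) (inv_mem g))
      (f ▸ Il_inv (Il_dif dt ((mem_DD.1 hd).2 y)))
    exact ⟨y, yN, smul_iff.1 (mul_inv_eq_one.1 o),
      smul_iff.1 (mul_inv_eq_one.1 (inv_eq_one.1 (f.symm.trans o)))⟩
  obtain ⟨α, a, a1⟩ := exists_lin_of_der_le c.lt.not_ge (h.dW c)
  obtain ⟨y, yN, y1, y2⟩ := Q α a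
  obtain ⟨z, zN, z1, z2⟩ := Q _ (smul_ann a β)
  rw [Il_smul] at z1
  obtain ⟨z, z3, rfl⟩ := mem_cj_iff.1 z1
  exact βE (h.fpM (fun w => zN (Normal.conj_mem inferInstance _ w β)) β hβ (h.fpM yN _ (cm_der β z)
    (mem_Cy.1 (mul_mem (mem_Cy.2 ((h.gdE t0).cm z2 y2)) (inv_mem (mem_Cy.2 ((h.gdE a1).cm z3 y1)))))))

theorem St.minE (n : ℕ) : ∀ (G : Type u) [Group G] [Finite G] (N : Subgroup G) [N.Normal] (x : G),
    Nat.card G = n → St S N x → CyD N → ⁅N, N⁆ = ⊥ ∨ MinN ⁅N, N⁆ ⊤ := by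
  induction n using Nat.strong_induction_on with | _ n ih => ?_
  intro G _ _ N _ x e h k
  by_contra! w
  obtain ⟨W, l, m⟩ := exists_minN w.1 (nm ⊤ _)
  have := nrm_of m.norm
  have lt : W < ⁅N, N⁆ := lt_of_le_of_ne l fun v => w.2 (v ▸ m)
  have sj := QuotientGroup.mk'_surjective W
  have := Normal.map ‹N.Normal› _ sj
  have i := ih _ (e ▸ Solv.card_quotient_lt m.ne_bot) _ _ _ rfl (h.quot (l.trans le_DD)) k.map
  rw [← map_commutator, Subgroup.map_eq_bot_iff, QuotientGroup.ker_mk'] at i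
  have c : Chief ⊤ W ⁅N, N⁆ := ⟨lt, m.norm, normalIn_top.2 inferInstance, fun V a b n => by
    have := Normal.map (nrm_of n) _ sj
    obtain v | v := (i.resolve_left lt.not_ge).eq_bot_or (map_mono b.le) (nm _ _)
    · rw [Subgroup.map_eq_bot_iff, QuotientGroup.ker_mk'] at v
      exact le_antisymm v a
    · have := map_le_map_iff.1 v.ge
      rw [QuotientGroup.ker_mk', sup_eq_left.2 a] at this
      exact absurd this b.not_ge⟩
  obtain ⟨B, X, f⟩ := h.fr k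
  obtain v | rfl := m.eq_bot_or (f.dW c) (nm _ _)
  exacts [f.ab c m v, f.nonab c m]

theorem St.claim2 (h : St S N x) (k : CyD N) : ∃ w, 𝐜𝐝 G ⊆ {1, N.index, w} := by
  obtain e | m := St.minE _ G N x rfl h k
  · refine ⟨1, fun d hd => ?_⟩
    obtain w | w | ⟨ψ, t, -, -, w, -⟩ := h.cases hd
    · exact .inl w
    · exact .inr (.inl w)
    · exact absurd (by rw [e, bot_subgroupOf]; exact bot_le) w
  obtain ⟨B, X, f⟩ := h.fr k
  have c : Chief ⊤ ⊥ ⁅N, N⁆ := ⟨bot_lt_iff_ne_bot.2 m.ne_bot, nm _ _, normalIn_top.2 inferInstance,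
    fun V _ b n => (m.eq_bot_or b.le n).resolve_right b.ne⟩
  obtain ⟨α, a, a1⟩ := exists_lin_of_der_le c.lt.not_ge (f.dW c)
  refine ⟨(Il _ α).index, fun d hd => ?_⟩
  obtain w | w | ⟨ψ, t, u, v, w, rfl⟩ := h.cases hd
  · exact .inl w
  · exact .inr (.inl w)
  obtain ⟨μ, m1, j⟩ | ⟨-, θ, s, a, b, s1, -⟩ := rc_cases (Kd.rc2 (h.kd u v) u w)
  · exact .inr (.inr ((h.anti _ (h.sd_idx f.sX μ) _ (h.sub hd) ((f.gdE m1).idx h) j.dvd').symm.trans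
      (f.idx_eq c (mem_Ann.2 (by simp)) m1 a a1)))
  · exact absurd (by exact_mod_cast b.symm.trans ((nl_iff a).1
      ((subgroupOf_mono _ (f.dW c)).trans (by simp)))) s1

end CF.Nd
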